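import Cfsg.Agent.H9.Qk1
import Cfsg.Agent.H2.Graph4

/-! The rank data for the symplectic and unitary groups. -/

set_option autoImplicit false
set_option linter.unusedSectionVars false

namespace CfH9.Qk

open Module CfH2 Cfsg CfH3.QK Matrix
open Subgroup hiding one
open scoped commutatorElement MatrixGroups

theorem rank_pi {ι L H : Type*} [DecidableEq ι] [Group L] [Group H] [Finite H] (φ : (ι → L) →* H)
    (hφ : Function.Injective φ) {p : ℕ} (hp : p.Prime) {s t : L} (hs : s ^ p = 1) (n : s * t ≠ t * s) {i j : ι}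
    (ij : i ≠ j) : PRankAtLeast p 2 (H ⧸ center H) := by
  let ψ := (QuotientGroup.mk' (center H)).comp φ
  have key : ∀ g, ψ g = 1 → ∀ k, g k * t = t * g k := fun g hg k => by
    have := mem_center_iff.1 ((QuotientGroup.eq_one_iff _).1 hg) (φ (Pi.mulSingle k t))
    rw [← map_mul, ← map_mul] at this
    simpa using (congrFun (hφ this) k).symm
  have pw : ∀ k, ψ (Pi.mulSingle k s) ^ p = 1 := fun k => by rw [← map_pow, ← Pi.mulSingle_pow, hs]; simp
  refine rank2_of hp (pw i) (pw j) (fun e => n (by simpa using key _ e i))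
    ((Pi.mulSingle_commute (f := fun _ => L) ij s s).map ψ) fun ⟨k, e⟩ => n ?_
  have := key ((Pi.mulSingle i s ^ k)⁻¹ * Pi.mulSingle j s) (by
    rw [map_mul, map_inv, map_zpow, inv_mul_eq_one]; exact e) j
  simpa [ij.symm] using this

variable {F : Type} [Field F] [Fintype F]

/-- `SL₂ × ⋯ × SL₂` inside the symplectic group -/
def spPi (m : ℕ) (F : Type) [Field F] : (Fin m → SL(2, F)) →* symplecticGroup (Fin m) F :=
  MonoidHom.mk' (fun g => ⟨fromBlocks (diagonal fun i => g i 0 0) (diagonal fun i => g i 0 1)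
      (diagonal fun i => g i 1 0) (diagonal fun i => g i 1 1), by
    have h : ∀ i, g i 0 0 * g i 1 1 - g i 0 1 * g i 1 0 = 1 := fun i => by rw [← det_fin_two]; exact (g i).2
    rw [SymplecticGroup.mem_iff, J, fromBlocks_transpose, fromBlocks_multiply, fromBlocks_multiply]
    simp only [Matrix.mul_zero, Matrix.mul_one, Matrix.mul_neg, zero_add, add_zero, diagonal_transpose, Matrix.neg_mul,
      diagonal_mul_diagonal, diagonal_neg, diagonal_add, ← diagonal_one, ← diagonal_zero]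
    congr 2 <;> ext i
    exacts [by ring, by linear_combination -h i, by linear_combination h i, by ring]⟩) fun g g' => Subtype.ext (by
    simp [fromBlocks_multiply, diagonal_mul_diagonal, diagonal_add, Matrix.mul_apply, Fin.sum_univ_two])

theorem spPi_inj (m : ℕ) : Function.Injective (spPi m F) := fun g g' e => by
  obtain ⟨a, b, c, d⟩ := fromBlocks_inj.1 (congrArg Subtype.val e)
  ext i j k
  fin_cases j <;> fin_cases k
  exacts [congrFun (diagonal_injective a) i, congrFun (diagonal_injective b) i, congrFun (diagonal_injective c) i,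
    congrFun (diagonal_injective d) i]

theorem rank_psp {m : ℕ} (hm : 2 ≤ m) : PRankAtLeast 3 2 (PSp m F) :=
  rank_pi (spPi m F) (spPi_inj m) Nat.prime_three (s := ⟨!![0, -1; 1, -1], by simp [det_fin_two]⟩)
    (t := ⟨!![1, 1; 0, 1], by simp [det_fin_two]⟩) 
    (Subtype.ext (show !![0, -1; 1, -1] ^ 3 = (1 : Matrix (Fin 2) (Fin 2) F) by simp [pow_succ, one_fin_two]))
    (fun e => by simpa using congrFun (congrFun (show !![0, -1; 1, -1] * !![1, 1; 0, 1] =
      (!![1, 1; 0, 1] * !![0, -1; 1, -1] : Matrix (Fin 2) (Fin 2) F) from congrArg Subtype.val e) 0) 0)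
    (i := ⟨0, by omega⟩) (j := ⟨1, by omega⟩) (by simp)

theorem out_psp {m : ℕ} (hm : 2 ≤ m) : Group.IsSolvable (Out (PSp m F)) := by
  obtain ⟨p, hp⟩ := CharP.exists F
  have : Fact p.Prime := ⟨CharP.char_is_prime F p⟩
  have h := isWF_symp m F
  have hρ := rep_sp m F
  have hd : finrank F (Fin m ⊕ Fin m → F) = 2 * m := by simp; ring
  refine out_solv (hρ.setup_sp h (by omega)) (fun s l g hg a => ?_) (fun a ha b hb => hρ.surj _
    (mul_mem (mul_mem (mul_mem ha hb) (inv_mem ha)) (inv_mem hb))) ?_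
  · obtain ⟨k, hk⟩ := hg.exists_conj (linOf (spToMat m F) a)
    obtain ⟨a', rfl⟩ := hρ.surj k (hg.conj_isom (hρ.mem a) hk)
    exact ⟨a', hk⟩
  by_cases hc : m = 2 ∧ p = 2
  · obtain ⟨rfl, rfl⟩ := hc
    exact .inr (exists_graph (CharP.cast_eq_zero F 2) hρ)
  obtain ⟨x, hx⟩ := (hρ.setup_sp h (by omega)).nontriv
  refine .inl (eq_top_iff.2 fun α _ => (hρ.sp_dichotomy p h (by omega) hx α).resolve_right ?_)
  rintro ⟨h3, h4, -⟩
  exact hc ⟨by omega, h3⟩

theorem t_psp {K : Type*} [Group K] [Finite K] (h : IsPSp K) : T K := by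
  obtain ⟨F, _, _, m, hm, -, ⟨e⟩⟩ := h
  have r := rank_psp (F := F) hm
  exact T.equiv e ⟨.inl (dvd_of_rank Nat.prime_three (by omega) r), .inr ⟨3, Nat.prime_three, by omega, r⟩,
    .inr (.inl (out_psp hm))⟩

variable {q : ℕ} (hF : Fintype.card F = q ^ 2)

theorem mono {n : ℕ} (c : Equiv.Perm (Fin n)) (hc : Equiv.Perm.sign c = 1) (d : Fin n → F)
    (hd : ∀ i, d i ^ (q + 1) = 1) (hp : ∏ i, d i = 1) (hF : Fintype.card F = q ^ 2) :
    ∃ a : SU n F q, ∀ v i, (linOf (slToMat n F)).comp (SU n F q).subtype a v i = d i * v (c i) := by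
  have e : ∀ v : Fin n → F, (diagonal d * c.permMatrix F) *ᵥ v = fun i => d i * v (c i) := fun v => by
    ext i
    rw [← mulVec_mulVec, permMatrix_mulVec, mulVec_diagonal]; rfl
  refine ⟨⟨⟨diagonal d * c.permMatrix F, by simp [hp, hc]⟩, fun u v => ?_⟩, fun v i => congrFun (e v) i⟩
  change hermForm n F q ((diagonal d * c.permMatrix F) *ᵥ u) ((diagonal d * c.permMatrix F) *ᵥ v) = _
  rw [e, e, hermForm, hermForm, ← Equiv.sum_comp c fun i => u i * v i ^ q]
  exact Finset.sum_congr rfl fun i _ => by rw [mul_pow]; linear_combination u (c i) * v (c i) ^ q * hd i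

include hF in
theorem t_psu' {n : ℕ} (hn : 3 ≤ n) (h32 : ¬ (n = 3 ∧ q = 2)) : T (PSU n F q) := by
  obtain ⟨p, hp⟩ := CharP.exists F
  have : Fact p.Prime := ⟨CharP.char_is_prime F p⟩
  have h := isWF_hermB hF n
  have hρ := rep_SU hF n
  have hd : finrank F (Fin n → F) = n := by simp
  set B := hermB hF n
  set ρ := (linOf (slToMat n F)).comp (SU n F q).subtype
  have hσ := frobQ_ne_id hF
  have hq2 := two_le_of_card_sq hF
  obtain ⟨x, -, hx0, hx⟩ := herm_exists_iso hF h h.nondegOn_top (by rw [finrank_top]; omega)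
  have unip : ∀ x, B x x = 0 → ∀ g ∈ Qx B (fun x => B x x) x, ∃ a, ρ a = g := fun x _ g hg =>
    hρ.surj g ⟨det_of_RW p hg, hg.1⟩
  have S := setup_center h (by omega) hρ.inj (fun a => (hρ.mem a).2) unip hx hx0
  have hσ' : ∃ t, t ≠ 1 * frobQ hF t := by
    obtain ⟨c, hc⟩ := exists_sigma_ne hσ
    exact ⟨c, by simpa using hc.symm⟩
  have hτ := exists_trc_zero hσ h.invol
  have htop : S.Ind = ⊤ := by
    rw [eq_top_iff]
    intro α _
    by_cases h3 : n = 3
    · obtain ⟨z, hz, hz0, hφ⟩ := S.exists_phi_of_center p hσ' hτ hx hx0 (S.irr_of_three (hd.trans h3) hx0) α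
      exact S.induced_of_phi_three p hσ (hd.trans h3) (fun g hg hd => hρ.surj g ⟨mem_det_ker.2 hd, hg⟩)
        (span_torus hF (by omega)) hx hx0 hz hz0 hφ
    · have hI : CaseI (trc (frobQ hF)) B (fun x => B x x) :=
        ⟨fun N hN hd => herm_exists_iso hF h hN (by omega), Or.inl hτ⟩
      obtain ⟨z, hz, hz0, hφ⟩ := S.exists_phi_of_center p hσ' hτ hx hx0 (S.irr_of_caseI p hI hx hx0) α
      exact S.induced_of_phi_caseI p hI (Or.inl rfl) (fun s l t => trc_compat s l t) hx hx0 hz hz0 hφ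
  have hO := out_solv S (fun s l g hg a => ?_) (fun a ha b hb => hρ.surj _ (mem_inf.2 ⟨by simp [commutatorElement_def],
    mul_mem (mul_mem (mul_mem ha hb) (inv_mem ha)) (inv_mem hb)⟩)) (.inl htop)
  swap
  · refine norm_of_closure unip (fun a => closure_mono ?_ (h.su_le_closure hσ (by omega) ?_ (hρ.mem a))) s l g hg a
    · rintro g ⟨hg, v, c, hv, hc⟩
      exact ⟨v, hv, mem_Qx.2 ⟨hg, by rw [hc, hv]; simp, fun w _ => ⟨_, hc w⟩⟩⟩
    · by_cases h4 : 4 ≤ n
      · exact Or.inl (by omega)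
      · exact Or.inr (exists_norm_ne_one hF (by omega))
  set π := QuotientGroup.mk' (center (SU n F q))
  have mo : ∀ c : Equiv.Perm (Fin n), Equiv.Perm.sign c = 1 → ∀ d : Fin n → F, (∀ i, d i ^ (q + 1) = 1) →
      ∏ i, d i = 1 → ∃ a, ∀ v i, ρ a v i = d i * v (c i) := fun c hc d hd hp => mono c hc d hd hp hF
  clear htop hτ unip hd
  clear_value π ρ B
  obtain ⟨m, rfl⟩ : ∃ m, n = m + 3 := ⟨n - 3, by omega⟩
  have n0 : (0 : Fin (m + 3)) ≠ 2 := by rw [Ne, Fin.ext_iff, Fin.val_two]; simp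
  have n1 : (1 : Fin (m + 3)) ≠ 2 := by rw [Ne, Fin.ext_iff, Fin.val_two]; simp
  have c3 := Equiv.Perm.isThreeCycle_swap_mul_swap_same (by simp) n0 n1
  obtain ⟨y, hy⟩ := mo _ c3.sign 1 (by simp) (by simp)
  have c0 : (Equiv.swap 0 1 * Equiv.swap 0 2 : Equiv.Perm (Fin (m + 3))) 0 = 2 := by
    simp [Equiv.swap_apply_of_ne_of_ne n0.symm n1.symm]
  have y3 : π y ^ 3 = 1 := by
    rw [← map_pow, show y ^ 3 = 1 from hρ.inj (LinearEquiv.ext fun v => funext fun i => ?_), map_one]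
    have := congrArg (fun g : Equiv.Perm _ => v (g i)) (c3.orderOf ▸ pow_orderOf_eq_one _)
    simpa [pow_succ, hy] using this
  have dg : ∀ {a} {d : Fin (m + 3) → F}, (∀ v i, ρ a v i = d i * v i) → ∀ k v i, ρ (a ^ k) v i = d i ^ k * v i := fun {a d} ha k => by
    induction k with
    | zero => simp
    | succ k ih => intro v i; rw [pow_succ', map_mul, LinearEquiv.mul_apply, ha, ih]; ring
  have ny : ∀ {a} {d : Fin (m + 3) → F}, (∀ v i, ρ a v i = d i * v i) → π y ≠ π a := fun {a d} ha e => by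
    obtain ⟨c, hc⟩ := S.scalar_of_pi e
    have := congrFun (hc (Pi.single 2 1)) 0
    rw [hy, c0, Pi.smul_apply, ha] at this
    simp [n0] at this
  refine ⟨.inl ?_, .inr ?_, .inr (.inl hO)⟩
  · exact (orderOf_eq_prime y3 (map_one π ▸ ny (d := 1) (by simp))).symm.dvd.trans (orderOf_dvd_natCard _)
  by_cases p2 : p = 2
  swap
  · exact ⟨p, Fact.out, p2, rank_odd S p p2 hσ' hx hx0⟩
  have oq : Odd (q + 1) := by
    obtain ⟨k, -, hk⟩ := FiniteField.card F p
    have : 2 ∣ q ^ 2 := by rw [← hF, hk, p2]; exact dvd_pow_self 2 k.ne_zero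
    exact (even_iff_two_dvd.2 (Nat.prime_two.dvd_of_dvd_pow this)).add_one
  obtain ⟨r, hr, rq⟩ := Nat.exists_prime_and_dvd (n := q + 1) (by omega)
  have := Fact.mk hr
  obtain ⟨u, hu⟩ := exists_prime_orderOf_dvd_card' (G := Fˣ) r (by rw [card_units_eq hF]; exact rq.mul_right _)
  rw [← orderOf_units] at hu
  have u0 := u.ne_zero
  generalize (u : F) = w at hu u0
  have w1 : w ≠ 1 := fun e => hr.one_lt.ne (by rw [← hu, e, orderOf_one])
  have wr : w ^ r = 1 := hu ▸ pow_orderOf_eq_one w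
  have D : ∀ a b c : F, a ^ r = 1 → b ^ r = 1 → c ^ r = 1 → a * (b * c) = 1 → ∃ g, π g ^ r = 1 ∧
      ∀ v i, ρ g v i = vecCons a (vecCons b (vecCons c 1)) i * v i := fun a b c ha hb hc e => by
    have k : ∀ i : Fin (m + 3), vecCons a (vecCons b (vecCons c (1 : Fin m → F))) i ^ r = 1 := by
      simp [Fin.forall_fin_succ, ha, hb, hc]
    obtain ⟨j, hj⟩ := rq
    obtain ⟨g, hg⟩ := mo 1 (by simp) (vecCons a (vecCons b (vecCons c 1)))
      (fun i => by rw [hj, pow_mul, k, one_pow]) (by simp [Fin.prod_univ_succ, e])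
    refine ⟨g, ?_, hg⟩
    rw [← map_pow, show g ^ r = 1 from hρ.inj (LinearEquiv.ext fun v => funext fun i => ?_), map_one]
    rw [dg hg, k]; simp
  have wi : w⁻¹ ^ r = 1 := by rw [inv_pow, wr, inv_one]
  obtain ⟨a, ar, ha⟩ := D w w⁻¹ 1 wr wi (one_pow _) (by field_simp)
  have a1 : π a ≠ 1 := fun e => by
    obtain ⟨c, hc⟩ := (S.ker a).1 e
    have h0 := congrFun (hc 1) 0
    have h2 := congrFun (hc 1) 2
    rw [ha] at h0 h2
    simp at h0 h2
    exact w1 (h0.trans h2.symm)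
  refine ⟨r, hr, fun e => by rw [e] at rq; exact (Nat.not_even_iff_odd.2 oq) (even_iff_two_dvd.2 rq), ?_⟩
  by_cases k : m = 0 ∧ w ^ 3 = 1
  · obtain ⟨rfl, w3⟩ := k
    obtain rfl : r = 3 := (Nat.prime_dvd_prime_iff_eq hr Nat.prime_three).1 (hu ▸ orderOf_dvd_of_pow_eq_one w3)
    refine rank2_of hr ar y3 a1 ?_ fun e => ?_
    · rw [← map_mul, ← map_mul]
      refine S.pi_eq_of_scalar (c := w) fun v => funext fun i => ?_
      rw [map_mul, map_mul, LinearEquiv.mul_apply, LinearEquiv.mul_apply, Pi.smul_apply, ha, hy, hy, ha]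
      have w2 : w⁻¹ = w * w := inv_eq_of_mul_eq_one_right (by linear_combination w3)
      fin_cases i <;> simp [Equiv.swap_apply_def, w2]
      · ring
      · linear_combination (-v 1) * w3
    · obtain ⟨k, e⟩ := mem_powers_iff_mem_zpowers.2 e
      exact ny (dg ha k) (by rw [map_pow]; exact e.symm)
  obtain ⟨b, br, hb⟩ := D 1 w w⁻¹ (one_pow _) wr wi (by field_simp)
  refine rank2_of hr ar br a1 ?_ fun e => k ?_
  · rw [← map_mul, ← map_mul]
    refine S.pi_eq_of_scalar (c := 1) fun v => funext fun i => ?_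
    rw [map_mul, map_mul, LinearEquiv.mul_apply, LinearEquiv.mul_apply, one_smul, ha, hb, hb, ha]; ring
  obtain ⟨j, e⟩ := mem_powers_iff_mem_zpowers.2 e
  obtain ⟨c, hc⟩ := S.scalar_of_pi (a := b) (b := a ^ j) (by rw [map_pow]; exact e.symm)
  have h0 := fun i => congrFun (hc 1) i
  simp only [Pi.smul_apply, hb, dg ha] at h0
  have h1 := h0 0
  have h2 := h0 1
  have h3 := h0 2
  simp at h1 h2 h3
  subst h3
  rw [← (eq_inv_mul_iff_mul_eq₀ u0).1 h1] at h2
  refine ⟨by_contra fun h => w1 ?_, by field_simp at h2; exact h2⟩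
  simpa [eq_comm] using h0 (Fin.succ (Fin.succ (Fin.succ ⟨0, by omega⟩)))

theorem t_psu {K : Type*} [Group K] [Finite K] (h : IsPSU K) : T K := by
  obtain ⟨F, _, _, n, q, hF, hn, h32, ⟨e⟩⟩ := h
  exact T.equiv e (t_psu' hF hn h32)

end CfH9.Qk
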