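import Cfsg.Agent.H9.ZJ
import Cfsg.Prelude.Def_DStar
import Cfsg.Agent.H1.Frattini

/-! The Glauberman-Solomon subgroup `D*`. -/

set_option autoImplicit false

namespace CfH9

open Subgroup Cfsg CfH7
open scoped commutatorElement

variable {G : Type*} [Group G] {p : ℕ}

/-- `A ∈ 𝒟*(P)` -/
structure DS (P A : Subgroup G) : Prop where
  le : A ≤ P
  comm : IsMulCommutative A
  cent : ∀ x ∈ P, ⁅⁅A ⊔ zpowers x, A ⊔ zpowers x⁆, A ⊔ zpowers x⁆ = ⊥ → x ∈ Cz(A)

theorem ds_top_iff {A : Subgroup G} : DS ⊤ A ↔ A ∈ dStarFamily G :=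
  ⟨fun h => ⟨h.comm, fun x hx a ha => h.cent x (mem_top x) hx a ha⟩,
    fun h => ⟨le_top, h.1, fun x _ hx a ha => h.2 x hx a ha⟩⟩

theorem ds_map_subtype_iff {P : Subgroup G} {A : Subgroup P} :
    DS P (A.map P.subtype) ↔ A ∈ dStarFamily P := by
  have key : ∀ x : P, ⁅⁅A ⊔ zpowers x, A ⊔ zpowers x⁆, A ⊔ zpowers x⁆ = ⊥ ↔
      ⁅⁅A.map P.subtype ⊔ zpowers x.1, A.map P.subtype ⊔ zpowers x.1⁆,
        A.map P.subtype ⊔ zpowers x.1⁆ = ⊥ := fun x => by
    rw [← (map_eq_bot_iff_of_injective _ P.subtype_injective), map_commutator, map_commutator,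
      Subgroup.map_sup, MonoidHom.map_zpowers]; rfl
  refine ⟨fun h => ⟨comm_map_subtype_iff.1 h.comm, fun x hx a ha => Subtype.ext
    (h.cent x x.2 ((key x).1 hx) a (mem_map_of_mem _ ha))⟩, fun h => ⟨map_subtype_le _,
    comm_map h.1 _, fun x hx h' => ?_⟩⟩
  rintro _ ⟨a, ha, rfl⟩
  exact congrArg Subtype.val (h.2 ⟨x, hx⟩ ((key ⟨x, hx⟩).2 h') a ha)

theorem DS.le_dStarOf {P A : Subgroup G} (h : DS P A) : A ≤ dStarOf P := by
  have e := map_subgroupOf_eq_of_le h.le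
  exact e.ge.trans (map_mono (le_sSup (ds_map_subtype_iff.1 (e.symm ▸ h))))

theorem dStarOf_le_iff {P W : Subgroup G} : dStarOf P ≤ W ↔ ∀ A, DS P A → A ≤ W :=
  ⟨fun h _ hA => hA.le_dStarOf.trans h, fun h => map_le_iff_le_comap.2
    (sSup_le fun A hA => map_le_iff_le_comap.1 (h _ (ds_map_subtype_iff.2 hA)))⟩

theorem dStarOf_le (P : Subgroup G) : dStarOf P ≤ P := map_subtype_le _

theorem dStarOf_top : dStarOf (⊤ : Subgroup G) = dStar G :=
  le_antisymm (dStarOf_le_iff.2 fun _ h => le_sSup (ds_top_iff.1 h))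
    (sSup_le fun _ h => (ds_top_iff.2 h).le_dStarOf)

theorem DS.mono {P R A : Subgroup G} (h : DS P A) (h1 : A ≤ R) (h2 : R ≤ P) : DS R A :=
  ⟨h1, h.comm, fun x hx => h.cent x (h2 hx)⟩

theorem DS.cj {P A : Subgroup G} (h : DS P A) (g : G) : DS (cj g P) (cj g A) := by
  refine ⟨cj_mono g h.le, isMulCommutative_cj h.comm g, fun x hx h' => ?_⟩
  obtain ⟨y, hy, rfl⟩ := mem_cj'.1 hx
  rw [← cj_zpowers, ← cj_sup, ← cj_commutator, ← cj_commutator, cj_eq_bot_iff] at h'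
  rw [← cj_centralizer]
  exact conj_mem_cj g (h.cent y hy h')

theorem Nm_le_Nm_dStarOf [Finite G] (P : Subgroup G) : Nm(P) ≤ Nm(dStarOf P) := fun g hg =>
  mem_normalizer_of_cj_le (cj_le_iff.2 (dStarOf_le_iff.2 fun A hA => cj_le_iff.1 (by
    have := hA.cj g
    rw [cj_eq_of_mem_normalizer hg] at this
    exact this.le_dStarOf)))

theorem cl2_of_le {A B Z : Subgroup G} (hA : IsMulCommutative A) (hB : IsMulCommutative B)
    (h1 : ⁅A, B⁆ ≤ Z) (h2 : Z ≤ Cz(A ⊔ B)) : ⁅⁅A ⊔ B, A ⊔ B⁆, A ⊔ B⁆ = ⊥ := by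
  have hn := (le_Cz_comm h2).trans (Cz_le_Nm Z)
  have ha := le_sup_left.trans hn
  have hb := le_sup_right.trans hn
  refine comm_eq_bot_left.2 (le_trans ?_ h2)
  refine commutator_sup_left_le ha hb (commutator_sup_right_le ha hb ?_ h1)
    (commutator_sup_right_le ha hb ?_ ?_)
  · exact (comm_eq_bot_left.2 (le_Cz_of_comm hA)).le.trans bot_le
  · rwa [Subgroup.commutator_comm]
  · exact (comm_eq_bot_left.2 (le_Cz_of_comm hB)).le.trans bot_le

theorem cl2_mono {A B : Subgroup G} (h : A ≤ B) (hB : ⁅⁅B, B⁆, B⁆ = ⊥) : ⁅⁅A, A⁆, A⁆ = ⊥ :=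
  eq_bot_iff.2 ((commutator_mono (commutator_mono h h) h).trans hB.le)

theorem cl2_of_quadratic {A : Subgroup G} {x : G} (hA : IsMulCommutative A) (hx : x ∈ Nm(A))
    (h : ⁅⁅A, zpowers x⁆, zpowers x⁆ = ⊥) :
    ⁅⁅A ⊔ zpowers x, A ⊔ zpowers x⁆, A ⊔ zpowers x⁆ = ⊥ :=
  cl2_of_le hA (comm_zpowers x) le_rfl (by
    rw [Cz_sup]
    exact le_inf ((comm_le_left (zpowers_le.2 hx)).trans (le_Cz_of_comm hA)) (comm_eq_bot_left.1 h))

variable [Finite G] [hp : Fact p.Prime]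

theorem DS.le_Cz {P A B : Subgroup G} (h : DS P A) (hP : IsPGroup p P) (hB : B ≤ P)
    (hc : IsMulCommutative B) (hn : A ≤ Nm(B)) : B ≤ Cz(A) := by
  by_contra hne
  have h1 : A ⊔ B ⊓ Cz(A) < A ⊔ B := lt_of_le_not_ge (sup_le_sup_left inf_le_left _) fun h1 =>
    hne (le_sup_right.trans (h1.trans (sup_le (le_Cz_of_comm h.comm) inf_le_right)))
  have h2 := lt_inf_Nm (hP.to_le (sup_le h.le hB)) h1
  rw [inf_sup_dedekind (Or.inl hn) (le_sup_left.trans le_normalizer)] at h2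
  refine h2.not_ge (sup_le_sup_left (fun x hx => mi (mi1 hx) (h.cent x (hB (mi1 hx))
    (cl2_of_le (Z := B ⊓ Cz(A)) h.comm (comm_zpowers x) ?_ ?_))) _)
  · have h3 : ⁅A, zpowers x⁆ ≤ (A ⊔ B ⊓ Cz(A)) ⊓ B := le_inf ((commutator_mono le_sup_left
      le_rfl).trans (comm_le_left (zpowers_le.2 (mi2 hx)))) ((commutator_mono le_rfl
        (zpowers_le.2 (mi1 hx))).trans (comm_le_right hn))
    exact le_inf (h3.trans inf_le_right) (h3.trans (inf_le_left.trans
      (sup_le (le_Cz_of_comm h.comm) inf_le_right)))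
  · rw [Cz_sup]
    exact le_inf inf_le_right (inf_le_left.trans ((le_Cz_of_comm hc).trans
      (Cz_anti (zpowers_le.2 (mi1 hx)))))

theorem comm_dStarOf {P : Subgroup G} (hP : IsPGroup p P) : IsMulCommutative (dStarOf P) := by
  induction P using subgroup_induction with | h P ih => ?_
  refine le_centralizer_iff_isMulCommutative.1 (dStarOf_le_iff.2 fun A hA => le_Cz_comm
    (dStarOf_le_iff.2 fun B hB => ?_))
  by_cases hAP : A = P
  · exact hB.le.trans (hAP ▸ le_Cz_of_comm hA.comm)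
  obtain ⟨M, hM, hAM⟩ := (eq_top_or_exists_le_coatom (A.subgroupOf P)).resolve_left
    fun h => hAP (le_antisymm hA.le (subgroupOf_eq_top.1 h))
  have := hP.isNilpotent
  have := CfH1.normal_of_isCoatom_of_isNilpotent hM
  have h1 : M.map P.subtype < P := lt_of_le_not_ge (map_subtype_le M) fun h => hM.1
    (eq_top_iff.2 fun x _ => (mem_map_iff_mem P.subtype_injective).1 (h x.2))
  have h2 : A ≤ M.map P.subtype := (map_subgroupOf_eq_of_le hA.le).ge.trans (map_mono hAM)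
  exact le_Cz_comm ((hA.mono h2 h1.le).le_dStarOf.trans (hB.le_Cz hP ((dStarOf_le _).trans h1.le)
    (ih _ (card_lt_of_lt h1) (hP.to_le h1.le))
    (hB.le.trans ((le_normalizer_map_subtype M).trans (Nm_le_Nm_dStarOf _)))))

theorem ds_dStarOf {P : Subgroup G} (hP : IsPGroup p P) : DS P (dStarOf P) :=
  ⟨dStarOf_le P, comm_dStarOf hP, fun x hx h => le_Cx_iff.1 (dStarOf_le_iff.2 fun _ hA =>
    le_Cx_iff.2 (hA.cent x hx (cl2_mono (sup_le_sup_right hA.le_dStarOf _) h)))⟩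

theorem dStarOf_le_ZJ {P : Subgroup G} (hP : IsPGroup p P) : dStarOf P ≤ ZJ 0 P := by
  have hD := ds_dStarOf hP
  have hn := le_normalizer.trans (Nm_le_Nm_dStarOf P)
  refine le_ZJ hD.le (elemAb_zero_iff.2 hD.comm) (le_Cz_comm ?_)
  by_contra h
  obtain ⟨A, hA, h1, h2⟩ := exists_maxEA_quadratic hP hD.le hn (elemAb_zero_iff.2 hD.comm)
    inf_le_right h
  exact h1 fun x hx => hD.cent x (hA.le hx) (cl2_of_quadratic hD.comm (hn (hA.le hx))
    (eq_bot_iff.2 ((commutator_mono (commutator_mono le_rfl (zpowers_le.2 hx))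
      (zpowers_le.2 hx)).trans h2.le)))

/-- the `D*`-theorem -/
theorem dStar_normal {H S : Subgroup G} (hS : SylIn p S H) (hst : NStab p H) (hc : ChP p H) :
    H ≤ Nm(dStarOf S) := by
  have hD := ds_dStarOf hS.pgrp
  have hSD := le_normalizer.trans (Nm_le_Nm_dStarOf S)
  set D := dStarOf S
  have hTS : pCoreOf p H ≤ S := sylIn_pCoreOf_le hS
  have hn := le_normalizer_pCoreOf (p := p) H
  have h1 : D ≤ pCoreOf p H := by
    have := hst.le (pCoreOf_le H) hn (isPGroup_pCoreOf H) (hD.le.trans hS.le) (comm_eq_bot_left.2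
      ((comm_le_right (hTS.trans hSD)).trans (le_Cz_of_comm hD.comm)))
    rwa [opm_eq_pCoreOf (hn.trans (Nm_le_Nm_Cz _)) ((isPGroup_pCoreOf H).to_le (chP_iff.1 hc))]
      at this
  have h2 : nclo D H ≤ dStarOf (pCoreOf p H) :=
    nclo_le (hn.trans (Nm_le_Nm_dStarOf _)) (hD.mono h1 hTS).le_dStarOf
  have hW := right_le_Nm_nclo D H
  have hWS : nclo D H ≤ S := h2.trans ((dStarOf_le _).trans hTS)
  have hWc := comm_of_le h2 (comm_dStarOf (isPGroup_pCoreOf H))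
  have h3 : DS S (nclo D H) := ⟨hWS, hWc, fun x hx h => by
    have hC := hW.trans (Nm_le_Nm_Cz _)
    have hx' := hst _ (hWS.trans hS.le) hW (hS.pgrp.to_le hWS) x (hS.le hx) (eq_bot_iff.2
      ((commutator_mono (commutator_mono le_sup_left le_sup_right) le_sup_right).trans h.le))
    refine le_Cx_iff.1 (nclo_le_iff'.2 fun g hg => ?_)
    obtain ⟨n, hn, l, hl, rfl⟩ := (hS.inf_opm hC).frattini' (le_Nm_opm hC hg)
    have hnH : n ∈ H := (mul_mem_cancel_right (opm_le _ _ hl)).1 hg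
    rw [hS.opm_eq hC, sup_comm] at hl
    obtain ⟨s, hs, c, hc', rfl⟩ := (mem_sup_of_le_Nm (inf_le_left.trans (hS.le.trans
      (le_normalizer_inf le_normalizer hC)))).1 hl
    rw [cj_mul, cj_mul, cj_eq_of_mem_centralizer (Cz_anti (le_nclo D H) (mi2 hc')),
      cj_eq_of_mem_normalizer (hSD (mi1 hs)), cj_le_iff, cj_Cx, le_Cx_iff]
    refine hD.cent _ (mi1 (conj_mem_of_mem_normalizer (inv_mem hn) (mi hx hx'))) (cl2_mono
      (sup_le_sup_right (le_nclo D H) _) ?_)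
    rw [← cj_eq_of_mem_normalizer (hW (inv_mem hnH)), ← cj_zpowers, ← cj_sup, ← cj_commutator,
      ← cj_commutator, h, cj_bot]⟩
  rwa [le_antisymm h3.le_dStarOf (le_nclo D H)] at hW

end CfH9
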