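import Cfsg.Agent.H9.Yoshida
import Cfsg.Agent.H9.NPC2

/-! Iterated commutators with one element: bilinear shifting, Thompson's lemma on abelian
subgroups of largest order, and the Hall–Higman bound for a fixed point free action. -/

set_option autoImplicit false
set_option linter.unusedSectionVars false

namespace CfH9

open Subgroup Cfsg CfH7 CfH1 Finset
open scoped commutatorElement

variable {G : Type*} [Group G] {p : ℕ} {W : Type*} [AddCommGroup W]
  {A B D E M N S X Y Z : Subgroup G} {a b c g x y z : G}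

/-- the commutator `[y, z]` -/
abbrev dl (z : G) : G → G := fun y => y⁻¹ * z⁻¹ * y * z

theorem dl_mem (hz : z ∈ Nm(X)) (hy : y ∈ X) : dl z y ∈ X := by
  simpa [dl, mul_assoc] using X.mul_mem (X.inv_mem hy) (conj_mem_of_mem_normalizer' hz hy)

theorem dl_iter_mem (hz : z ∈ Nm(X)) (hy : y ∈ X) (k : ℕ) : (dl z)^[k] y ∈ X := by
  induction k with
  | zero => exact hy
  | succ k ih => rw [Function.iterate_succ_apply']; exact dl_mem hz ih

theorem dl_iter_le (hz : z ∈ Nm(X)) {k l : ℕ} (h : (dl z)^[k] y ∈ X) (hl : k ≤ l) :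
    (dl z)^[l] y ∈ X := by
  obtain ⟨m, rfl⟩ := Nat.exists_eq_add_of_le' hl
  rw [Function.iterate_add_apply]
  exact dl_iter_mem hz h m

theorem dl_iter_one {k l : ℕ} (h : (dl z)^[k] y = 1) (hl : k ≤ l) : (dl z)^[l] y = 1 :=
  mem_bot.1 (dl_iter_le (le_normalizer_of_normal (mem_top z)) (mem_bot.2 h) hl)

theorem dl_eq (z y : G) : dl z y = ⁅y⁻¹, z⁻¹⁆ := by simp [dl, commutatorElement_def]

theorem dl_mem_comm (hy : y ∈ X) (hz : z ∈ Y) : dl z y ∈ ⁅X, Y⁆ :=
  dl_eq z y ▸ commutator_mem_commutator (inv_mem hy) (inv_mem hz)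

theorem dl_eq_one : dl z y = 1 ↔ y * z = z * y := by
  rw [dl_eq, commutatorElement_eq_one_iff_mul_comm, ← mul_inv_rev, ← mul_inv_rev, inv_inj, eq_comm]

theorem map_dl_iter {G' : Type*} [Group G'] (f : G →* G') (z y : G) (k : ℕ) :
    f ((dl z)^[k] y) = (dl (f z))^[k] (f y) := by
  induction k with
  | zero => rfl
  | succ k ih => simp only [Function.iterate_succ_apply', ← ih, dl, map_mul, map_inv]

theorem dl_mul (h : x⁻¹ * (z⁻¹ * x * z) * y = y * (x⁻¹ * (z⁻¹ * x * z))) :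
    dl z (x * y) = dl z x * dl z y := by
  have : dl z (x * y) = y⁻¹ * (x⁻¹ * (z⁻¹ * x * z) * y) * dl z y := by simp only [dl]; group
  rw [this, h]; simp only [dl]; group

theorem dl_iter_mul (hZ : IsMulCommutative Z) (hz : z ∈ Nm(Z)) (hx : x ∈ Z) (hy : y ∈ Z) (k : ℕ) :
    (dl z)^[k] (x * y) = (dl z)^[k] x * (dl z)^[k] y := by
  induction k with
  | zero => rfl
  | succ k ih =>
    simp only [Function.iterate_succ_apply', ih]
    have h1 := dl_iter_mem hz hx k
    exact dl_mul (comm_iff.1 hZ _ (mul_mem (inv_mem h1) (conj_mem_of_mem_normalizer' hz h1)) _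
      (dl_iter_mem hz hy k))

/-- the commutator of a bilinear commutator with `g` -/
theorem dl_comm (hA : g ∈ Nm(A)) (hB : g ∈ Nm(B)) (h1 : ⁅A, B⁆ ≤ Cz(A)) (h2 : ⁅A, B⁆ ≤ Cz(B))
    (hx : x ∈ A) (hy : y ∈ B) :
    dl g ⁅x, y⁆ = ⁅dl g x, y⁆ * ⁅x, dl g y⁆ * ⁅dl g x, dl g y⁆ := by
  have c1 : ∀ u ∈ A, ∀ v ∈ A, ∀ w ∈ B, Commute u ⁅v, w⁆ := fun u hu v hv w hw =>
    h1 (commutator_mem_commutator hv hw) u hu
  have c2 : ∀ u ∈ B, ∀ v ∈ A, ∀ w ∈ B, Commute u ⁅v, w⁆ := fun u hu v hv w hw =>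
    h2 (commutator_mem_commutator hv hw) u hu
  have hx' := dl_mem hA hx
  have hy' := dl_mem hB hy
  have e : dl g ⁅x, y⁆ = ⁅x, y⁆⁻¹ * ⁅x * dl g x, y * dl g y⁆ := by
    simp only [dl, commutatorElement_def]; group
  have c3 : ∀ v ∈ A, ∀ w ∈ B, ∀ v' ∈ A, ∀ w' ∈ B, Commute ⁅v, w⁆ ⁅v', w'⁆ :=
    fun v hv w hw v' hv' w' hw' => (((c1 v hv v' hv' w' hw').mul_left (c2 w hw v' hv' w' hw')).mul_left
      (c1 v hv v' hv' w' hw').inv_left).mul_left (c2 w hw v' hv' w' hw').inv_left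
  rw [e, comm_mul_left_of_commute (c1 x hx _ hx' _ (mul_mem hy hy')),
    comm_mul_right_of_commute (c2 y hy _ hx' _ hy'), comm_mul_right_of_commute (c2 y hy _ hx _ hy'),
    ((c3 _ hx' _ hy _ hx _ hy).mul_left (c3 _ hx' _ hy' _ hx _ hy)).left_comm, inv_mul_cancel_left,
    mul_assoc, mul_assoc, (c3 _ hx' _ hy' _ hx _ hy').eq]

theorem dl_iter_comm (hA : g ∈ Nm(A)) (hB : g ∈ Nm(B)) (h1 : ⁅A, B⁆ ≤ Cz(A)) (h2 : ⁅A, B⁆ ≤ Cz(B))
    (hx : x ∈ A) (hy : y ∈ B) (e : ℕ) : (dl g)^[e + 1] ⁅x, y⁆ = (dl g)^[e] ⁅dl g x, y⁆ *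
      (dl g)^[e] ⁅x, dl g y⁆ * (dl g)^[e] ⁅dl g x, dl g y⁆ := by
  have hZ : IsMulCommutative (⁅A, B⁆ : Subgroup G) := le_centralizer_iff_isMulCommutative.1
    ((le_inf h1 h2).trans ((Cz_sup A B).ge.trans (Cz_anti (commutator_le.2 fun u hu v hv =>
      mul_mem (mul_mem (mul_mem (mem_sup_left hu) (mem_sup_right hv)) (inv_mem (mem_sup_left hu)))
        (inv_mem (mem_sup_right hv))))))
  have hz : g ∈ Nm(⁅A, B⁆) := zpowers_le.1 (CfH7.le_normalizer_commutator (zpowers_le.2 hA)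
    (zpowers_le.2 hB))
  have hx' := dl_mem hA hx
  have hy' := dl_mem hB hy
  rw [Function.iterate_succ_apply, dl_comm hA hB h1 h2 hx hy, dl_iter_mul hZ hz (mul_mem
    (commutator_mem_commutator hx' hy) (commutator_mem_commutator hx hy'))
    (commutator_mem_commutator hx' hy'), dl_iter_mul hZ hz (commutator_mem_commutator hx' hy)
    (commutator_mem_commutator hx hy')]

/-- degrees add in a bilinear pairing -/
theorem dl_five (hA : g ∈ Nm(A)) (hB : g ∈ Nm(B)) (h1 : ⁅A, B⁆ ≤ Cz(A)) (h2 : ⁅A, B⁆ ≤ Cz(B))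
    (h3 : ∀ x ∈ A, (dl g)^[3] x = 1) (h4 : ∀ x ∈ ⁅A, B⁆, (dl g)^[3] x = 1) (hy : y ∈ B) :
    (dl g)^[5] y ∈ Cz(A) := by
  have key : ∀ j k i e, 3 ≤ i + k → 5 ≤ e + i + j → ∀ x ∈ A,
      (dl g)^[e] ⁅(dl g)^[i] x, (dl g)^[j] y⁆ = 1 := by
    have h0 : ∀ i e j, 3 ≤ i → ∀ x ∈ A, (dl g)^[e] ⁅(dl g)^[i] x, (dl g)^[j] y⁆ = 1 :=
      fun i e j hi x hx => by
        rw [dl_iter_one (h3 x hx) hi, commutatorElement_one_left]
        exact dl_iter_one (k := 0) rfl e.zero_le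
    intro j
    induction j with
    | zero =>
      intro k i e _ h x hx
      by_cases hi : 3 ≤ i
      · exact h0 i e 0 hi x hx
      · exact dl_iter_one (h4 _ (commutator_mem_commutator (dl_iter_mem hA hx i) hy)) (by omega)
    | succ j ih =>
      intro k
      induction k with
      | zero => exact fun i e hi _ => h0 i e _ hi
      | succ k ih' =>
        intro i e hi h x hx
        have := dl_iter_comm hA hB h1 h2 (dl_iter_mem hA hx i) (dl_iter_mem hB hy j) e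
        rwa [ih 3 i (e + 1) (by omega) (by omega) x hx, ← Function.iterate_succ_apply' (dl g) i,
          ← Function.iterate_succ_apply' (dl g) j, ih 3 (i + 1) e (by omega) (by omega) x hx,
          ih' (i + 1) e (by omega) (by omega) x hx, one_mul, mul_one, eq_comm] at this
  exact fun x hx => commutatorElement_eq_one_iff_mul_comm.1 (key 5 3 0 0 le_rfl le_rfl x hx)

theorem shift_one {f : ℕ → ℕ → G} {r n : ℕ} (h1 : ∀ i j, r ≤ i → f i j = 1)
    (h2 : ∀ i j, r ≤ j → f i j = 1) (hn : r ≤ n)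
    (h : ∀ i j, n ≤ i + j + 1 → f (i + 1) j * f i (j + 1) * f (i + 1) (j + 1) = 1) :
    ∀ i j, n ≤ i + j → f i j = 1 := by
  have key : ∀ j k i, r ≤ i + k → n ≤ i + j → f i j = 1 := by
    intro j
    induction j with
    | zero => exact fun k i _ h => h1 i 0 (by omega)
    | succ j ih =>
      intro k
      induction k with
      | zero => exact fun i hi _ => h1 i _ hi
      | succ k ih' =>
        intro i hi h'
        have := h i j (by omega)
        rwa [ih r (i + 1) (by omega) (by omega), ih' (i + 1) (by omega) (by omega), one_mul,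
          mul_one] at this
  exact fun i j => key j r i (by omega)

/-- a cyclic module of degree five has an isotropic submodule of degree three -/
theorem dl_isotropic (hD : g ∈ Nm(D)) (h1 : ⁅D, D⁆ ≤ Cz(D)) (h2 : ∀ x ∈ ⁅D, D⁆, (dl g)^[2] x = 1)
    (hx : x ∈ D) (h5 : (dl g)^[5] x ∈ Cz(D)) {i j : ℕ} (hij : 5 ≤ i + j) :
    ⁅(dl g)^[i] x, (dl g)^[j] x⁆ = 1 := by
  have hN : g ∈ Nm(Cz(D)) := mem_Nm_Cz hD
  have m := dl_iter_mem hD hx
  set t := fun e i j => (dl g)^[e] ⁅(dl g)^[i] x, (dl g)^[j] x⁆ with ht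
  have o : ∀ e, (dl g)^[e] 1 = 1 := fun e => dl_iter_one (k := 0) rfl e.zero_le
  have a1 : ∀ e i j, 5 ≤ i → t e i j = 1 := fun e i j h => by
    simp only [ht]
    rw [commutatorElement_eq_one_iff_mul_comm.2 (dl_iter_le hN h5 h _ (m j)).symm, o]
  have a2 : ∀ e i j, 5 ≤ j → t e i j = 1 := fun e i j h => by
    simp only [ht]
    rw [commutatorElement_eq_one_iff_mul_comm.2 (dl_iter_le hN h5 h _ (m i)), o]
  have a3 : ∀ e i j, t (e + 1) i j = t e (i + 1) j * t e i (j + 1) * t e (i + 1) (j + 1) :=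
    fun e i j => by
      simp only [ht, Function.iterate_succ_apply' (dl g) i, Function.iterate_succ_apply' (dl g) j]
      exact dl_iter_comm hD hD h1 h1 (m i) (m j) e
  have a4 : ∀ i j, t 1 (i + 1) j * t 1 i (j + 1) * t 1 (i + 1) (j + 1) = 1 := fun i j =>
    (a3 1 i j).symm.trans (h2 _ (commutator_mem_commutator (m i) (m j)))
  have s5 := shift_one (a1 1) (a2 1) le_rfl fun i j _ => a4 i j
  have s22 : t 1 2 2 = 1 := by simp only [ht]; rw [commutatorElement_self, o]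
  have s13 : t 1 1 3 = 1 := by simpa [s22, s5 2 3 le_rfl] using a4 1 2
  have s31 : t 1 3 1 = 1 := by simpa [s22, s5 3 2 le_rfl] using a4 2 1
  have s04 : t 1 0 4 = 1 := by simpa [s13, s5 1 4 le_rfl] using a4 0 3
  have s40 : t 1 4 0 = 1 := by simpa [s31, s5 4 1 le_rfl] using a4 3 0
  refine shift_one (a1 0) (a2 0) le_rfl (fun i j h => (a3 0 i j).symm.trans ?_) i j hij
  by_cases h' : 5 ≤ i + j
  · exact s5 i j h'
  obtain rfl : j = 4 - i := by omega
  have : i ≤ 4 := by omega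
  interval_cases i <;> assumption

theorem exists_addOn_ker.{u} {G : Type u} [Group G] {B D : Subgroup G} (hB : ⁅D, D⁆ ≤ B) :
    ∃ (W : Type u) (_ : AddCommGroup W) (ℓ : G → W), AddOn D ℓ ∧ ∀ y ∈ D, ℓ y = 0 ↔ y ∈ B := by
  classical
  refine ⟨Additive (Abelianization D ⧸ (B.subgroupOf D).map Abelianization.of), inferInstance,
    fun g => if h : g ∈ D then Additive.ofMul (QuotientGroup.mk (Abelianization.of ⟨g, h⟩))
    else 0, fun a ha b hb => ?_, fun y hy => ?_⟩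
  · simp only [ha, hb, mul_mem ha hb, dite_true, ← ofMul_mul, ← QuotientGroup.mk_mul, ← map_mul]
    rfl
  · simp only [hy, dite_true, ofMul_eq_zero, QuotientGroup.eq_one_iff]
    rw [← mem_comap, comap_map_eq, Abelianization.ker_of, sup_eq_left.2, mem_subgroupOf]
    rw [commutator_def, ← map_subtype_le_map_subtype, map_commutator, map_subtype_top,
      subgroupOf_map_subtype]
    exact le_inf hB (commutator_le_self D)

theorem fwdDiff_shift (u : ℕ → W) (j k : ℕ) :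
    (fwdDiff 1)^[k] (fun i => u (i + j) - u i) = fun i => (fwdDiff 1)^[k] u (i + j) -
      (fwdDiff 1)^[k] u i := by
  induction k with
  | zero => rfl
  | succ k ih =>
    ext i
    simp only [Function.iterate_succ_apply', ih, fwdDiff, add_right_comm i 1 j]
    abel

variable [hp : Fact p.Prime]

theorem eq_zero_of_smul {w : W} (h1 : p • w = 0) {j : ℕ} (h2 : j • w = 0) (h : ¬ p ∣ j) : w = 0 :=
  AddMonoid.addOrderOf_eq_one_iff.1 (Nat.eq_one_of_dvd_coprimes ((Nat.Prime.coprime_iff_not_dvd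
    hp.out).2 h) (addOrderOf_dvd_of_nsmul_eq_zero h1) (addOrderOf_dvd_of_nsmul_eq_zero h2))

omit hp in
theorem smul_fwdDiff {u : ℕ → W} (h : ∀ i, p • u i = 0) (k i : ℕ) : p • (fwdDiff 1)^[k] u i = 0 := by
  induction k generalizing i with
  | zero => exact h i
  | succ k ih => rw [Function.iterate_succ_apply', fwdDiff, smul_sub, ih, ih, sub_zero]

theorem seq_two (h2 : p ≠ 2) {j : ℕ} (r : ℕ) : ∀ u : ℕ → W, (∀ i, p • u i = 0) →
    (fwdDiff 1)^[r + 2] u = 0 → ((fwdDiff 1)^[2] u = fun i => u (i + j) - u i) →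
    (fwdDiff 1)^[2] u = 0 := by
  induction r with
  | zero => exact fun u _ h _ => h
  | succ r ih =>
    intro u h0 h1 h3
    have h4 : (fwdDiff 1)^[3] u = 0 := ih (fwdDiff 1 u) (smul_fwdDiff h0 1) h1 (by
      rw [← Function.iterate_succ_apply, Function.iterate_succ_apply', h3]
      exact fwdDiff_shift u j 1)
    have n2 : ∀ v : ℕ → W, (fwdDiff 1)^[3] v = 0 → ∀ i j, v (i + j) - v i =
        j • fwdDiff 1 v i + j.choose 2 • (fwdDiff 1)^[2] v i := fun v hv i j => by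
      have c : ∀ j, (fwdDiff 1)^[2] v (i + j) = (fwdDiff 1)^[2] v i := fun j => by
        induction j with
        | zero => rfl
        | succ j ih =>
          have := congrFun hv (i + j)
          rw [Function.iterate_succ_apply', fwdDiff, sub_eq_iff_eq_add] at this
          rw [← add_assoc, this, ih]; simp
      have d : ∀ j, fwdDiff 1 v (i + j) = fwdDiff 1 v i + j • (fwdDiff 1)^[2] v i := fun j => by
        induction j with
        | zero => simp
        | succ j ih =>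
          rw [succ_nsmul, ← add_assoc (fwdDiff 1 v i), ← ih, ← c j]
          simp [fwdDiff, add_assoc]
      induction j with
      | zero => simp
      | succ j ih =>
        rw [Nat.choose_succ_succ' j 1, Nat.choose_one_right, add_smul, add_smul,
          show v (i + (j + 1)) - v i = v (i + j) - v i + fwdDiff 1 v (i + j) by
            simp [fwdDiff, add_assoc], ih, d, one_smul]
        abel
    ext i
    by_cases hj : p ∣ j
    · have hj' : p ∣ j.choose 2 := by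
        rw [Nat.choose_two_right]
        exact (Nat.Coprime.dvd_mul_left ((Nat.coprime_primes hp.out Nat.prime_two).2 h2)).1
          (by rw [Nat.mul_div_cancel' (Nat.even_mul_pred_self j).two_dvd]; exact hj.mul_right _)
      obtain ⟨k, rfl⟩ := hj
      obtain ⟨l, hl⟩ := hj'
      rw [h3]
      simp only [n2 u h4, hl]
      rw [mul_comm p, mul_comm p, mul_smul, mul_smul, smul_fwdDiff h0 2 i,
        show p • fwdDiff 1 u i = 0 from smul_fwdDiff h0 1 i]
      simp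
    · refine eq_zero_of_smul (smul_fwdDiff h0 2 i) ?_ hj
      have h5 : (fwdDiff 1)^[3] (fwdDiff 1 u) = 0 := by
        rw [← Function.iterate_succ_apply, Function.iterate_succ_apply', h4]; ext; simp [fwdDiff]
      have h6 := n2 _ h5 i j
      have h7 := congrFun h4 i
      have h8 := congrFun (fwdDiff_shift u j 1) i
      rw [← h3, ← Function.iterate_add_apply, h7] at h8
      rw [← Function.iterate_succ_apply (fwdDiff 1) 2, h7] at h6
      simpa using h6.symm.trans h8.symm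

theorem sum_eq_fwdDiff {u : ℕ → W} (h : ∀ i, p • u i = 0) :
    ∑ i ∈ range p, u i = (fwdDiff 1)^[p - 1] u 0 := by
  rw [fwdDiff_iter_eq_sum_shift, Nat.sub_add_cancel hp.out.pos]
  refine sum_congr rfl fun i hi => ?_
  have h1 := mem_range.1 hi
  have h2 : (-1 : ZMod p) ^ (p - 1) = 1 := ZMod.pow_card_sub_one_eq_one (by simp)
  obtain ⟨k, hk⟩ := (ZMod.intCast_eq_intCast_iff_dvd_sub 1 ((-1) ^ (p - 1 - i) *
      ((p - 1).choose i : ℕ)) p).1 (by
    push_cast
    rw [choose_pred_cast h1, ← pow_add, Nat.sub_add_cancel (by omega), h2])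
  rw [sub_eq_iff_eq_add.1 hk, add_smul, mul_comm, mul_smul, natCast_zsmul]
  simp [h]

theorem AddOn.sum_conj {ℓ : G → W} (h : AddOn D ℓ) (hz : z ∈ Nm(D)) (hy : y ∈ D)
    (h0 : ∀ i : ℕ, p • ℓ ((z ^ i)⁻¹ * y * z ^ i) = 0) (h1 : ℓ ((dl z)^[p - 1] y) = 0) :
    ∑ i ∈ range p, ℓ ((z ^ i)⁻¹ * y * z ^ i) = 0 := by
  rw [sum_eq_fwdDiff h0, ← (h.iter_comm hz hy _).2]
  simpa using h1

/-- the Hall–Higman computation in a Frobenius group -/
theorem hall_higman {Q : Subgroup G} [Fintype Q] (ha : a ∈ Nm(Q))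
    (hf : ∀ j, 0 < j → j < p → Q ⊓ Cx(a ^ j) = ⊥) {F : G → W}
    (h1 : ∀ x ∈ Q, ∑ j ∈ range p, F (x * a ^ j * x⁻¹) = 0)
    (h2 : ∀ x ∈ Q, ∑ j ∈ range p, F (x * a ^ j) = 0) : Nat.card Q • F 1 = ∑ x : Q, F x := by
  obtain ⟨n, hn⟩ : ∃ n, p = n + 1 := ⟨p - 1, (Nat.sub_add_cancel hp.out.pos).symm⟩
  have e1 : ∑ x : Q, ∑ j ∈ range p, F (x * a ^ j * (x : G)⁻¹) = 0 := sum_eq_zero fun x _ => h1 x x.2
  have e2 : ∑ x : Q, ∑ j ∈ range p, F (x * a ^ j) = 0 := sum_eq_zero fun x _ => h2 x x.2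
  rw [sum_comm, hn, sum_range_succ'] at e1 e2
  rw [← e2, sum_congr rfl fun j hj => ?_, add_right_inj] at e1
  · simpa using e1
  have hj' := mem_range.1 hj
  refine Fintype.sum_bijective (fun x : Q => (⟨x * (a ^ (j + 1) * (x : G)⁻¹ * (a ^ (j + 1))⁻¹),
    mul_mem x.2 (conj_mem_of_mem_normalizer (pow_mem ha _) (inv_mem x.2))⟩ : Q))
    (Finite.injective_iff_bijective.1 fun x y e => ?_) _ _ fun x => by simp [mul_assoc]
  have e' := congrArg Subtype.val e
  have : (y : G)⁻¹ * x ∈ Q ⊓ Cx(a ^ (j + 1)) := mi (mul_mem (inv_mem y.2) x.2) (mem_Cx.2 (by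
    rw [mul_assoc, inv_mul_eq_iff_eq_mul, ← mul_left_inj ((x : G)⁻¹ * (a ^ (j + 1))⁻¹)]
    simpa [mul_assoc] using e'))
  rw [hf _ j.succ_pos (by omega), mem_bot, inv_mul_eq_one] at this
  exact Subtype.ext this.symm

omit hp in
/-- Thompson's lemma: every element of `[x, A]` is a commutator modulo `C(A)` -/
theorem MaxEA.exists_dl [Finite G] (hA : MaxEA 0 S A) (hM : M = closure {m | ∃ a ∈ A, dl a x = m})
    (hS : M ≤ S) (hc : IsMulCommutative M) (hy : y ∈ M) : ∃ b ∈ A, (dl b x)⁻¹ * y ∈ Cz(A) := by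
  have hm : ∀ a ∈ A, dl a x ∈ M := fun a ha => hM ▸ subset_closure ⟨a, ha, rfl⟩
  have e1 : ∀ a b : G, dl (a * b) x = dl b x * (b⁻¹ * dl a x * b) := fun a b => by
    simp only [dl]; group
  have hAc := comm_iff.1 hA.comm
  let X : Subgroup G :=
    { carrier := {a | a ∈ A ∧ dl a x ∈ Cz(A)}
      one_mem' := ⟨one_mem A, by simp [dl]⟩
      mul_mem' := fun {a b} ha hb => ⟨mul_mem ha.1 hb.1, by
        rw [e1, mul_assoc b⁻¹, ← ha.2 b hb.1, inv_mul_cancel_left]; exact mul_mem hb.2 ha.2⟩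
      inv_mem' := fun {a} ha => ⟨inv_mem ha.1, by
        have := e1 a⁻¹ a
        rw [inv_mul_cancel, eq_comm, show dl 1 x = 1 by simp [dl], mul_eq_one_iff_inv_eq] at this
        have h2 : dl a⁻¹ x = a * (dl a x)⁻¹ * a⁻¹ := by rw [this]; simp [mul_assoc]
        rw [h2, inv_mem ha.2 a ha.1, mul_inv_cancel_right]
        exact inv_mem ha.2⟩ }
  have hX : M ≤ Cz(X) := hM ▸ (closure_le _).2 (by
    rintro _ ⟨b, hb, rfl⟩ a ha
    have h1 := e1 a b
    rw [hAc a ha.1 b hb, e1, mul_assoc b⁻¹, ← ha.2 b hb, inv_mul_cancel_left,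
      comm_iff.1 hc _ (hm b hb) _ (hm a ha.1), mul_right_inj, mul_assoc,
      inv_mul_eq_iff_eq_mul] at h1
    exact h1.symm)
  have hXA : X ≤ A := fun a ha => ha.1
  have h1 := hA.max _ (sup_le hS (hXA.trans hA.le)) (elemAb_zero_iff.2
    (comm_sup hc (comm_of_le hXA hA.comm) hX))
  have h2 := card_sup_mul_card_inf (hX.trans (Cz_le_Nm X))
  have h3 : Nat.card (M ⊓ X : Subgroup G) ≤ Nat.card (Cz(A) ⊓ M : Subgroup G) :=
    card_le_of_le (le_inf (inf_le_right.trans (hXA.trans (le_Cz_of_comm hA.comm))) inf_le_left)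
  have h4 := CfH9.card_mul_relIndex hXA
  have h5 := CfH9.card_mul_relIndex (inf_le_right : Cz(A) ⊓ M ≤ M)
  rw [inf_relIndex_right] at h5
  have h6 : (Cz(A)).relIndex M ≤ X.relIndex A := by
    have p1 : 0 < Nat.card X * Nat.card (Cz(A) ⊓ M : Subgroup G) := Nat.mul_pos Nat.card_pos Nat.card_pos
    refine Nat.le_of_mul_le_mul_left ?_ p1
    calc _ = Nat.card M * Nat.card X := by rw [← h5]; ring
      _ ≤ Nat.card A * Nat.card (Cz(A) ⊓ M : Subgroup G) := h2 ▸ Nat.mul_le_mul h1 h3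
      _ = _ := by rw [← h4]; ring
  let f : A ⧸ X.subgroupOf A → M ⧸ (Cz(A)).subgroupOf M := Quotient.map'
    (fun a => ⟨dl a x, hm a a.2⟩) fun a b e => by
      rw [QuotientGroup.leftRel_apply, mem_subgroupOf] at e ⊢
      have := e1 ((a : G)⁻¹ * b) a
      have e2 : dl ((a : G)⁻¹ * b) x ∈ Cz(A) := e.2
      rw [← hAc _ a.2 _ (mul_mem (inv_mem a.2) b.2), mul_inv_cancel_left, mul_assoc (a : G)⁻¹,
        ← e2 a a.2, inv_mul_cancel_left] at this
      change (dl (a : G) x)⁻¹ * dl (b : G) x ∈ _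
      rwa [this, inv_mul_cancel_left]
  have hf : Function.Injective f := fun a b => Quotient.inductionOn₂' a b fun a b e => by
    have e := QuotientGroup.eq.1 e
    refine QuotientGroup.eq.2 ⟨mul_mem (inv_mem a.2) b.2, ?_⟩
    have := e1 ((a : G)⁻¹ * b) a
    rw [← hAc _ a.2 _ (mul_mem (inv_mem a.2) b.2), mul_inv_cancel_left, ← inv_mul_eq_iff_eq_mul,
      mul_assoc, eq_inv_mul_iff_mul_eq] at this
    have h7 := (mem_subgroupOf.1 e :) a a.2
    exact (mul_right_cancel (this.symm.trans h7) : dl ((a : G)⁻¹ * b) x = _) ▸ mem_subgroupOf.1 e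
  obtain ⟨q, e⟩ := (hf.bijective_of_nat_card_le h6).2 (QuotientGroup.mk ⟨y, hy⟩)
  obtain ⟨b, rfl⟩ := QuotientGroup.mk_surjective q
  exact ⟨b, b.2, mem_subgroupOf.1 ((QuotientGroup.eq (a := (⟨dl (b : G) x, hm b b.2⟩ : M))).1 e)⟩

end CfH9
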