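import Cfsg.Agent.H9.Replacement
import Cfsg.Agent.H1.Critical

/-! Sylow subgroups that are extraspecial of order `p ^ 3`. -/

set_option autoImplicit false

namespace CfH9

open Cfsg Subgroup CfH7
open scoped commutatorElement

variable {G : Type*} [Group G] {p : ℕ}

/-- `P` is extraspecial of order `p ^ 3` with centre generated by `z` -/
structure ES3 (p : ℕ) (P : Subgroup G) (z : G) : Prop where
  card : Nat.card P = p ^ 3
  ord : orderOf z = p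
  cen : P ⊓ Cz(P) = zpowers z
  comm : ∀ x ∈ P, ∀ y ∈ P, ⁅x, y⁆ ∈ zpowers z

theorem mem_map_center {P : Subgroup G} {x : G} :
    x ∈ (center P).map P.subtype ↔ x ∈ P ⊓ Cz(P) := by
  constructor
  · rintro ⟨y, hy, rfl⟩
    exact ⟨y.2, fun w hw => congrArg Subtype.val (mem_center_iff.1 hy ⟨w, hw⟩)⟩
  · rintro ⟨h1, h2⟩
    exact ⟨⟨x, h1⟩, mem_center_iff.2 fun w => Subtype.ext (h2 w w.2), rfl⟩

theorem es3_of [Finite G] [hp : Fact p.Prime] {P : Subgroup G} (hE : IsExtraspecial p P)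
    (hc : Nat.card P = p ^ 3) {z : G} (hz : z ∈ P ⊓ Cz(P)) (hz1 : z ≠ 1) : ES3 p P z := by
  have hZ : Nat.card (P ⊓ Cz(P) : Subgroup G) = p := by
    rw [← hE.2, ← card_map_subtype]
    congr 2
    ext x
    exact mem_map_center.symm
  have ho : orderOf z = p := by
    have := Subgroup.orderOf_dvd_natCard _ hz
    rw [hZ] at this
    exact ((Nat.dvd_prime hp.out).1 this).resolve_left (by simpa using hz1)
  have hcen : P ⊓ Cz(P) = zpowers z :=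
    (Subgroup.eq_of_le_of_card_ge (zpowers_le.2 hz) (by rw [hZ, Nat.card_zpowers, ho])).symm
  refine ⟨hc, ho, hcen, fun x hx y hy => ?_⟩
  rw [← hcen, ← mem_map_center]
  refine ⟨⁅(⟨x, hx⟩ : P), ⟨y, hy⟩⁆, ?_, rfl⟩
  rw [← hE.1.2.2]
  exact commutator_mem_commutator (mem_top _) (mem_top _)

theorem exists_es3 [Finite G] [hp : Fact p.Prime] {P : Subgroup G} (hE : IsExtraspecial p P)
    (hc : Nat.card P = p ^ 3) : ∃ z, ES3 p P z := by
  have : (center P) ≠ ⊥ := fun h => by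
    have := hE.2
    rw [h, card_bot] at this
    exact hp.out.one_lt.ne this
  obtain ⟨⟨z, hz⟩, hz1⟩ := (ne_bot_iff_exists_ne_one).1 this
  refine ⟨z, es3_of hE hc (mem_map_center.1 ⟨z, hz, rfl⟩) fun h => hz1 ?_⟩
  exact Subtype.ext (Subtype.ext h)

namespace ES3

variable {P : Subgroup G} {z : G} (h : ES3 p P z)
include h

theorem mem : z ∈ P := (h.cen.ge (mem_zpowers z)).1

theorem zle : zpowers z ≤ P := zpowers_le.2 h.mem

theorem cz {c x : G} (hc : c ∈ zpowers z) (hx : x ∈ P) : x * c = c * x := (h.cen.ge hc).2 x hx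

theorem conj_z {c x : G} (hc : c ∈ zpowers z) (hx : x ∈ P) : x * c * x⁻¹ = c := by
  rw [h.cz hc hx, mul_inv_cancel_right]

theorem pow_z {c : G} (hc : c ∈ zpowers z) : c ^ p = 1 := by
  obtain ⟨k, rfl⟩ := hc
  rw [← zpow_natCast, ← zpow_mul, mul_comm, zpow_mul, zpow_natCast, ← h.ord, pow_orderOf_eq_one,
    one_zpow]

theorem comm_mul_left {x y w : G} (hx : x ∈ P) (hy : y ∈ P) (hw : w ∈ P) :
    ⁅x * y, w⁆ = ⁅x, w⁆ * ⁅y, w⁆ := by
  have e : ⁅x * y, w⁆ = (x * ⁅y, w⁆ * x⁻¹) * ⁅x, w⁆ := by simp only [commutatorElement_def]; group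
  rw [e, h.conj_z (h.comm y hy w hw) hx, h.cz (h.comm x hx w hw) (h.zle (h.comm y hy w hw))]

theorem comm_mul_right {x y w : G} (hx : x ∈ P) (hy : y ∈ P) (hw : w ∈ P) :
    ⁅w, x * y⁆ = ⁅w, x⁆ * ⁅w, y⁆ := by
  rw [← commutatorElement_inv, h.comm_mul_left hx hy hw, mul_inv_rev, commutatorElement_inv,
    commutatorElement_inv, h.cz (h.comm w hw x hx) (h.zle (h.comm w hw y hy))]

/-- commutation with `w` as a homomorphism -/
def kap {w : G} (hw : w ∈ P) : P →* G :=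
  MonoidHom.mk' (fun x => ⁅(x : G), w⁆) fun x y => h.comm_mul_left x.2 y.2 hw

theorem comm_pow_left {x w : G} (hx : x ∈ P) (hw : w ∈ P) (n : ℕ) : ⁅x ^ n, w⁆ = ⁅x, w⁆ ^ n :=
  map_pow (h.kap hw) ⟨x, hx⟩ n

theorem comm_zpow_left {x w : G} (hx : x ∈ P) (hw : w ∈ P) (n : ℤ) : ⁅x ^ n, w⁆ = ⁅x, w⁆ ^ n :=
  map_zpow (h.kap hw) ⟨x, hx⟩ n

theorem comm_zpow_right {x w : G} (hx : x ∈ P) (hw : w ∈ P) (n : ℤ) :
    ⁅w, x ^ n⁆ = ⁅w, x⁆ ^ n := by
  rw [← commutatorElement_inv, h.comm_zpow_left hx hw, ← inv_zpow, commutatorElement_inv]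

theorem comm_z_left {c w : G} (hc : c ∈ zpowers z) (hw : w ∈ P) : ⁅c, w⁆ = 1 :=
  commutatorElement_eq_one_iff_mul_comm.2 (h.cz hc hw).symm

theorem comm_z_right {c w : G} (hc : c ∈ zpowers z) (hw : w ∈ P) : ⁅w, c⁆ = 1 :=
  commutatorElement_eq_one_iff_mul_comm.2 (h.cz hc hw)

theorem mem_of_forall {x : G} (hx : x ∈ P) (hc : ∀ w ∈ P, ⁅x, w⁆ = 1) : x ∈ zpowers z :=
  h.cen.le ⟨hx, fun w hw => (commutatorElement_eq_one_iff_mul_comm.1 (hc w hw)).symm⟩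

theorem pow_mem {x : G} (hx : x ∈ P) : x ^ p ∈ zpowers z :=
  h.mem_of_forall (P.pow_mem hx p) fun w hw => by
    rw [h.comm_pow_left hx hw, h.pow_z (h.comm x hx w hw)]

theorem cj (g : G) : ES3 p (cj g P) (g * z * g⁻¹) := by
  refine ⟨by rw [card_cj, h.card], by rw [← h.ord]; exact orderOf_conj' g z, ?_, ?_⟩
  · rw [← cj_centralizer, ← cj_inf, h.cen, cj_zpowers]
  · intro x hx y hy
    rw [← cj_zpowers, mem_cj]
    have := h.comm _ (mem_cj.1 hx) _ (mem_cj.1 hy)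
    convert this using 1
    simp only [commutatorElement_def]
    group

variable [Finite G] [hp : Fact p.Prime]

theorem mul_pow (hp2 : p ≠ 2) {x y : G} (hx : x ∈ P) (hy : y ∈ P) :
    (x * y) ^ p = x ^ p * y ^ p := by
  have hc := h.comm y hy x hx
  rw [mul_pow_of_class_two (h.cz hc hx) (h.cz hc hy)]
  obtain ⟨k, hk⟩ := CfH1.dvd_choose_two hp2
  rw [hk, pow_mul, h.pow_z hc, one_pow, mul_one]

theorem zpowers_eq {c : G} (hc : c ∈ zpowers z) (h1 : c ≠ 1) : zpowers c = zpowers z := by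
  refine Subgroup.eq_of_le_of_card_ge (zpowers_le.2 hc) ?_
  rw [Nat.card_zpowers, Nat.card_zpowers, h.ord, orderOf_eq_prime (h.pow_z hc) h1]

theorem of_mem {c : G} (hc : c ∈ zpowers z) (h1 : c ≠ 1) : ES3 p P c :=
  ⟨h.card, orderOf_eq_prime (h.pow_z hc) h1, by rw [h.zpowers_eq hc h1, h.cen],
    by rw [h.zpowers_eq hc h1]; exact h.comm⟩

theorem range_kap {w : G} (hw : w ∈ P) (hwz : w ∉ zpowers z) : (h.kap hw).range = zpowers z := by
  refine le_antisymm (by rintro _ ⟨x, rfl⟩; exact h.comm x x.2 w hw) ?_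
  by_contra hn
  refine hwz (h.mem_of_forall hw fun x hx => ?_)
  by_contra h1
  have h2 : ⁅x, w⁆ ≠ 1 := fun e => h1 (by rw [← commutatorElement_inv, e, inv_one])
  rw [← h.zpowers_eq (h.comm x hx w hw) h2] at hn
  exact hn (zpowers_le.2 ⟨⟨x, hx⟩, rfl⟩)

theorem exists_comm {w c : G} (hw : w ∈ P) (hwz : w ∉ zpowers z) (hc : c ∈ zpowers z) :
    ∃ u ∈ P, u * w * u⁻¹ = w * c := by
  obtain ⟨u, hu⟩ := (h.range_kap hw hwz).ge hc
  refine ⟨u, u.2, ?_⟩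
  rw [h.cz hc hw, ← hu]
  show _ = ⁅(u : G), w⁆ * w
  rw [commutatorElement_def, inv_mul_cancel_right]

theorem card_Cx {w : G} (hw : w ∈ P) (hwz : w ∉ zpowers z) :
    Nat.card (P ⊓ Cx(w) : Subgroup G) = p ^ 2 := by
  have h1 := (h.kap hw).ker.card_mul_index
  rw [index_ker] at h1
  rw [h.range_kap hw hwz, Nat.card_zpowers, h.ord, h.card] at h1
  have h2 : (h.kap hw).ker.map P.subtype = P ⊓ Cx(w) := by
    ext x
    constructor
    · rintro ⟨y, hy, rfl⟩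
      exact ⟨y.2, mem_Cx.2 (commutatorElement_eq_one_iff_mul_comm.1 hy)⟩
    · rintro ⟨h1, h2⟩
      exact ⟨⟨x, h1⟩, commutatorElement_eq_one_iff_mul_comm.2 (mem_Cx.1 h2), rfl⟩
  rw [← h2, card_map_subtype]
  exact Nat.eq_of_mul_eq_mul_right hp.out.pos (by rw [h1]; ring)

theorem Cx_eq {w : G} (hw : w ∈ P) (hwz : w ∉ zpowers z) :
    P ⊓ Cx(w) = zpowers w ⊔ zpowers z := by
  have hle : zpowers w ⊔ zpowers z ≤ P ⊓ Cx(w) :=
    sup_le (zpowers_le.2 ⟨hw, mem_Cx.2 rfl⟩)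
      (zpowers_le.2 ⟨h.mem, mem_Cx.2 (h.cz (mem_zpowers z) hw).symm⟩)
  refine (Subgroup.eq_of_le_of_card_ge hle ?_).symm
  have h1 := card_dvd_of_le hle
  rw [h.card_Cx hw hwz] at h1 ⊢
  have h2 : zpowers z < zpowers w ⊔ zpowers z :=
    lt_of_le_of_ne le_sup_right fun e => hwz (e.ge (le_sup_left (b := zpowers z) (mem_zpowers w)))
  have h3 := card_lt_of_lt h2
  rw [Nat.card_zpowers, h.ord] at h3
  obtain ⟨k, hk, e⟩ := (Nat.dvd_prime_pow hp.out).1 h1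
  rw [e] at h3 ⊢
  have : 1 < k := (Nat.pow_lt_pow_iff_right hp.out.one_lt).1 (by simpa using h3)
  exact Nat.pow_le_pow_right hp.out.pos this

theorem exists_of_comm {w x : G} (hw : w ∈ P) (hwz : w ∉ zpowers z) (hx : x ∈ P)
    (hc : ⁅x, w⁆ = 1) : ∃ i : ℤ, ∃ c ∈ zpowers z, x = w ^ i * c := by
  have := (h.Cx_eq hw hwz).le ⟨hx, mem_Cx.2 (commutatorElement_eq_one_iff_mul_comm.1 hc)⟩
  rw [mem_sup_of_le_Nm (zpowers_le.2 (Cz_le_Nm _ (by
    rw [Cz_zpowers]; exact mem_Cx.2 (h.cz (mem_zpowers z) hw))))] at this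
  obtain ⟨_, ⟨i, rfl⟩, c, hc, e⟩ := this
  exact ⟨i, c, hc, e.symm⟩

/-- a noncentral conjugate `w` of `z` in the Sylow subgroup `P`: some element centralizes `w`
and moves `z` by any given power of `w` -/
theorem exists_transv (hS : SylIn p P ⊤) {g : G} (hw : g * z * g⁻¹ ∈ P)
    (hwz : g * z * g⁻¹ ∉ zpowers z) (i : ℤ) :
    ∃ v, v * (g * z * g⁻¹) * v⁻¹ = g * z * g⁻¹ ∧ v * z * v⁻¹ = z * (g * z * g⁻¹) ^ i := by
  set w := g * z * g⁻¹ with hwdef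
  have h1 := h.cj g
  have hS1 : SylIn p (CfH9.cj g P) Cx(w) :=
    (hS.cj_top g).mono (fun x hx => mem_Cx.2 (h1.cz (mem_zpowers _) hx)) le_top
  obtain ⟨c, hc, hcz⟩ := hS1.exists_conj_mem (x := z) (k := 1)
    (mem_Cx.2 (h.cz (mem_zpowers z) hw).symm) (by rw [pow_one, h.pow_z (mem_zpowers z)])
  have hc' := mem_Cx'.1 hc
  have hn : c * z * c⁻¹ ∉ zpowers w := fun hm => by
    have h2 : z ∈ zpowers w := by
      have : c * z * c⁻¹ ∈ CfH9.cj c (zpowers w) := by rwa [cj_zpowers, hc']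
      exact conj_mem_cj_iff.1 this
    have hz1 : z ≠ 1 := fun e => hp.out.one_lt.ne' (by rw [← h.ord, e, orderOf_one])
    exact hwz ((h1.zpowers_eq h2 hz1).ge (mem_zpowers w))
  obtain ⟨u, hu, e⟩ := h1.exists_comm hcz hn (zpow_mem_zpowers w i)
  have hu' := h1.conj_z (mem_zpowers _) hu
  have hc2 : c⁻¹ * w * c = w := by
    conv_lhs => rw [← hc']
    group
  refine ⟨c⁻¹ * u * c, ?_, ?_⟩
  · calc _ = c⁻¹ * (u * (c * w * c⁻¹) * u⁻¹) * c := by group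
      _ = w := by rw [hc', hu', hc2]
  · calc _ = c⁻¹ * (u * (c * z * c⁻¹) * u⁻¹) * c := by group
      _ = z * (c⁻¹ * w ^ i * c⁻¹⁻¹) := by rw [e]; generalize w ^ i = y; group
      _ = _ := by rw [← conj_zpow, inv_inv, hc2]

theorem conj_eq_comm (g y : G) : g * y * g⁻¹ = ⁅g, y⁆ * y := by
  rw [commutatorElement_def, inv_mul_cancel_right]

/-- the Frattini argument for a plane -/
theorem exists_Nm (hS : SylIn p P ⊤) {w t : G} (hw : w ∈ P) (hwz : w ∉ zpowers z)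
    (h1 : t ∈ Nm(zpowers z)) (h2 : t ∈ Nm(P ⊓ Cx(w))) :
    ∃ s ∈ Nm(P), ∀ e ∈ P ⊓ Cx(w), s * e * s⁻¹ = t * e * t⁻¹ := by
  set E := P ⊓ Cx(w) with hE
  have hzE : zpowers z ≤ E := by rw [hE, h.Cx_eq hw hwz]; exact le_sup_right
  have hwE : w ∈ E := ⟨hw, mem_Cx.2 rfl⟩
  have hPE : P ≤ Nm(E) := fun g hg => mem_normalizer_of_conj_mem fun y hy => by
    rw [h.conj_eq_comm]
    exact E.mul_mem (hzE (h.comm g hg y hy.1)) hy
  have hN : P ≤ Nm(Cz(E)) := hPE.trans (Nm_le_Nm_Cz E)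
  have ht : t ∈ Nm(P ⊔ Cz(E)) := mem_normalizer_of_cj_le <| by
    rw [cj_sup, cj_eq_of_mem_normalizer (mem_Nm_Cz h2)]
    refine sup_le (cj_le_iff_forall.2 fun g hg => ?_) le_sup_right
    have hy := conj_mem_of_mem_normalizer' h2 hwE
    have hc := conj_mem_of_mem_normalizer h1 (h.comm g hg _ hy.1)
    obtain ⟨u, hu, e⟩ := h.exists_comm hw hwz hc
    refine (mem_sup_of_le_Nm hN).2 ⟨u, hu, u⁻¹ * (t * g * t⁻¹), ?_, by group⟩
    rw [hE, h.Cx_eq hw hwz, Cz_sup, Cz_zpowers, Cz_zpowers]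
    refine ⟨mem_Cx'.2 ?_, mem_Cx'.2 ?_⟩
    · calc _ = u⁻¹ * (t * (g * (t⁻¹ * w * t) * g⁻¹) * t⁻¹) * u := by group
        _ = u⁻¹ * ((t * ⁅g, t⁻¹ * w * t⁆ * t⁻¹) * w) * u := by rw [h.conj_eq_comm g]; group
        _ = w := by rw [← h.cz hc hw, ← e]; group
    · have hz := conj_mem_of_mem_normalizer' h1 (mem_zpowers z)
      calc _ = u⁻¹ * (t * (g * (t⁻¹ * z * t) * g⁻¹) * t⁻¹) * u := by group
        _ = u⁻¹ * z * u⁻¹⁻¹ := by rw [h.conj_z hz hg]; group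
        _ = z := h.conj_z (mem_zpowers z) (P.inv_mem hu)
  obtain ⟨x, hx, n, hn, rfl⟩ := (hS.mono le_sup_left le_top).frattini' ht
  obtain ⟨a, ha, b, hb, rfl⟩ := (mem_sup_of_le_Nm hN).1 hn
  refine ⟨x * a, mul_mem hx (le_normalizer ha), fun e he => ?_⟩
  calc _ = x * a * (b * e * b⁻¹) * (x * a)⁻¹ := by rw [conj_eq_of_mem_centralizer hb he]
    _ = _ := by group

theorem exists_Nm' (hS : SylIn p P ⊤) {w t : G} (hw : w ∈ P) (hwz : w ∉ zpowers z) {i j : ℤ}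
    (h1 : t * z * t⁻¹ = z ^ i) (h2 : t * w * t⁻¹ = w ^ j) :
    ∃ s ∈ Nm(P), s * z * s⁻¹ = z ^ i ∧ s * w * s⁻¹ = w ^ j := by
  obtain ⟨s, hs, e⟩ := h.exists_Nm hS (t := t) hw hwz (mem_normalizer_of_cj_le <| by
    rw [cj_zpowers, h1]; exact zpowers_le.2 (zpow_mem_zpowers z i)) (mem_normalizer_of_cj_le <| by
    rw [h.Cx_eq hw hwz, cj_sup, cj_zpowers, cj_zpowers, h1, h2]
    exact sup_le_sup (zpowers_le.2 (zpow_mem_zpowers w j)) (zpowers_le.2 (zpow_mem_zpowers z i)))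
  exact ⟨s, hs, by rw [e z ⟨h.mem, mem_Cx.2 (h.cz (mem_zpowers z) hw).symm⟩, h1],
    by rw [e w ⟨hw, mem_Cx.2 rfl⟩, h2]⟩

/-- the centre is strongly closed unless the exponent is `p` -/
theorem pow_eq_one_of_conj (hp2 : p ≠ 2) (hS : SylIn p P ⊤) {g : G} (hw : g * z * g⁻¹ ∈ P)
    (hwz : g * z * g⁻¹ ∉ zpowers z) {x : G} (hx : x ∈ P) : x ^ p = 1 := by
  obtain ⟨v, v1, v2⟩ := h.exists_transv hS hw hwz (-1)
  have hwp : (g * z * g⁻¹) ^ p = 1 := by rw [conj_pow, h.pow_z (mem_zpowers z)]; group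
  set w := g * z * g⁻¹
  obtain ⟨u, hu, u1⟩ := h.exists_comm hw hwz (mem_zpowers z)
  have u2 := h.conj_z (mem_zpowers z) hu
  have hc := h.cz (mem_zpowers z) hw
  have n1 : (u * v * u) * z * (u * v * u)⁻¹ = w⁻¹ := by
    calc _ = u * (v * (u * z * u⁻¹) * v⁻¹) * u⁻¹ := by group
      _ = u * (z * w ^ (-1 : ℤ)) * u⁻¹ := by rw [u2, v2]
      _ = (u * z * u⁻¹) * (u * w * u⁻¹)⁻¹ := by group
      _ = _ := by rw [u2, u1]; group
  have n2 : (u * v * u) * w * (u * v * u)⁻¹ = z := by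
    calc _ = u * (v * (u * w * u⁻¹) * v⁻¹) * u⁻¹ := by group
      _ = u * ((v * w * v⁻¹) * (v * z * v⁻¹)) * u⁻¹ := by rw [u1]; group
      _ = _ := by rw [v1, v2, ← mul_assoc w, hc, zpow_neg_one, mul_inv_cancel_right, u2]
  set n := u * v * u
  obtain ⟨s, hs, s1, s2⟩ := h.exists_Nm' hS (t := n * n) (i := -1) (j := -1) hw hwz
    (by calc _ = n * (n * z * n⁻¹) * n⁻¹ := by group
          _ = (n * w * n⁻¹)⁻¹ := by rw [n1]; group
          _ = _ := by rw [n2, zpow_neg_one])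
    (by calc _ = n * (n * w * n⁻¹) * n⁻¹ := by group
          _ = _ := by rw [n2, n1, zpow_neg_one])
  have hinv : ∀ c ∈ zpowers z, s * c * s⁻¹ = c⁻¹ := by
    rintro _ ⟨k, rfl⟩
    rw [← conj_zpow, s1]
    group
  have hx' := conj_mem_of_mem_normalizer hs hx
  have e1 : ⁅s * x * s⁻¹, w⁆ = ⁅x, w⁆ := by
    have : s * ⁅x, w⁆ * s⁻¹ = ⁅s * x * s⁻¹, w ^ (-1 : ℤ)⁆ := by
      rw [← s2]; simp only [commutatorElement_def]; group
    rw [hinv _ (h.comm x hx w hw), h.comm_zpow_right hw hx', zpow_neg_one] at this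
    exact (inv_injective this).symm
  obtain ⟨i, c, hc', e⟩ := h.exists_of_comm hw hwz (P.mul_mem (P.inv_mem hx) hx') (by
    rw [h.comm_mul_left (P.inv_mem hx) hx' hw, e1, ← zpow_neg_one, h.comm_zpow_left hx hw]
    group)
  have e2 : (x⁻¹ * (s * x * s⁻¹)) ^ p = 1 := by
    rw [e, h.mul_pow hp2 (P.zpow_mem hw i) (h.zle hc'), h.pow_z hc', ← zpow_natCast, ← zpow_mul,
      mul_comm, zpow_mul, zpow_natCast, hwp, one_zpow, mul_one]
  rw [h.mul_pow hp2 (P.inv_mem hx) hx', conj_pow, hinv _ (h.pow_mem hx), inv_pow, ← mul_inv_rev,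
    inv_eq_one, ← pow_two] at e2
  have := (Nat.coprime_primes Nat.prime_two hp.out).2 hp2.symm
  exact (pow_gcd_eq_one.2 ⟨e2, h.pow_z (h.pow_mem hx)⟩ : _) |> fun e => by
    rwa [this.gcd_eq_one, pow_one] at e

end ES3

end CfH9
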