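import Cfsg.Agent.H3.DicksonGen

/-! Subgroups of `PGL₂(p)` of order prime to `p` containing long split elements. -/

set_option autoImplicit false

namespace CfH9

open Matrix Subgroup
open scoped MatrixGroups

section

variable {F : Type*} [Field F]

/-- the determinant of two vectors -/
def det2 (v w : Fin 2 → F) : F := v 0 * w 1 - v 1 * w 0

theorem det2_mulVec (M : Matrix (Fin 2) (Fin 2) F) (v w : Fin 2 → F) :
    det2 (M *ᵥ v) (M *ᵥ w) = M.det * det2 v w := by
  simp [det2, mulVec, dotProduct, Fin.sum_univ_two, det_fin_two]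
  ring

theorem det2_smul (a b : F) (v w : Fin 2 → F) : det2 (a • v) (b • w) = a * b * det2 v w := by
  simp [det2]
  ring

theorem det2_self (v : Fin 2 → F) : det2 v v = 0 := by simp [det2, mul_comm]

theorem det2_swap (v w : Fin 2 → F) : det2 v w = -det2 w v := by simp [det2]; ring

theorem exists_smul_of_det2 {v w : Fin 2 → F} (hv : v ≠ 0) (h : det2 v w = 0) :
    ∃ c : F, w = c • v := by
  by_cases h0 : v 0 = 0
  · have h1 : v 1 ≠ 0 := fun h1 => hv (by ext i; fin_cases i <;> simp [h0, h1])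
    refine ⟨w 1 / v 1, ?_⟩
    ext i
    fin_cases i
    · simp [det2, h0, h1] at h
      simp [h0, h]
    · simp [h1]
  · refine ⟨w 0 / v 0, ?_⟩
    ext i
    fin_cases i
    · simp [h0]
    · simp only [det2] at h
      simp
      field_simp
      linear_combination h

/-- `v` is an eigenvector of `g` -/
def Eig (g : GL (Fin 2) F) (v : Fin 2 → F) : Prop := det2 v (g.val *ᵥ v) = 0

theorem mk_eq_one_of_eig {g : GL (Fin 2) F} {u v w : Fin 2 → F} (hu : Eig g u) (hv : Eig g v)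
    (hw : Eig g w) (huv : det2 u v ≠ 0) (huw : det2 u w ≠ 0) (hvw : det2 v w ≠ 0) :
    ProjGenLinGroup.mk g = 1 := by
  rw [ProjGenLinGroup.mk_eq_one, GeneralLinearGroup.mem_center_iff_val_mem_range_scalar]
  have hD := mul_ne_zero (mul_ne_zero huv huw) hvw
  simp only [Eig, det2, mulVec, dotProduct, Fin.sum_univ_two] at hu hv hw
  have h1 : g.val 1 0 = 0 := (mul_eq_zero.1 (show g.val 1 0 * _ = 0 by
    simp only [det2]
    linear_combination v 1 * w 1 * (v 0 * w 1 - v 1 * w 0) * hu -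
      u 1 * w 1 * (u 0 * w 1 - u 1 * w 0) * hv +
      u 1 * v 1 * (u 0 * v 1 - u 1 * v 0) * hw)).resolve_right hD
  have h2 : g.val 0 1 = 0 := (mul_eq_zero.1 (show g.val 0 1 * _ = 0 by
    simp only [det2]
    linear_combination -(v 0 * w 0 * (v 0 * w 1 - v 1 * w 0)) * hu +
      u 0 * w 0 * (u 0 * w 1 - u 1 * w 0) * hv -
      u 0 * v 0 * (u 0 * v 1 - u 1 * v 0) * hw)).resolve_right hD
  have h3 : g.val 1 1 - g.val 0 0 = 0 := by
    rw [h1, h2] at hu hv hw
    by_contra h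
    have a : u 0 * u 1 = 0 := (mul_eq_zero.1 (by linear_combination hu)).resolve_left h
    have b : v 0 * v 1 = 0 := (mul_eq_zero.1 (by linear_combination hv)).resolve_left h
    have c : w 0 * w 1 = 0 := (mul_eq_zero.1 (by linear_combination hw)).resolve_left h
    simp only [det2] at huv huw hvw
    rcases mul_eq_zero.1 a with a | a <;> rcases mul_eq_zero.1 b with b | b <;>
      rcases mul_eq_zero.1 c with c | c <;> simp_all
  refine ⟨g.val 0 0, ?_⟩
  ext i j
  fin_cases i <;> fin_cases j <;> simp [h1, h2, (sub_eq_zero.1 h3)]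

theorem exists_of_mk_eq {g h : GL (Fin 2) F} (e : ProjGenLinGroup.mk g = ProjGenLinGroup.mk h) :
    ∃ c : F, c ≠ 0 ∧ ∀ v, h.val *ᵥ v = c • g.val *ᵥ v := by
  obtain ⟨u, rfl⟩ := ProjGenLinGroup.mk_eq_mk_iff.1 e
  refine ⟨u, u.ne_zero, fun v => ?_⟩
  rw [Units.val_mul, ← mulVec_mulVec, ← mulVec_smul]
  congr 1
  ext i
  simp [mulVec_diagonal]

theorem Eig.of_mk_eq {g h : GL (Fin 2) F} {v : Fin 2 → F} (hv : Eig g v)
    (e : ProjGenLinGroup.mk g = ProjGenLinGroup.mk h) : Eig h v := by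
  obtain ⟨c, -, hc⟩ := exists_of_mk_eq e
  rw [Eig, hc, ← one_smul F v, det2_smul, one_smul, hv, mul_zero]

theorem Eig.mul {g h : GL (Fin 2) F} {v : Fin 2 → F} (h0 : v ≠ 0) (hg : Eig g v) (hh : Eig h v) :
    Eig (g * h) v := by
  obtain ⟨c, hc⟩ := exists_smul_of_det2 h0 hh
  rw [Eig, Units.val_mul, ← mulVec_mulVec, hc, mulVec_smul, ← one_smul F v, det2_smul, one_smul,
    hg, mul_zero]

theorem Eig.conj {g h : GL (Fin 2) F} {v : Fin 2 → F} (hv : Eig g v)
    (e : Commute (ProjGenLinGroup.mk g) (ProjGenLinGroup.mk h)) : Eig g (h.val *ᵥ v) := by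
  obtain ⟨c, -, hc⟩ := exists_of_mk_eq (g := h * g) (h := g * h) (by simpa using e.symm.eq)
  rw [Eig, mulVec_mulVec, ← Units.val_mul, hc, Units.val_mul, ← mulVec_mulVec,
    ← one_smul F (h.val *ᵥ v), det2_smul, det2_mulVec, hv, mul_zero, mul_zero]

theorem Eig.sq_of_commute {g h : GL (Fin 2) F} {v : Fin 2 → F} (h0 : v ≠ 0) (hv : Eig g v)
    (e : Commute (ProjGenLinGroup.mk g) (ProjGenLinGroup.mk h))
    (hg : ProjGenLinGroup.mk g ≠ 1) : Eig (h * h) v := by
  by_cases h1 : Eig h v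
  · exact h1.mul h0 h1
  by_contra h2
  rw [Eig, Units.val_mul, ← mulVec_mulVec] at h2
  refine hg (mk_eq_one_of_eig hv (hv.conj e) ((hv.conj e).conj e) h1 h2 ?_)
  rw [det2_mulVec]
  exact mul_ne_zero h.det_ne_zero h1

end

variable {p : ℕ} [hp : Fact p.Prime]

/-- `g` has the eigenvector `v`, with eigenvalue `μ`, a primitive root, and determinant `μ⁻¹` -/
def Tor (g : GL (Fin 2) (ZMod p)) (v : Fin 2 → ZMod p) : Prop :=
  v ≠ 0 ∧ ∃ μ : ZMod p, orderOf μ = p - 1 ∧ g.val *ᵥ v = μ • v ∧ g.val.det * μ = 1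

theorem Tor.eig {g : GL (Fin 2) (ZMod p)} {v : Fin 2 → ZMod p} (h : Tor g v) : Eig g v := by
  obtain ⟨-, μ, -, h, -⟩ := h
  rw [Eig, h, ← one_smul (ZMod p) v, smul_smul, det2_smul, det2_self, mul_zero]

theorem Tor.dvd {g : GL (Fin 2) (ZMod p)} {v : Fin 2 → ZMod p} (h : Tor g v) {k : ℕ}
    (hk : ProjGenLinGroup.mk g ^ k = 1) : p - 1 ∣ 3 * k := by
  obtain ⟨h0, μ, ho, h1, h2⟩ := h
  rw [← map_pow, ProjGenLinGroup.mk_eq_one,
    GeneralLinearGroup.mem_center_iff_val_mem_range_scalar] at hk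
  obtain ⟨c, hc⟩ := hk
  have e1 : ∀ n : ℕ, (g.val ^ n) *ᵥ v = μ ^ n • v := fun n => by
    induction n with
    | zero => simp
    | succ n ih => rw [pow_succ, ← mulVec_mulVec, h1, mulVec_smul, ih, smul_smul, pow_succ']
  have e2 : c = μ ^ k := by
    have := e1 k
    rw [← Units.val_pow_eq_pow_val, ← hc] at this
    refine smul_left_injective (ZMod p) h0 (Eq.trans ?_ this)
    ext i
    simp [mulVec_diagonal]
  have e3 : g.val.det ^ k = c ^ 2 := by
    rw [← det_pow, ← Units.val_pow_eq_pow_val, ← hc]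
    simp
  rw [← ho, orderOf_dvd_iff_pow_eq_one]
  calc μ ^ (3 * k) = c ^ 2 * μ ^ k := by rw [e2]; ring
    _ = 1 := by rw [← e3, ← mul_pow, h2, one_pow]

theorem sq_dihedral {n : ℕ} {x y : DihedralGroup n} (hx : x ^ 2 ≠ 1) (hy : y ^ 2 ≠ 1) :
    Commute x y := by
  rcases x with i | i
  · rcases y with j | j
    · simp [Commute, SemiconjBy, add_comm]
    · exact absurd (by simp [pow_two]) hy
  · exact absurd (by simp [pow_two]) hx

theorem pow_alt4 : ∀ x : alternatingGroup (Fin 4), x ^ 2 = 1 ∨ x ^ 3 = 1 := by decide +kernel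

theorem pow_sym4 : ∀ x : Equiv.Perm (Fin 4), x ^ 3 = 1 ∨ x ^ 4 = 1 := by decide +kernel

theorem card_sym4 :
    (Finset.univ.filter fun x : Equiv.Perm (Fin 4) => x ^ 2 ≠ 1 ∧ x ^ 3 ≠ 1).card = 6 := by
  decide +kernel

theorem le_of_tor {H : Subgroup PGL(Fin 2, ZMod p)} (hH : ¬ p ∣ Nat.card H) {ι : Type} [Fintype ι]
    (g : ι → GL (Fin 2) (ZMod p)) (v : ι → Fin 2 → ZMod p)
    (hg : ∀ i, ProjGenLinGroup.mk (g i) ∈ H) (ht : ∀ i, Tor (g i) (v i))
    (hv : ∀ i j, i ≠ j → det2 (v i) (v j) ≠ 0) (hc : 2 < Fintype.card ι) :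
    p ≤ 7 ∨ (p = 13 ∧ Fintype.card ι ≤ 12) := by
  classical
  by_contra hn
  rw [not_or, not_le] at hn
  obtain ⟨h7, hn⟩ := hn
  let x : ι → H := fun i => ⟨_, hg i⟩
  have hx : ∀ i k, x i ^ k = 1 → p - 1 ∣ 3 * k := fun i k h =>
    (ht i).dvd (congrArg Subtype.val h)
  have hle : ∀ k, 0 < k → p - 1 ∣ 3 * k → p ≤ 3 * k + 1 := fun k hk h => by
    have := Nat.le_of_dvd (by omega) h
    omega
  have h1 : ∀ i, x i ≠ 1 := fun i h => by
    have := hle 1 one_pos (hx i 1 (by rw [h, one_pow])); omega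
  have h2 : ∀ i, x i ^ 2 ≠ 1 := fun i h => by have := hle 2 two_pos (hx i 2 h); omega
  have h3 : ∀ i, x i ^ 3 ≠ 1 := fun i h => by
    have h' := hx i 3 h
    have := hle 3 (by omega) h'
    have := hp.out
    interval_cases p <;> first | omega | norm_num at this
  have h5 : ∀ i, x i ^ 5 ≠ 1 := fun i h => by
    have h' := hx i 5 h
    have := hle 5 (by omega) h'
    have := hp.out
    interval_cases p <;> first | omega | norm_num at this
  obtain ⟨i, j, k, hij, hik, hjk⟩ := Fintype.two_lt_card_iff.1 hc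
  have hcomm : ¬ ∀ i j, Commute (x i) (x j) := fun h => by
    have key : ∀ l, Eig (g i * g i) (v l) := fun l =>
      (ht l).eig.sq_of_commute (ht l).1 (congrArg Subtype.val (h l i).eq)
        fun e => h1 l (Subtype.ext e)
    refine h2 i (Subtype.ext ?_)
    have := mk_eq_one_of_eig (key i) (key j) (key k) (hv i j hij) (hv i k hik) (hv j k hjk)
    rwa [map_mul, ← pow_two] at this
  have tr : ∀ {K : Type} [Group K] (e : H ≃* K) (i : ι) (n : ℕ), e (x i) ^ n = 1 → x i ^ n = 1 :=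
    fun e i n h => by rwa [← map_pow, map_eq_one_iff _ e.injective] at h
  rcases CfH3.dickson_pgl p H.subtype H.subtype_injective with
    ⟨h, -⟩ | ⟨c, -, ⟨e⟩⟩ | ⟨h, -⟩ | ⟨⟨e⟩⟩ | ⟨⟨e⟩⟩ | ⟨⟨e⟩⟩ | ⟨E, g₀, -, h⟩
  · exact hcomm fun i j => IsCyclic.isMulCommutative.is_comm.comm _ _
  · refine hcomm fun i j => ?_
    have := sq_dihedral (fun h => h2 i (tr e i 2 h)) (fun h => h2 j (tr e j 2 h))
    exact e.injective (by simpa using this.eq)
  · exact hH h
  · exact (pow_alt4 (e (x i))).elim (fun h => h2 i (tr e i 2 h)) fun h => h3 i (tr e i 3 h)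
  · have h13 : p = 13 := by
      have h' := hx i 4 (tr e i 4 ((pow_sym4 _).resolve_left fun h => h3 i (tr e i 3 h)))
      have := hle 4 (by omega) h'
      interval_cases p <;> omega
    obtain ⟨y, -, hy⟩ := Finset.exists_lt_card_fiber_of_mul_lt_card_of_maps_to
      (s := Finset.univ) (f := fun i => e (x i)) (n := 2)
      (t := Finset.univ.filter fun x : Equiv.Perm (Fin 4) => x ^ 2 ≠ 1 ∧ x ^ 3 ≠ 1)
      (fun i _ => Finset.mem_filter.2 ⟨Finset.mem_univ _, fun h => h2 i (tr e i 2 h),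
        fun h => h3 i (tr e i 3 h)⟩) (by rw [card_sym4, Finset.card_univ]; omega)
    obtain ⟨i, hi, j, hj, k, hk, hij, hik, hjk⟩ := Finset.two_lt_card.1 hy
    have e1 := congrArg Subtype.val
      (e.injective ((Finset.mem_filter.1 hj).2.trans (Finset.mem_filter.1 hi).2.symm))
    have e2 := congrArg Subtype.val
      (e.injective ((Finset.mem_filter.1 hk).2.trans (Finset.mem_filter.1 hi).2.symm))
    exact h1 i (Subtype.ext (mk_eq_one_of_eig (ht i).eig ((ht j).eig.of_mk_eq e1)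
      ((ht k).eig.of_mk_eq e2) (hv i j hij) (hv i k hik) (hv j k hjk)))
  · rcases CfH3.orderOf_alt5 (e (x i)) with h | h | h
    exacts [h2 i (tr e i 2 h), h3 i (tr e i 3 h), h5 i (tr e i 5 h)]
  · obtain ⟨y, hy⟩ := h ⟨!![1, 1; 0, 1], by simp [det_fin_two]⟩
    set s := GeneralLinearGroup.map E.subtype
      (SpecialLinearGroup.toGL (⟨!![1, 1; 0, 1], by simp [det_fin_two]⟩ : SL(2, E)))
    have hs : s.val = !![1, 1; 0, 1] := by
      ext i j
      fin_cases i <;> fin_cases j <;> rfl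
    have e1 : ∀ n : ℕ, s.val ^ n = !![1, (n : ZMod p); 0, 1] := fun n => by
      induction n with
      | zero => simp [one_fin_two]
      | succ n ih => rw [pow_succ, ih, hs]; simp [add_comm]
    have e2 : s ^ p = 1 := Units.ext (by
      rw [Units.val_pow_eq_pow_val, e1, ZMod.natCast_self, Units.val_one, one_fin_two])
    have e3 : y ≠ 1 := fun e => by
      rw [e, map_one, map_mul, map_mul, map_inv, eq_comm, mul_inv_eq_one, mul_eq_left,
        ProjGenLinGroup.mk_eq_one, GeneralLinearGroup.mem_center_iff_val_mem_range_scalar, hs] at hy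
      obtain ⟨c, hc⟩ := hy
      simpa using congrFun (congrFun hc 0) 1
    have e4 : y ^ p = 1 := H.subtype_injective (by
      rw [map_pow, hy, ← map_pow, conj_pow, e2, mul_one, mul_inv_cancel, map_one, map_one])
    exact hH ((orderOf_eq_prime e4 e3).symm.dvd.trans (_root_.orderOf_dvd_natCard y))

end CfH9
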