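import Cfsg.Agent.H9.ES3
import Cfsg.Agent.H9.PglTor

/-! The action of the normalizer of an extraspecial group of order `p ^ 3` on its central
quotient. -/

set_option autoImplicit false

namespace CfH9

open Cfsg Subgroup CfH7 Matrix
open scoped commutatorElement MatrixGroups

variable {G : Type*} [Group G] {p : ℕ}

open Classical in
/-- discrete logarithm -/
noncomputable def lg (p : ℕ) (z c : G) : ZMod p :=
  if h : ∃ k : ℤ, z ^ k = c then (h.choose : ZMod p) else 0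

/-- coordinates with respect to the generators `a`, `b` -/
noncomputable def co (p : ℕ) (a b x : G) : Fin 2 → ZMod p :=
  ![lg p ⁅a, b⁆ ⁅x, b⁆, lg p ⁅a, b⁆ ⁅a, x⁆]

/-- the matrix of conjugation by `n` -/
noncomputable def cmat (p : ℕ) (a b n : G) : Matrix (Fin 2) (Fin 2) (ZMod p) :=
  Matrix.of fun r s => co p a b (n * ![a, b] s * n⁻¹) r

theorem lg_zpow {z : G} (h : orderOf z = p) (k : ℤ) : lg p z (z ^ k) = k := by
  have e : ∃ k' : ℤ, z ^ k' = z ^ k := ⟨k, rfl⟩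
  rw [lg, dif_pos e, ZMod.intCast_eq_intCast_iff, ← h, ← zpow_eq_zpow_iff_modEq]
  exact e.choose_spec

theorem zpow_eq_of_cast {z : G} (h : z ^ p = 1) {k l : ℤ} (e : (k : ZMod p) = l) :
    z ^ k = z ^ l := by
  rw [ZMod.intCast_eq_intCast_iff] at e
  exact zpow_eq_zpow_iff_modEq.2 (e.of_dvd (by exact_mod_cast orderOf_dvd_of_pow_eq_one h))

namespace ES3

variable {P : Subgroup G} {z : G}

theorem exists_gens [Finite G] [Fact p.Prime] (h : ES3 p P z) : ∃ a ∈ P, ∃ b ∈ P, ⁅a, b⁆ = z := by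
  have : ¬ P ≤ zpowers z := fun e => by
    have := card_le_of_le e
    rw [h.card, Nat.card_zpowers, h.ord] at this
    have h1 := (Fact.out : p.Prime).one_lt
    have := Nat.pow_lt_pow_right h1 (show 1 < 3 by omega)
    rw [pow_one] at this
    omega
  obtain ⟨b, hb, hbz⟩ := SetLike.not_le_iff_exists.1 this
  obtain ⟨a, e⟩ := (h.range_kap hb hbz).ge (mem_zpowers z)
  exact ⟨a, a.2, b, hb, e⟩

variable {a b : G} (h : ES3 p P ⁅a, b⁆) (ha : a ∈ P) (hb : b ∈ P)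
include h ha hb

theorem co_rep (i j : ℤ) {c : G} (hc : c ∈ zpowers ⁅a, b⁆) :
    co p a b (a ^ i * b ^ j * c) = ![(i : ZMod p), (j : ZMod p)] := by
  have h1 := P.zpow_mem ha i
  have h2 := P.zpow_mem hb j
  rw [co, h.comm_mul_left (P.mul_mem h1 h2) (h.zle hc) hb, h.comm_mul_left h1 h2 hb,
    h.comm_mul_right (P.mul_mem h1 h2) (h.zle hc) ha, h.comm_mul_right h1 h2 ha,
    h.comm_zpow_left ha hb, h.comm_zpow_left hb hb, h.comm_zpow_right ha ha,
    h.comm_zpow_right hb ha, h.comm_z_left hc hb, h.comm_z_right hc ha]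
  simp [lg_zpow h.ord]

variable [Finite G] [hp : Fact p.Prime]

theorem not_mem_left : a ∉ zpowers ⁅a, b⁆ := fun e =>
  hp.out.one_lt.ne' (by rw [← h.ord, h.comm_z_left e hb, orderOf_one])

theorem not_mem_right : b ∉ zpowers ⁅a, b⁆ := fun e =>
  hp.out.one_lt.ne' (by rw [← h.ord, h.comm_z_right e ha, orderOf_one])

theorem exists_rep {x : G} (hx : x ∈ P) :
    ∃ i j : ℤ, ∃ c ∈ zpowers ⁅a, b⁆, x = a ^ i * b ^ j * c := by
  obtain ⟨i, hi⟩ := h.comm x hx b hb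
  have h1 := P.zpow_mem ha (-i)
  obtain ⟨j, c, hc, e⟩ := h.exists_of_comm hb (h.not_mem_right ha hb) (P.mul_mem h1 hx) (by
    rw [h.comm_mul_left h1 hx hb, h.comm_zpow_left ha hb, ← hi]
    group)
  exact ⟨i, j, c, hc, by rw [mul_assoc, ← e]; group⟩

theorem comm_rep (i j k l : ℤ) {c d : G} (hc : c ∈ zpowers ⁅a, b⁆) (hd : d ∈ zpowers ⁅a, b⁆) :
    ⁅a ^ i * b ^ j * c, a ^ k * b ^ l * d⁆ = ⁅a, b⁆ ^ (i * l - j * k) := by
  have h1 := P.zpow_mem ha i
  have h2 := P.zpow_mem hb j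
  have h3 := P.zpow_mem ha k
  have h4 := P.zpow_mem hb l
  have h5 := P.mul_mem (P.mul_mem h3 h4) (h.zle hd)
  rw [h.comm_mul_left (P.mul_mem h1 h2) (h.zle hc) h5, h.comm_z_left hc h5,
    h.comm_mul_right (P.mul_mem h3 h4) (h.zle hd) (P.mul_mem h1 h2),
    h.comm_z_right hd (P.mul_mem h1 h2), h.comm_mul_left h1 h2 (P.mul_mem h3 h4),
    h.comm_mul_right h3 h4 h1, h.comm_mul_right h3 h4 h2,
    h.comm_zpow_left ha h3, h.comm_zpow_left ha h4, h.comm_zpow_left hb h3,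
    h.comm_zpow_left hb h4, h.comm_zpow_right ha ha, h.comm_zpow_right hb ha,
    h.comm_zpow_right ha hb, h.comm_zpow_right hb hb, ← commutatorElement_inv a b]
  simp only [commutatorElement_self, _root_.one_zpow, one_mul, mul_one]
  generalize ⁅a, b⁆ = z
  group

theorem lg_comm {x y : G} (hx : x ∈ P) (hy : y ∈ P) :
    lg p ⁅a, b⁆ ⁅x, y⁆ = det2 (co p a b x) (co p a b y) := by
  obtain ⟨i, j, c, hc, rfl⟩ := h.exists_rep ha hb hx
  obtain ⟨k, l, d, hd, rfl⟩ := h.exists_rep ha hb hy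
  rw [h.comm_rep ha hb _ _ _ _ hc hd, h.co_rep ha hb _ _ hc, h.co_rep ha hb _ _ hd, lg_zpow h.ord]
  simp [det2]

theorem lg_mul {c d : G} (hc : c ∈ zpowers ⁅a, b⁆) (hd : d ∈ zpowers ⁅a, b⁆) :
    lg p ⁅a, b⁆ (c * d) = lg p ⁅a, b⁆ c + lg p ⁅a, b⁆ d := by
  obtain ⟨i, rfl⟩ := hc
  obtain ⟨j, rfl⟩ := hd
  simp only [← _root_.zpow_add, lg_zpow h.ord, Int.cast_add]

theorem co_mul {x y : G} (hx : x ∈ P) (hy : y ∈ P) :
    co p a b (x * y) = co p a b x + co p a b y := by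
  rw [co, h.comm_mul_left hx hy hb, h.comm_mul_right hx hy ha,
    h.lg_mul ha hb (h.comm _ hx _ hb) (h.comm _ hy _ hb),
    h.lg_mul ha hb (h.comm _ ha _ hx) (h.comm _ ha _ hy)]
  simp [co]

theorem co_zpow {x : G} (hx : x ∈ P) (n : ℤ) : co p a b (x ^ n) = (n : ZMod p) • co p a b x := by
  obtain ⟨i, hi⟩ := h.comm _ hx _ hb
  obtain ⟨j, hj⟩ := h.comm _ ha _ hx
  rw [co, co, h.comm_zpow_left hx hb, h.comm_zpow_right hx ha, ← hi, ← hj]
  simp only [← _root_.zpow_mul, lg_zpow h.ord]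
  simp [mul_comm]

theorem co_z {c : G} (hc : c ∈ zpowers ⁅a, b⁆) : co p a b c = 0 := by
  have := h.co_rep ha hb 0 0 hc
  simp only [zpow_zero, one_mul] at this
  rw [this]
  ext r
  fin_cases r <;> simp

omit ha hb in
theorem conj_mem_z {n c : G} {z : G} (h : ES3 p P z) (hn : n ∈ Nm(P)) (hc : c ∈ zpowers z) :
    n * c * n⁻¹ ∈ zpowers z := by
  rw [← h.cen] at hc ⊢
  exact conj_mem_of_mem_normalizer (mem_Nm_inf hn (mem_Nm_Cz hn)) hc

theorem co_conj {n x : G} (hn : n ∈ Nm(P)) (hx : x ∈ P) :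
    co p a b (n * x * n⁻¹) = cmat p a b n *ᵥ co p a b x := by
  obtain ⟨i, j, c, hc, rfl⟩ := h.exists_rep ha hb hx
  have h1 := conj_mem_of_mem_normalizer hn ha
  have h2 := conj_mem_of_mem_normalizer hn hb
  have h3 := h.conj_mem_z h hn hc
  have e : n * (a ^ i * b ^ j * c) * n⁻¹ =
      (n * a * n⁻¹) ^ i * (n * b * n⁻¹) ^ j * (n * c * n⁻¹) := by
    rw [conj_zpow, conj_zpow]; group
  rw [e, h.co_mul ha hb (P.mul_mem (P.zpow_mem h1 i) (P.zpow_mem h2 j)) (h.zle h3),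
    h.co_mul ha hb (P.zpow_mem h1 i) (P.zpow_mem h2 j), h.co_zpow ha hb h1, h.co_zpow ha hb h2,
    h.co_z ha hb h3, h.co_rep ha hb _ _ hc]
  ext r
  simp [cmat, mulVec, dotProduct, mul_comm]

theorem exists_co (v : Fin 2 → ZMod p) : ∃ x ∈ P, co p a b x = v := by
  obtain ⟨i, hi⟩ := ZMod.intCast_surjective (v 0)
  obtain ⟨j, hj⟩ := ZMod.intCast_surjective (v 1)
  refine ⟨_, P.mul_mem (P.mul_mem (P.zpow_mem ha i) (P.zpow_mem hb j)) P.one_mem, ?_⟩
  rw [h.co_rep ha hb i j (one_mem _), hi, hj]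
  ext r
  fin_cases r <;> rfl

theorem cmat_ext {M N : Matrix (Fin 2) (Fin 2) (ZMod p)}
    (e : ∀ x ∈ P, M *ᵥ co p a b x = N *ᵥ co p a b x) : M = N := by
  refine ext_iff_mulVec.2 fun v => ?_
  obtain ⟨x, hx, rfl⟩ := h.exists_co ha hb v
  exact e x hx

/-- the action of the normalizer on the central quotient -/
noncomputable def rho : Nm(P) →* GL (Fin 2) (ZMod p) :=
  MonoidHom.toHomUnits
    { toFun := fun n => cmat p a b n
      map_one' := h.cmat_ext ha hb fun x hx => by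
        rw [← h.co_conj ha hb (1 : Nm(P)).2 hx]; simp
      map_mul' := fun m n => h.cmat_ext ha hb fun x hx => by
        rw [← h.co_conj ha hb (m * n).2 hx, ← mulVec_mulVec, ← h.co_conj ha hb n.2 hx,
          ← h.co_conj ha hb m.2 (conj_mem_of_mem_normalizer n.2 hx)]
        simp [mul_assoc] }

theorem rho_val (n : Nm(P)) : (h.rho ha hb n).val = cmat p a b n := rfl

theorem not_dvd (hS : SylIn p P ⊤) :
    ¬ p ∣ Nat.card (ProjGenLinGroup.mk.comp (h.rho ha hb)).range := fun hd => by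
  refine (hS.mono le_normalizer le_top).not_dvd_relIndex (hd.trans ?_)
  rw [← index_ker]
  refine index_dvd_of_le fun n hn => ?_
  replace hn : (n : G) ∈ P := hn
  have : h.rho ha hb n = 1 := Units.ext <| h.cmat_ext ha hb fun x hx => by
    rw [rho_val, ← h.co_conj ha hb n.2 hx, h.conj_eq_comm,
      h.co_mul ha hb (h.zle (h.comm _ hn _ hx)) hx, h.co_z ha hb (h.comm _ hn _ hx)]
    simp
  simp [MonoidHom.mem_ker, this]

theorem mem_of_co {x : G} (hx : x ∈ P) (e : co p a b x = 0) : x ∈ zpowers ⁅a, b⁆ := by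
  refine h.mem_of_forall hx fun y hy => ?_
  obtain ⟨i, hi⟩ := h.comm _ hx _ hy
  have := h.lg_comm ha hb hx hy
  rw [e, ← hi, lg_zpow h.ord] at this
  rw [← hi, ← zpow_zero ⁅a, b⁆]
  exact zpow_eq_of_cast (h.pow_z (mem_zpowers _)) (by simpa [det2] using this)

/-- a split element of the normalizer attached to a plane with enough transvections -/
theorem exists_tor (hS : SylIn p P ⊤) {w : G} (hw : w ∈ P) (hwz : w ∉ zpowers ⁅a, b⁆)
    (hwp : w ^ p = 1)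
    (hv : ∀ i : ℤ, ∃ v, v * w * v⁻¹ = w ∧ v * ⁅a, b⁆ * v⁻¹ = ⁅a, b⁆ * w ^ i) :
    ∃ n : Nm(P), Tor (h.rho ha hb n) (co p a b w) := by
  have hz := h.pow_z (mem_zpowers _)
  have hc := h.cz (mem_zpowers _) hw
  have key : ∀ t s : ℤ, (t : ZMod p) * s = 1 →
      ∃ n : G, n * ⁅a, b⁆ * n⁻¹ = w ^ (-s) ∧ n * w * n⁻¹ = ⁅a, b⁆ ^ t := by
    intro t s e
    obtain ⟨u, hu, u1⟩ := h.exists_comm hw hwz (zpow_mem_zpowers _ t)
    have u2 := h.conj_z (mem_zpowers _) hu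
    obtain ⟨v, v1, v2⟩ := hv (-s)
    have z1 := zpow_eq_of_cast hz (k := t * s) (l := 1) (by simpa using e)
    have w1 := zpow_eq_of_cast hwp (k := s * t) (l := 1) (by simpa [mul_comm] using e)
    generalize ⁅a, b⁆ = z at *
    have hc' : Commute w z := hc
    refine ⟨u * v * u, ?_, ?_⟩
    · calc _ = u * (v * (u * z * u⁻¹) * v⁻¹) * u⁻¹ := by group
        _ = u * (z * w ^ (-s)) * u⁻¹ := by rw [u2, v2]
        _ = (u * z * u⁻¹) * (u * w * u⁻¹) ^ (-s) := by rw [conj_zpow]; group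
        _ = z * (z ^ (t * s))⁻¹ * w ^ (-s) := by
          rw [u2, u1, (hc'.zpow_right t).mul_zpow, ((hc'.zpow_right t).zpow_zpow _ _).eq]
          group
        _ = _ := by rw [z1]; group
    · calc _ = u * (v * (u * w * u⁻¹) * v⁻¹) * u⁻¹ := by group
        _ = u * ((v * w * v⁻¹) * (v * z * v⁻¹) ^ t) * u⁻¹ := by rw [u1, conj_zpow]; group
        _ = u * (z ^ t * (w * (w ^ (s * t))⁻¹)) * u⁻¹ := by
          rw [v1, v2, (hc'.symm.zpow_right _).mul_zpow, ← mul_assoc w, (hc'.zpow_right t).eq]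
          group
        _ = _ := by rw [w1, zpow_one, mul_inv_cancel, mul_one, ← conj_zpow, u2]
  obtain ⟨μ, hμ⟩ := IsCyclic.exists_ofOrder_eq_natCard (α := (ZMod p)ˣ)
  obtain ⟨s, hs⟩ := ZMod.intCast_surjective (μ : ZMod p)
  obtain ⟨t, ht⟩ := ZMod.intCast_surjective ((μ⁻¹ : (ZMod p)ˣ) : ZMod p)
  have e : (t : ZMod p) * s = 1 := by rw [hs, ht, Units.inv_mul]
  obtain ⟨m, m1, m2⟩ := key t s e
  obtain ⟨n, n1, n2⟩ := key (-1) (-1) (by simp)
  obtain ⟨x, hx, x1, x2⟩ := h.exists_Nm' hS (t := m * n) (i := t) (j := s) hw hwz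
    (by calc _ = m * (n * ⁅a, b⁆ * n⁻¹) * m⁻¹ := by group
          _ = _ := by rw [n1, neg_neg, zpow_one, m2])
    (by calc _ = m * (n * w * n⁻¹) * m⁻¹ := by group
          _ = _ := by rw [n2, ← conj_zpow, m1]; group)
  refine ⟨⟨x, hx⟩, fun e => hwz (h.mem_of_co ha hb hw e), μ, ?_, ?_, ?_⟩
  · rw [orderOf_units, hμ, Nat.card_eq_fintype_card, ZMod.card_units]
  · rw [rho_val, ← h.co_conj ha hb hx hw, x2, h.co_zpow ha hb hw, hs]
  · have h1 := h.lg_comm ha hb (conj_mem_of_mem_normalizer hx ha) (conj_mem_of_mem_normalizer hx hb)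
    rw [← conjugate_commutatorElement, x1, lg_zpow h.ord] at h1
    rw [← hs, ← e, h1, rho_val, det_fin_two]
    simp [det2, cmat, mul_comm]

theorem le_of_planes (hS : SylIn p P ⊤) {ι : Type} [Fintype ι] (w : ι → G) (hw : ∀ i, w i ∈ P)
    (hwp : ∀ i, w i ^ p = 1) (hne : ∀ i j, i ≠ j → ⁅w i, w j⁆ ≠ 1)
    (hv : ∀ k, ∀ i : ℤ, ∃ v, v * w k * v⁻¹ = w k ∧ v * ⁅a, b⁆ * v⁻¹ = ⁅a, b⁆ * w k ^ i)
    (hc : 2 < Fintype.card ι) : p ≤ 7 ∨ (p = 13 ∧ Fintype.card ι ≤ 12) := by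
  have hwz : ∀ i, w i ∉ zpowers ⁅a, b⁆ := fun i e => by
    obtain ⟨j, hj⟩ := Fintype.exists_ne_of_one_lt_card (by omega) i
    exact hne j i hj (h.comm_z_right e (hw j))
  choose n hn using fun k => h.exists_tor ha hb hS (hw k) (hwz k) (hwp k) (hv k)
  refine le_of_tor (h.not_dvd ha hb hS) _ _ (fun i => ⟨n i, rfl⟩) hn (fun i j hij e => ?_) hc
  obtain ⟨k, hk⟩ := h.comm _ (hw i) _ (hw j)
  rw [← h.lg_comm ha hb (hw i) (hw j), ← hk, lg_zpow h.ord] at e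
  refine hne i j hij ?_
  rw [← hk, ← zpow_zero ⁅a, b⁆]
  exact zpow_eq_of_cast (h.pow_z (mem_zpowers _)) (by simpa using e)

end ES3

end CfH9
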