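import Cfsg.Agent.H9.Deg
import Cfsg.Agent.H8.Gaschuetz
import Cfsg.Agent.H8.Coprime2
import Cfsg.Agent.OD.Helper9xf5d23666d4

/-! Normal `p`-complement theorems with one self-centralizing characteristic subgroup. -/

set_option autoImplicit false
set_option linter.unusedSectionVars false

namespace CfH9

open Subgroup Cfsg CfH7 CfH1 Finset
open scoped commutatorElement

universe u

/-- a characteristic `p`-functor -/
structure Fnc (p : ℕ) (W : ∀ {G : Type u} [Group G], Subgroup G → Subgroup G) : Prop where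
  le : ∀ {G : Type u} [Group G] (X : Subgroup G), W X ≤ X
  map : ∀ {G G' : Type u} [Group G] [Group G'] {f : G →* G'}, Function.Injective f →
    ∀ X : Subgroup G, (W X).map f = W (X.map f)
  ne : ∀ {G : Type u} [Group G] [Finite G] {X : Subgroup G}, IsPGroup p X → X ≠ ⊥ → W X ≠ ⊥

namespace Fnc

variable {p : ℕ} {W : ∀ {G : Type u} [Group G], Subgroup G → Subgroup G} (h : Fnc p W)
  {G G' : Type u} [Group G] [Group G'] {S H : Subgroup G}
include h

theorem map' {f : G →* G'} (hf : S ⊓ f.ker = ⊥) : (W S).map f = W (S.map f) := by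
  have := h.map (map_functor_of_disjoint hf) ⊤
  rwa [← Subgroup.map_map, ← Subgroup.map_map, h.map S.subtype_injective, map_subtype_top] at this

theorem nm (S : Subgroup G) : Nm(S) ≤ Nm(W S) := fun g hg => by
  rw [mem_normalizer_iff_cj] at hg ⊢
  rw [cj, h.map (MulAut.conj g).injective, ← cj, hg]

theorem subgroupOf (hS : S ≤ H) : (W S).subgroupOf H = W (S.subgroupOf H) := by
  rw [← map_subgroupOf_eq_of_le hS, ← h.map H.subtype_injective,
    subgroupOf_map_subtype_self, subgroupOf_map_subtype_self]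

variable [hp : Fact p.Prime]

theorem map_Nm [Finite G] (hS : IsPGroup p S) : Nm(W (S.map (QuotientGroup.mk' (pPrimeCore p G)))) =
    Nm(W S).map (QuotientGroup.mk' (pPrimeCore p G)) := by
  have hco := coprime_card_pPrimeCore p G
  rw [← h.map' (by
    rw [QuotientGroup.ker_mk']; exact (disjoint_of_isPGroup_of_coprime hS hco).eq_bot),
    ← CfH8.map_normalizer_quotient (CfH8.coprime_card_of_isPGroup' (hS.to_le (h.le S)) hco).symm
      (Or.inl (CfH8.isSolvable_of_isPGroup (hS.to_le (h.le S))))]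

theorem npc (hm : ∀ (G : Type u) [Group G] [Finite G] (S : Subgroup G), NpcMin p S → (W S).Normal)
    (G : Type u) [Group G] [Finite G] :
    ∀ S : Subgroup G, SylIn p S ⊤ → PNil p Nm(W S) → PNil p (⊤ : Subgroup G) := by
  refine group_induction (P := fun G _ _ => ∀ S : Subgroup G, SylIn p S ⊤ → PNil p Nm(W S) →
    PNil p (⊤ : Subgroup G)) (fun G _ _ ih S hS h0 => ?_) G
  have hsub : ∀ H S : Subgroup G, H ≠ ⊤ → SylIn p S H → PNil p (H ⊓ Nm(W S)) → PNil p H :=
    fun H S hH hS h1 => pNil_top_iff.1 (ih H (card_lt_of_ne_top hH) _ hS.subgroupOf_top (by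
      rw [← h.subgroupOf hS.le, ← subgroupOf_normalizer_eq ((h.le S).trans hS.le),
        ← inf_subgroupOf_left]
      exact (pNil_subgroupOf_iff inf_le_left).2 h1))
  have hsub' : ∀ H : Subgroup G, H ≠ ⊤ → S ≤ H → PNil p H := fun H hH hSH =>
    hsub H S hH (hS.mono hSH le_top) (h0.mono inf_le_right)
  have hquot : ∀ N : Subgroup G, ∀ [N.Normal], N ≠ ⊥ →
      PNil p Nm(W (S.map (QuotientGroup.mk' N))) → PNil p (⊤ : Subgroup (G ⧸ N)) :=
    fun N _ hN => ih _ (card_quot_lt hN) _ (hS.map_surj (QuotientGroup.mk'_surjective N))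
  by_cases hO : pPrimeCore p G = ⊥
  swap
  · refine PNil.of_map (f := QuotientGroup.mk' (pPrimeCore p G)) (by
      rw [QuotientGroup.ker_mk']; exact coprime_card_pPrimeCore p G) ?_
    rw [map_top_of_surjective _ (QuotientGroup.mk'_surjective _)]
    exact hquot _ hO (h.map_Nm hS.pgrp ▸ h0.map _)
  by_cases hQ : pCore p G = ⊥
  · refine pNil_of_functor W h.le h.nm hS (sc_self _ _) (fun X h1 h2 => h.ne (hS.pgrp.to_le h1) h2)
      (h0.mono inf_le_right) fun U hU hU1 hfn h1 => hsub _ _ (fun h => hU1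
        (eq_bot_of_normal_of_pCore_eq_bot hQ (normal_iff_top_le_Nm.2 (h.ge.trans inf_le_right))
          (hS.pgrp.to_le hU))) hfn (h1.mono (inf_le_inf_right _ inf_le_left))
  by_cases hDQ : S ≤ pCore p G
  · rw [le_antisymm hDQ (hS.le_of_le_Nm (isPGroup_pCore p G) le_top le_normalizer_of_normal)] at h0
    exact h0.mono (le_normalizer_of_normal.trans (h.nm _))
  by_contra hn
  have := hm G S ⟨hS, hO, hquot _ hQ (pNil_map_Nm hsub' ((hS.pgrp.map _).to_le (h.le _))
    (h.ne (hS.pgrp.map _) (by rwa [Ne, Subgroup.map_eq_bot_iff, QuotientGroup.ker_mk']))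
    (le_normalizer.trans (h.nm _))), hsub', hn⟩
  exact hn (h0.mono le_normalizer_of_normal)

theorem npc_iff (hm : ∀ (G : Type u) [Group G] [Finite G] (S : Subgroup G), NpcMin p S →
    (W S).Normal) [Finite G] (hS : SylIn p S ⊤) (hc : S ⊓ Cz(W S) ≤ W S) :
    HasNormalPComplement p G ↔ ∀ g ∈ Nm(W S), (orderOf g).Coprime p → g ∈ Cz(W S) := by
  rw [hasNPC_iff_pNil_top]
  refine ⟨fun h1 g hg ho => h1.mem_Cz (hS.pgrp.to_le (h.le S)) le_top trivial hg ho,
    fun h1 => h.npc hm G S hS ?_⟩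
  have hN := le_normalizer.trans (h.nm S)
  have h2 := (hS.mono hN le_top).inf_normal' (Nm_le_Nm_Cz _) (Cz_le_Nm _)
  have h3 := burnside_pNil h2 (inf_le_left.trans (Cz_anti hc))
  rw [PNil, ← pResidualOf_pResidualOf]
  exact h3.mono (pResidualOf_le_iff.2 h1)

end Fnc

variable {G : Type*} [Group G] {p : ℕ} {A B D E M N S X Y Z : Subgroup G} {a b c g x y z : G}

theorem dl_mul_right (a b x : G) : dl (a * b) x = dl b x * (b⁻¹ * dl a x * b) := by
  simp only [dl]; group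

/-- the elements whose commutator with `x` lies in `E` -/
def dlK (x : G) (E : Subgroup G) : Subgroup G where
  carrier := {g | g ∈ Nm(E) ∧ dl g x ∈ E}
  one_mem' := ⟨one_mem _, by simp [dl]⟩
  mul_mem' := fun {a b} ha hb => ⟨mul_mem ha.1 hb.1,
    dl_mul_right a b x ▸ mul_mem hb.2 (conj_mem_of_mem_normalizer' hb.1 ha.2)⟩
  inv_mem' := fun {a} ha => ⟨inv_mem ha.1, by
    rw [show dl a⁻¹ x = a * (dl a x)⁻¹ * a⁻¹ by simp [dl, mul_assoc]]
    exact conj_mem_of_mem_normalizer ha.1 (inv_mem ha.2)⟩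

variable [Finite G] [hp : Fact p.Prime]

theorem dl_nilp (ha : IsPGroup p (zpowers a)) (D : Subgroup G) :
    IsPGroup p D → a ∈ Nm(D) → ∃ r, ∀ v ∈ D, (dl a)^[r] v = 1 := by
  induction D using subgroup_induction with | h D ih => ?_
  intro hD hn
  by_cases h0 : D = ⊥
  · exact ⟨0, fun v hv => mem_bot.1 (h0 ▸ hv)⟩
  have h1 := commutator_lt_of_isPGroup hD ha (zpowers_le.2 hn) h0
  obtain ⟨r, hr⟩ := ih _ (CfH9.card_lt_of_lt h1) (hD.to_le h1.le) (zpowers_le.1
    (CfH7.le_normalizer_commutator (zpowers_le.2 hn) le_normalizer))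
  exact ⟨r + 1, fun v hv => hr _ (dl_mem_comm hv (mem_zpowers a))⟩

/-- an abelian subgroup of largest order has degree at most four -/
theorem MaxEA.dl_four (h2 : p ≠ 2) (hS : IsPGroup p S) (hA : MaxEA 0 S A) (ha : a ∈ A)
    (hc : A ≤ (N ⊓ A) ⊔ zpowers a) (hD : D ≤ S) (hn : A ≤ Nm(D)) (hBD : B ≤ D) (hn' : A ≤ Nm(B))
    (h1 : B ≤ Cz(D)) (h3 : ⁅D, D⁆ ≤ B) (h4 : ∀ x ∈ D, x ^ p ∈ B) (h5 : ⁅D, N⁆ ≤ B)
    (hq : ⁅⁅⁅D, D⁆, A⁆, A⁆ = ⊥) (hv : x ∈ D) : (dl a)^[4] x ∈ B := by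
  classical
  by_contra h6
  obtain ⟨r, hr⟩ := dl_nilp (hS.to_le (zpowers_le.2 (hA.le ha))) D (hS.to_le hD) (hn ha)
  have hex : ∃ n, (dl a)^[n] x ∈ B := ⟨r, hr x hv ▸ one_mem B⟩
  obtain ⟨k, hk⟩ := Nat.exists_eq_add_of_le (show 5 ≤ Nat.find hex by
    by_contra h; exact h6 (dl_iter_le (hn' ha) (Nat.find_spec hex) (by omega)))
  have w5 := Nat.find_spec hex
  have w4 := Nat.find_min hex (show 4 + k < _ by omega)
  rw [hk] at w5
  rw [Function.iterate_add_apply] at w4 w5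
  have m := dl_iter_mem (hn ha) (dl_iter_mem (hn ha) hv k)
  generalize (dl a)^[k] x = w at w4 w5 m
  set E := closure {y | ∃ i, (dl a)^[i + 2] w = y} ⊔ B with hE
  have hED : E ≤ D := sup_le ((closure_le _).2 fun _ ⟨i, e⟩ => e ▸ m _) hBD
  have hBE : B ≤ E := le_sup_right
  have hm : ∀ i, (dl a)^[i + 2] w ∈ E := fun i => mem_sup_left (subset_closure ⟨i, rfl⟩)
  have hEc : IsMulCommutative E := by
    refine comm_sup (le_centralizer_iff_isMulCommutative.1 ((closure_le _).2 ?_))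
      (le_centralizer_iff_isMulCommutative.1 (h1.trans (Cz_anti hBD)))
      (le_Cz_comm (h1.trans (Cz_anti (le_sup_left.trans hED))))
    rintro _ ⟨i, rfl⟩
    rw [centralizer_closure]
    rintro _ ⟨j, rfl⟩
    by_cases h : i + j = 0
    · rw [show i = j by omega]
    · exact commutatorElement_eq_one_iff_mul_comm.1 (dl_isotropic (hn ha) (h3.trans h1)
        (fun y hy => mem_bot.1 (hq.le (dl_mem_comm (dl_mem_comm hy ha) ha))) (m 0) (h1 w5)
        (by omega))
  have haE : a ∈ Nm(E) := by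
    refine inv_mem_iff.1 (mem_normalizer_of_cj_le (map_le_iff_le_comap.2 (sup_le
      ((closure_le _).2 ?_) fun y hy => hBE (conj_mem_of_mem_normalizer (inv_mem (hn' ha)) hy))))
    rintro _ ⟨i, rfl⟩
    have := mul_mem (hm i) (hm (i + 1))
    rw [add_right_comm, Function.iterate_succ_apply' _ (i + 2)] at this
    generalize (dl a)^[i + 2] w = y at this
    simpa [dl, mul_assoc] using this
  have hAK : A ≤ dlK (dl a w) E := hc.trans (sup_le (fun b hb => ⟨le_Nm_of_comm_le hED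
    (h5.trans hBE) hb.1, hBE (h5 (dl_mem_comm (m 1) hb.1))⟩) (zpowers_le.2 ⟨haE, hm 0⟩))
  have hME : closure {y | ∃ b ∈ A, dl b (dl a w) = y} ≤ E := (closure_le _).2
    fun _ ⟨b, hb, e⟩ => e ▸ (hAK hb).2
  obtain ⟨b, hb, e⟩ := hA.exists_dl rfl (hME.trans (hED.trans hD)) (comm_of_le hME hEc)
    (y := (dl a)^[3] w) (by
      have e1 := subset_closure (k := {y | ∃ b ∈ A, dl b (dl a w) = y}) ⟨a, ha, rfl⟩
      have := mul_mem (inv_mem e1) (mul_mem (inv_mem e1) (subset_closure ⟨_, mul_mem ha ha, rfl⟩))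
      rwa [dl_mul_right, inv_mul_cancel_left, ← mul_assoc, ← mul_assoc] at this)
  have bD := hED (hAK hb).2
  obtain ⟨n, hn1, _, ⟨j', rfl⟩, rfl⟩ := (mem_sup_of_le_Nm' (zpowers_le.2 (Cz_le_Nm _
    (Cz_anti inf_le_right (le_Cz_of_comm hA.comm ha))))).1 (hc hb)
  obtain ⟨j, hj⟩ := (mem_powers_iff_mem_zpowers (x := a)).2 ⟨j', rfl⟩
  simp only [← hj] at e bD
  obtain ⟨W, _, ℓ, hl, hl'⟩ := exists_addOn_ker h3
  have cD : ∀ i : ℕ, ∀ y ∈ D, (a ^ i)⁻¹ * y * a ^ i ∈ D := fun i y hy =>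
    conj_mem_of_mem_normalizer' (pow_mem (hn ha) i) hy
  have cB : ∀ i : ℕ, ∀ y ∈ B, ℓ ((a ^ i)⁻¹ * y * a ^ i) = 0 := fun i y hy =>
    (hl' _ (cD i y (hBD hy))).2 (conj_mem_of_mem_normalizer' (pow_mem (hn' ha) i) hy)
  have m1 : dl a w ∈ D := m 1
  have it := fun k => (hl.iter_comm (hn ha) m1 k).2
  set u := fun i : ℕ => ℓ ((a ^ i)⁻¹ * dl a w * a ^ i) with hu
  have e2 : (fwdDiff 1)^[2] u = fun i => u (i + j) - u i + ℓ ((dl (n * a ^ j) (dl a w))⁻¹ *
      (dl a)^[3] w) := by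
    ext i
    have e3 := e (a ^ i) (pow_mem ha i)
    have cm := mul_mem (inv_mem bD) (m 3)
    change _ = ℓ _ - ℓ _ + _
    rw [← it, show (dl a)^[2] (dl a w) = dl (n * a ^ j) (dl a w) *
      ((dl (n * a ^ j) (dl a w))⁻¹ * (dl a)^[3] w) by rw [mul_inv_cancel_left]; rfl]
    generalize (dl (n * a ^ j) (dl a w))⁻¹ * (dl a)^[3] w = c at e3 cm
    rw [show (a ^ i)⁻¹ * (dl (n * a ^ j) (dl a w) * c) * a ^ i = ((a ^ i)⁻¹ * dl a w * a ^ i)⁻¹ *
      (((a ^ (i + j))⁻¹ * dl a w * a ^ (i + j)) * ((a ^ (i + j))⁻¹ * dl n (dl a w) * a ^ (i + j))) *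
      ((a ^ i)⁻¹ * (c * a ^ i)) by generalize dl a w = y; simp only [dl]; group,
      ← e3, inv_mul_cancel_left, hl _ (mul_mem (inv_mem (cD _ _ m1)) (mul_mem (cD _ _ m1)
        (cD _ _ (hBD (h5 (dl_mem_comm m1 hn1.1)))))) _ cm, hl _ (inv_mem (cD _ _ m1)) _
        (mul_mem (cD _ _ m1) (cD _ _ (hBD (h5 (dl_mem_comm m1 hn1.1))))),
      hl _ (cD _ _ m1) _ (cD _ _ (hBD (h5 (dl_mem_comm m1 hn1.1)))),
      cB _ _ (h5 (dl_mem_comm m1 hn1.1)), hl.inv (cD _ _ m1)]
    abel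
  have e4 := seq_two h2 (j := j) 1 (fwdDiff 1 u) (smul_fwdDiff (fun i => by
      rw [hu, ← hl.pow (cD _ _ m1)]; exact (hl' _ (pow_mem (cD _ _ m1) p)).2 (h4 _ (cD _ _ m1))) 1)
    (funext fun i => (it 4 i).symm.trans (cB i _ w5)) (by
      rw [← Function.iterate_succ_apply, Function.iterate_succ_apply', e2]
      ext i
      simp only [fwdDiff, add_right_comm i 1 j]
      abel)
  have e5 := (it 3 0).trans (congrFun e4 0)
  rw [pow_zero, inv_one, one_mul, mul_one] at e5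
  exact w4 ((hl' _ (m 4)).1 e5)

theorem NpcMin.TJ_le (h : NpcMin p S) (h5 : 5 ≤ p) : TJ 0 S ≤ pCore p G := by
  classical
  refine TJ_le_iff.2 fun A hA => by_contra fun hAN => ?_
  have hNS : pCore p G ≤ S := h.syl.le_of_le_Nm (isPGroup_pCore p G) le_top le_normalizer_of_normal
  have hf := QuotientGroup.mk'_surjective (pCore p G)
  have hk := QuotientGroup.ker_mk' (pCore p G)
  have hco := h.coprime_map
  have hKc : IsMulCommutative ((pResidual p G).map (QuotientGroup.mk' (pCore p G))) := by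
    rw [← le_centralizer_iff_isMulCommutative, ← comm_eq_bot_right, ← map_commutator,
      Subgroup.map_eq_bot_iff, hk]
    exact h.commutator_le
  have hAp := (h.syl.pgrp.to_le hA.le).map (QuotientGroup.mk' (pCore p G))
  have hAc := comm_map hA.comm (QuotientGroup.mk' (pCore p G))
  set f := QuotientGroup.mk' (pCore p G) with hf'
  have hKn : ((pResidual p G).map f).Normal := Subgroup.Normal.map inferInstance f hf
  obtain ⟨Q, ⟨q1, q2, q3⟩, -, qm⟩ := exists_minimal_le (fun X => X ≤ (pResidual p G).map f ∧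
      A.map f ≤ Nm(X) ∧ ¬ A.map f ≤ Cz(X)) ⟨le_rfl, le_normalizer_of_normal, fun e => hAN (by
    rw [← hk, ← Subgroup.map_eq_bot_iff, eq_bot_iff, ← eq_bot_of_normal_of_pCore_eq_bot
      (pCore_quotient_pCore p G) (N := S.map f ⊓ Cz((pResidual p G).map f))
      (normal_iff_top_le_Nm.2 ?_) ((h.syl.pgrp.map f).to_le inf_le_left)]
    · exact le_inf (map_mono hA.le) e
    rw [← map_top_of_surjective f hf, ← h.syl.sup_pResidualOf, pResidualOf_top, Subgroup.map_sup]
    exact sup_le ((le_Cz_comm inf_le_right).trans (Cz_le_Nm _))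
      (CfH7.le_normalizer_inf le_normalizer le_normalizer_of_normal))⟩
  have qc := coprime_card_of_le q1 hco
  have cop : ∀ X, X ≤ A.map f → (Nat.card X).Coprime (Nat.card Q) := fun X hX =>
    (CfH8.coprime_card_of_isPGroup' (hAp.to_le hX) qc).symm
  have qm' : ∀ X, X ≤ Q → A.map f ≤ Nm(X) → X = Q ∨ X ≤ Cz(A.map f) := fun X h1 h2 =>
    or_iff_not_imp_right.2 fun e => qm X ⟨h1.trans q1, h2, fun e' => e (le_Cz_comm e')⟩ h1
  have q4 : Q ⊓ Cz(A.map f) = ⊥ := by
    rw [← CfH8.commutator_inf_centralizer_eq_bot (comm_of_le q1 hKc) q2 (cop _ le_rfl),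
      (qm' _ (comm_le_left q2) (CfH7.le_normalizer_commutator q2 le_normalizer)).resolve_right
        fun e => q3 (comm_eq_bot_right.1 ((CfH8.commutator_commutator_eq q2 (cop _ le_rfl)
          (.inl (CfH8.isSolvable_of_isPGroup hAp))).symm.trans (comm_eq_bot_left.2 e)))]
  have fpf : ∀ a ∈ A.map f, a ∉ Cz(Q) → Q ⊓ Cx(a) = ⊥ := fun a ha e => eq_bot_iff.2
    ((le_inf inf_le_left ((qm' _ inf_le_left (CfH7.le_normalizer_inf q2 (fun b hb =>
      le_normalizer (mem_Cx.2 (comm_iff.1 hAc b hb a ha))))).resolve_left fun e' =>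
        e fun x hx => mem_Cx.1 (e'.ge hx).2)).trans q4.le)
  have hle : ∀ X : Subgroup (G ⧸ pCore p G), pCore p G ≤ X.comap f := fun X => hk.ge.trans (ker_le_comap f X)
  have hS1 : (A.map f).comap f ≤ S := by rw [comap_map_eq, hk]; exact sup_le hA.le hNS
  have hN1 : (Q ⊔ A.map f).comap f ≤ Nm((A.map f ⊓ Cz(Q)).comap f) := fun g hg =>
    Subgroup.le_normalizer_comap f (Cz_le_Nm _ (sup_le (le_Cz_comm inf_le_right)
      ((le_Cz_of_comm hAc).trans (Cz_anti inf_le_left)) hg))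
  have hR : (Q ⊔ A.map f).comap f ≤ Nm(pResidualOf p (Q.comap f)) := fun g hg =>
    normalizer_le_normalizer_pResidualOf _ (Subgroup.le_normalizer_comap f (sup_le le_normalizer q2 hg))
  have hRQ : pResidualOf p (Q.comap f) ≤ Q.comap f := pResidualOf_le _
  have hQΓ : Q.comap f ≤ (Q ⊔ A.map f).comap f := comap_mono le_sup_left
  have hAΓ : (A.map f).comap f ≤ (Q ⊔ A.map f).comap f := comap_mono le_sup_right
  have hNA : (A.map f ⊓ Cz(Q)).comap f ≤ (A.map f).comap f := comap_mono inf_le_left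
  have q0 : Q ≠ ⊥ := fun e => q3 (e ▸ fun x _ y hy => by rw [mem_bot.1 hy, one_mul, mul_one])
  obtain ⟨D, ⟨d1, d2, d3⟩, -, dm⟩ := exists_minimal_le (fun X => X ≤ pCore p G ∧
      (Q ⊔ A.map f).comap f ≤ Nm(X) ∧ ¬ pResidualOf p (Q.comap f) ≤ Cz(X))
    ⟨le_rfl, le_normalizer_of_normal, fun e => q0 (by
      rw [← pResidualOf_eq_self_of_coprime qc, ← map_comap_eq_self_of_surjective hf Q,
        ← map_pResidualOf, Subgroup.map_eq_bot_iff, hk]
      exact e.trans h.Cz_le)⟩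
  have dp := (isPGroup_pCore p G).to_le d1
  have d4 : ¬ ⁅D, pResidualOf p (Q.comap f)⁆ ≤ Cz(pResidualOf p (Q.comap f)) := fun e =>
    d3 (pResidualOf_le_Cz_of_le' dp (hQΓ.trans d2) le_rfl (le_Cz_comm e))
  generalize pResidualOf p (Q.comap f) = R at hR hRQ d3 dm d4
  have d0 : D ≠ ⊥ := fun e => d3 (e ▸ fun x _ y hy => by rw [mem_bot.1 hy, one_mul, mul_one])
  have hB : ∀ X, X < D → (Q ⊔ A.map f).comap f ≤ Nm(X) → X ≤ D ⊓ Cz(R) := fun X h1 h2 =>
    le_inf h1.le (by_contra fun e => h1.ne (dm X ⟨h1.le.trans d1, h2, fun e' => e (le_Cz_comm e')⟩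
      h1.le))
  have b1 := hB _ (commutator_lt_of_isPGroup dp (h.syl.pgrp.to_le (hNA.trans hS1))
    (hNA.trans (hAΓ.trans d2)) d0) (CfH7.le_normalizer_commutator d2 hN1)
  have b2 := hB _ (Phi_lt d0) (d2.trans (Nm_le_Nm_Phi D))
  have b3 := (comm_le_Phi dp).trans b2
  have b4 : ⁅D, R⁆ = D := by_contra fun e => d4 ((hB _ (lt_of_le_of_ne (comm_le_left
    (hRQ.trans (hQΓ.trans d2))) e) (CfH7.le_normalizer_commutator d2 hR)).trans inf_le_right)
  have b5 : (Q ⊔ A.map f).comap f ≤ Nm(D ⊓ Cz(R)) :=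
    CfH7.le_normalizer_inf d2 (hR.trans (Nm_le_Nm_Cz R))
  have b6 : D ⊓ Cz(R) ≤ Cz(D) := comm_eq_bot_right.1 ((congrArg (⁅·, _⁆) b4).symm.trans
    (commutator_commutator_eq_bot_of_rotate
    (by rw [comm_eq_bot_right.2 inf_le_right, commutator_bot_left])
    (comm_eq_bot_left.2 ((comm_le_left (d1.trans ((hle _).trans b5))).trans inf_le_right))))
  have b7 : ⁅D, D⁆ ≤ Cz((A.map f ⊓ Cz(Q)).comap f) := comm_eq_bot_left.1
    (commutator_commutator_eq_bot_of_rotate (comm_eq_bot_left.2 (b1.trans b6))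
      (comm_eq_bot_left.2 (commutator_comm D _ ▸ b1.trans b6)))
  have hAA : A ≤ (A.map f).comap f := le_comap_map f A
  obtain ⟨A', a1, a2, a3⟩ := exists_maxEA_quadratic (h.syl.pgrp.to_le hS1) ((commutator_le_self D).trans
    (d1.trans (hle _))) (hAΓ.trans (CfH7.le_normalizer_commutator d2 d2)) (elemAb_zero_iff.2
      (le_centralizer_iff_isMulCommutative.1 (b3.trans (b6.trans (Cz_anti (commutator_le_self D))))))
    (inf_le_right.trans (le_Cz_comm b7)) fun e => q3 ((map_le_iff_le_comap.2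
      ((hA.mono hAA hS1).le_TJ.trans e)).trans inf_le_right)
  have a4 : A'.map f ≤ A.map f := map_le_iff_le_comap.2 a1.le
  obtain ⟨_, ⟨a, ha, rfl⟩, hc⟩ : ∃ a ∈ A'.map f, A'.map f ≤ (Cz(Q) ⊓ A'.map f) ⊔ zpowers a := by
    by_contra hn
    push Not at hn
    exact q0 (eq_bot_iff.2 (CfH8.le_of_noncyclic_rel (comm_of_le a4 hAc) (a4.trans q2) (cop _ a4)
      le_rfl hn fun a ha e => (fpf a (a4 ha) e).le))
  have hc' : A' ≤ ((A.map f ⊓ Cz(Q)).comap f ⊓ A') ⊔ zpowers a := fun b hb => by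
    obtain ⟨c, hc1, _, ⟨k, rfl⟩, e⟩ := (mem_sup_of_le_Nm' (zpowers_le.2 (Cz_le_Nm _ (Cz_anti
      (inf_le_right.trans a4) (le_Cz_of_comm hAc (a4 ⟨a, ha, rfl⟩)))))).1 (hc ⟨b, hb, rfl⟩)
    rw [← inv_mul_cancel_right b (a ^ k)]
    refine mul_mem (mem_sup_left (mi (mem_comap.2 ?_) (mul_mem hb (inv_mem (zpow_mem ha k)))))
      (mem_sup_right ⟨k, rfl⟩)
    rw [map_mul, ← e, map_inv, map_zpow, mul_inv_cancel_right]
    exact mi (a4 hc1.2) hc1.1
  have a5 : a ∉ (A.map f ⊓ Cz(Q)).comap f := fun e =>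
    a2 (hc'.trans (sup_le inf_le_left (zpowers_le.2 e)))
  have aΓ := hAΓ (a1.le ha)
  have bp : ∀ x ∈ D, x ^ p ∈ D ⊓ Cz(R) := fun x hx => b2 (pow_mem_Phi dp hx)
  have deg : ∀ x ∈ D, (dl a)^[p - 1] x ∈ D ⊓ Cz(R) := fun x hx => dl_iter_le (b5 aΓ)
    (a1.dl_four (by omega) (h.syl.pgrp.to_le hS1) ha hc' (d1.trans (hle _))
      (a1.le.trans (hAΓ.trans d2)) inf_le_left (a1.le.trans (hAΓ.trans b5)) b6 b3 bp b1 a3 hx)
    (by omega)
  obtain ⟨W, _, ℓ, hl, hl'⟩ := exists_addOn_ker b3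
  have hF : ∀ y ∈ D, ∀ g ∈ (Q ⊔ A.map f).comap f,
      ℓ ((f g).out⁻¹ * y * (f g).out) = ℓ (g⁻¹ * y * g) := fun y hy g hg => by
    obtain ⟨n, e⟩ := QuotientGroup.mk_out_eq_mul (pCore p G) g
    have h1 := conj_mem_of_mem_normalizer' (d2 hg) hy
    have h2 := b1 (dl_mem_comm h1 (hle _ n.2))
    rw [show (f g).out = g * n from e, show (g * n)⁻¹ * y * (g * n) = g⁻¹ * y * g *
      dl (n : G) (g⁻¹ * y * g) by simp only [dl]; group, hl _ h1 _ h2.1, (hl' _ h2.1).2 h2, add_zero]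
  have hs : ∀ y ∈ D, ∀ g ∈ (Q ⊔ A.map f).comap f,
      ∑ j ∈ range p, ℓ (g * ((a ^ j)⁻¹ * y * a ^ j) * g⁻¹) = 0 := fun y hy g hg => by
    have c1 : ∀ w ∈ D, g * w * g⁻¹ ∈ D := fun w => conj_mem_of_mem_normalizer (d2 hg)
    refine AddOn.sum_conj (ℓ := fun w => ℓ (g * w * g⁻¹)) (fun v hv w hw => by
      simp only [← hl _ (c1 v hv) _ (c1 w hw)]; congr 1; group) (d2 aΓ) hy (fun i => ?_)
      ((hl' _ (c1 _ (deg y hy).1)).2 (conj_mem_of_mem_normalizer (b5 hg) (deg y hy)))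
    have := c1 _ (conj_mem_of_mem_normalizer' (pow_mem (d2 aΓ) i) hy)
    rw [← hl.pow this]
    exact (hl' _ (pow_mem this p)).2 (bp _ this)
  haveI := Fintype.ofFinite Q
  have key : ∀ y ∈ D, Nat.card Q • ℓ y = ∑ x : Q, ℓ ((x : G ⧸ pCore p G).out⁻¹ * y *
      (x : G ⧸ pCore p G).out) := fun y hy => by
    have := hall_higman (p := p) (F := fun x => ℓ (x.out⁻¹ * y * x.out)) (q2 (a4 ⟨a, ha, rfl⟩))
      (fun j j0 j1 => fpf _ (pow_mem (a4 ⟨a, ha, rfl⟩) j) fun e => j0.ne' (eq_zero_of_pow_mem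
        (h.syl.pgrp.to_le hS1) (a1.le ha) a5 j1 (mem_comap.2 (map_pow f a j ▸
          mi (pow_mem (a4 ⟨a, ha, rfl⟩) j) e)))) (fun x hx => ?_) fun x hx => ?_
    · rwa [← map_one f, hF y hy 1 (one_mem _), inv_one, one_mul, mul_one] at this
    all_goals
      obtain ⟨x, rfl⟩ := hf x
      have xΓ := hQΓ hx
      have yD := conj_mem_of_mem_normalizer' (d2 xΓ) hy
    · rw [← hs _ yD x xΓ]
      refine sum_congr rfl fun j _ => ?_
      rw [← map_pow, ← map_inv, ← map_mul, ← map_mul,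
        hF y hy _ (mul_mem (mul_mem xΓ (pow_mem aΓ j)) (inv_mem xΓ))]
      congr 1; group
    · rw [← hs _ yD 1 (one_mem _)]
      refine sum_congr rfl fun j _ => ?_
      rw [← map_pow, ← map_mul, hF y hy _ (mul_mem xΓ (pow_mem aΓ j))]
      congr 1; group
  refine d4 (le_trans (Subgroup.commutator_le.2 fun y hy g hg => ?_) (inf_le_right (a := D)))
  have gΓ := inv_mem (hQΓ (hRQ hg))
  have h1 := conj_mem_of_mem_normalizer' (d2 gΓ) (inv_mem hy)
  have h2 := mul_mem hy h1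
  rw [show ⁅y, g⁆ = y * (g⁻¹⁻¹ * y⁻¹ * g⁻¹) by simp [commutatorElement_def, mul_assoc],
    ← hl' _ h2]
  refine eq_zero_of_smul (p := p) (by rw [← hl.pow h2]; exact (hl' _ (pow_mem h2 p)).2 (bp _ h2))
    ?_ ((Nat.Prime.coprime_iff_not_dvd hp.out).1 qc.symm)
  rw [hl _ hy _ h1, smul_add, key _ h1, ← neg_neg (ℓ y), ← hl.inv hy, smul_neg, key _ (inv_mem hy),
    neg_add_eq_zero]
  refine (Fintype.sum_equiv (Equiv.mulLeft (⟨f g⁻¹, inv_mem (hRQ hg)⟩ : Q)) _ _ fun x => ?_).symm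
  obtain ⟨z, e⟩ := hf x
  have zΓ : z ∈ (Q ⊔ A.map f).comap f := hQΓ (mem_comap.2 (e ▸ x.2))
  rw [Equiv.coe_mulLeft, Subgroup.coe_mul, ← e, ← map_mul, hF _ h1 z zΓ, hF _ (inv_mem hy) _ (mul_mem gΓ zΓ)]
  congr 1; group

theorem fnc_TJ : Fnc.{u} p (TJ 0) :=
  ⟨TJ_le, map_TJ_of_injective, TJ_ne_bot (dvd_zero p)⟩

theorem NpcMin.TJ_normal (h : NpcMin p S) (h5 : 5 ≤ p) : (TJ 0 S).Normal := by
  rw [← TJ_eq_of_le (h.TJ_le h5)
    (h.syl.le_of_le_Nm (isPGroup_pCore p G) le_top le_normalizer_of_normal)]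
  exact normal_iff_top_le_Nm.2 (le_normalizer_of_normal.trans (Nm_le_Nm_TJ _))

variable (p) in
/-- the largest subgroup that is normal in all minimal configurations -/
def K0 (B : Type u) [Group B] : Subgroup B := sSup {K | ∀ (G : Type u) [Group G] [Finite G]
  (τ : B →* G), Function.Injective τ → NpcMin p τ.range → (K.map τ).Normal}

omit hp in
theorem K0_normal {B G : Type u} [Group B] [Group G] [Finite G] {τ : B →* G}
    (h1 : Function.Injective τ) (h2 : NpcMin p τ.range) : ((K0 p B).map τ).Normal := by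
  rw [K0, sSup_eq_iSup', Subgroup.map_iSup]
  haveI := fun K : {K : Subgroup B | ∀ (G : Type u) [Group G] [Finite G] (τ : B →* G),
    Function.Injective τ → NpcMin p τ.range → (K.map τ).Normal} => K.2 G τ h1 h2
  infer_instance

omit hp in
theorem K0_map {B B' : Type u} [Group B] [Group B'] (e : B ≃* B') :
    (K0 p B).map (e : B →* B') = K0 p B' := by
  have key : ∀ {B B' : Type u} [Group B] [Group B'] (e : B ≃* B'),
      (K0 p B).map (e : B →* B') ≤ K0 p B' := fun e => le_sSup fun G _ _ τ h1 h2 => by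
    rw [Subgroup.map_map]
    exact K0_normal (h1.comp e.injective) (by
      rwa [MonoidHom.range_comp, MonoidHom.range_eq_top.2 e.surjective, ← MonoidHom.range_eq_map])
  refine le_antisymm (key e) fun x hx => ⟨_, key e.symm ⟨x, hx, rfl⟩, by simp⟩

theorem Cz_K0_le (h2 : p ≠ 2) {B : Type u} [Group B] [Finite B] (hB : IsPGroup p B) :
    Cz(K0 p B) ≤ K0 p B := by
  haveI : (K0 p B).Normal := ⟨fun x hx g => (K0_map (MulAut.conj g)).le ⟨x, hx, rfl⟩⟩
  have h1 : (ZJ 0 ((K0 p B ⊔ Cz(K0 p B)).map (QuotientGroup.mk' (K0 p B)))).comap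
      (QuotientGroup.mk' (K0 p B)) ≤ K0 p B := le_sSup fun G _ _ τ t1 t2 => by
    haveI := K0_normal t1 t2
    generalize K0 p B = K at *
    have hπ := QuotientGroup.mk'_surjective (K.map τ)
    have hk := QuotientGroup.ker_mk' (K.map τ)
    have e1 : (QuotientGroup.map K (K.map τ) τ (le_comap_map τ K)).comp (QuotientGroup.mk' K) =
      (QuotientGroup.mk' (K.map τ)).comp τ := rfl
    have e2 : Function.Injective (QuotientGroup.map K (K.map τ) τ (le_comap_map τ K)) :=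
      (injective_iff_map_eq_one _).2 fun x hx => by
        obtain ⟨x, rfl⟩ := QuotientGroup.mk_surjective x
        exact (QuotientGroup.eq_one_iff _).2 ((mem_map_iff_mem t1).1 ((QuotientGroup.eq_one_iff _).1 hx))
    set π := QuotientGroup.mk' (K.map τ)
    have hS : SylIn p ((K ⊔ Cz(K)).map τ) (K.map τ ⊔ Cz(K.map τ)) := by
      convert t2.syl.inf_normal' (top_le_Nm _) (le_top (a := K.map τ ⊔ Cz(K.map τ))) using 1
      rw [inf_comm, inf_sup_dedekind (.inr (Cz_le_Nm _)) (map_le_range τ K), Subgroup.map_sup]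
      refine congrArg _ (le_antisymm (le_inf (map_Cz_le K τ) (map_le_range τ _)) ?_)
      rintro _ ⟨hx, x, rfl⟩
      exact ⟨x, fun y hy => t1 (by rw [map_mul, map_mul, hx _ ⟨y, hy, rfl⟩]), rfl⟩
    have hS' := hS.map π
    have hH : ((K.map τ ⊔ Cz(K.map τ)).map π).Normal := Subgroup.Normal.map inferInstance π hπ
    have hc : ChP p ((K.map τ ⊔ Cz(K.map τ)).map π) := by
      rw [chP_iff]
      have hO : (pCoreOf p ((K.map τ ⊔ Cz(K.map τ)).map π)).Normal := normal_iff_top_le_Nm.2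
        (le_normalizer_of_normal.trans (normalizer_le_normalizer_pCoreOf _))
      by_cases e : τ.range ⊔ ((K.map τ ⊔ Cz(K.map τ)).map π ⊓
        Cz(pCoreOf p ((K.map τ ⊔ Cz(K.map τ)).map π))).comap π = ⊤
      swap
      · refine CfH7.le_pCoreOf inf_le_left le_normalizer_of_normal ?_
        rw [← map_comap_eq_self_of_surjective hπ (_ ⊓ _)]
        exact ((isPGroup_pCore p G).to_le (t2.le_of_normal e)).map π
      have e3 := pResidual_le_of_sup_eq_top t2.syl.pgrp (sup_comm τ.range _ ▸ e)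
      have e4 : pResidual p G ≤ K.map τ ⊔ Cz(K.map τ) := by
        have := e3.trans (comap_mono inf_le_left)
        rwa [comap_map_eq, hk, sup_eq_left.2 le_sup_left] at this
      have e5 : pResidual p G ≤ Cz(K.map τ) := pResidualOf_pResidual (p := p) (G := G) ▸
        pResidualOf_le_of_le_sup (t2.syl.pgrp.to_le (map_le_range τ K)) le_normalizer_of_normal
          (e4.trans (sup_comm _ _).le)
      have e6 : ⁅pCore p G ⊓ (K.map τ ⊔ Cz(K.map τ)), pResidual p G⁆ ≤ K.map τ := by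
        rw [← hk, ← Subgroup.map_eq_bot_iff, map_commutator, hk]
        exact comm_eq_bot_right.2 ((map_le_iff_le_comap.2 e3).trans (inf_le_right.trans (Cz_anti
          (CfH7.le_pCoreOf (map_mono inf_le_right) ((map_mono le_normalizer_of_normal).trans
            (le_normalizer_map _)) (((isPGroup_pCore p G).to_le inf_le_left).map π)))))
      have e7 := pResidualOf_le_Cz_of_le ((isPGroup_pCore p G).to_le inf_le_left)
        le_normalizer_of_normal e6 e5
      rw [pResidualOf_pResidual] at e7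
      have e8 := pResidualOf_le_Cz_of_le (isPGroup_pCore p G) le_normalizer_of_normal
        (le_inf (commutator_le_left _ _) ((commutator_le_right _ _).trans e4)) e7
      rw [pResidualOf_pResidual] at e8
      exact (t2.not_le_Cz e8).elim
    have hZ : (ZJ 0 (((K ⊔ Cz(K)).map τ).map π)).Normal := normal_iff_top_le_Nm.2
      ((hS'.frattini_sup le_normalizer_of_normal le_top).ge.trans (sup_le (zj_normal h2 hS'
        (sc_self _ _) (nStab_of_not_involves' h2 (fun e => t2.not_involves h2 (Involves.of_quotient e)) _) hc)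
        (inf_le_right.trans (Nm_le_Nm_ZJ _))))
    convert hZ.comap π
    rw [Subgroup.map_map, ← e1, ← Subgroup.map_map, ← map_ZJ_of_injective e2]
    generalize ZJ 0 ((K ⊔ Cz(K)).map (QuotientGroup.mk' K)) = Z
    rw [← map_comap_eq_self_of_surjective (QuotientGroup.mk'_surjective K) Z, Subgroup.map_map, e1,
      ← Subgroup.map_map, comap_map_eq, comap_map_eq, hk, QuotientGroup.ker_mk', Subgroup.map_sup]
  by_contra h0
  refine ZJ_ne_bot (dvd_zero p) ((hB.to_subgroup _).map _) (fun e => h0 ?_) (by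
    rw [← map_comap_eq_self_of_surjective (QuotientGroup.mk'_surjective (K0 p B)) (ZJ 0 _),
      Subgroup.map_eq_bot_iff, QuotientGroup.ker_mk']
    exact h1)
  rw [Subgroup.map_eq_bot_iff, QuotientGroup.ker_mk'] at e
  exact le_sup_right.trans e

variable (p) in
/-- the functor attached to `K0` -/
def KW {G : Type u} [Group G] (X : Subgroup G) : Subgroup G := (K0 p X).map X.subtype

omit hp in
theorem KW_eq {B G : Type u} [Group B] [Group G] {τ : B →* G} (h : Function.Injective τ) :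
    KW p τ.range = (K0 p B).map τ := by
  rw [KW, ← K0_map (MonoidHom.ofInjective h), Subgroup.map_map]; rfl

theorem inf_Cz_KW (h2 : p ≠ 2) {G : Type u} [Group G] [Finite G] {S : Subgroup G}
    (hS : IsPGroup p S) : S ⊓ Cz(KW p S) ≤ KW p S := fun x hx =>
  ⟨⟨x, hx.1⟩, Cz_K0_le h2 hS fun y hy => Subtype.ext (hx.2 _ ⟨y, hy, rfl⟩), rfl⟩

theorem fnc_KW (h2 : p ≠ 2) : Fnc.{u} p (KW p) :=
  ⟨fun _ => map_subtype_le _, fun {_ _ _ _ f} hf X => by
    rw [KW, Subgroup.map_map, ← KW_eq (τ := f.comp X.subtype) (hf.comp X.subtype_injective), MonoidHom.range_comp,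
      range_subtype],
  fun hX h0 e => h0 (eq_bot_iff.2 ((le_inf le_rfl (by
    rw [e]; exact fun x _ y hy => by rw [mem_bot.1 hy, one_mul, mul_one])).trans
      ((inf_Cz_KW h2 hX).trans e.le)))⟩

omit hp in
theorem NpcMin.KW_normal {G : Type u} [Group G] [Finite G] {S : Subgroup G} (h : NpcMin p S) :
    (KW p S).Normal := K0_normal S.subtype_injective (by rwa [range_subtype])

end CfH9
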