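import Cfsg.Agent.H9.NpcF
import Cfsg.Agent.H9.Focal
import Cfsg.Agent.H1.Critical

/-! Control of transfer by one characteristic subgroup for `p ≥ 7`: a Hall–Wielandt lemma for a
normal section and a Puig-type functor built from subgroups of class at most two. -/

set_option autoImplicit false
set_option linter.unusedSectionVars false

namespace CfH9

open Subgroup Cfsg CfH7 CfH1 Finset
open scoped commutatorElement

universe u

section

variable {G G' : Type*} [Group G] [Group G'] {p : ℕ} {A B E Q S X Y : Subgroup G}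

/-- generated by the elements of `S` of degree less than `p` on the section `A/B` -/
def LowD (p : ℕ) (S A B : Subgroup G) : Subgroup G :=
  closure {g | g ∈ S ∧ ∀ y ∈ A, (dl g)^[p - 1] y ∈ B}

theorem LowD_le : LowD p S A B ≤ S := (closure_le _).2 fun _ h => h.1

theorem LowD_weak [Finite G] [hA : A.Normal] [hB : B.Normal] {g : G}
    (h : cj g (LowD p S A B) ≤ S) : g ∈ Nm(LowD p S A B) := by
  refine mem_normalizer_of_cj_le (map_le_iff_le_comap.2 ((closure_le _).2 fun z hz =>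
    subset_closure ⟨h (conj_mem_cj g (subset_closure hz)), fun y hy => ?_⟩))
  have := hB.conj_mem _ (hz.2 _ (hA.conj_mem' y hy g)) g
  have e := map_dl_iter (MulAut.conj g).toMonoidHom z (g⁻¹ * y * g) (p - 1)
  simp only [MulEquiv.coe_toMonoidHom, MulAut.conj_apply] at e
  rw [e] at this
  simpa [mul_assoc] using this

variable [Finite G] [hp : Fact p.Prime]

/-- the Hall–Wielandt argument for a normal section -/
theorem hw_local [hA : A.Normal] [hB : B.Normal] (hS : SylIn p S ⊤) (hAS : A ≤ S)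
    (hA' : A ≤ ⁅(⊤ : Subgroup G), ⊤⁆) (hBA : B ≤ A) (hpw : ∀ y ∈ A, y ^ p ∈ B) :
    A ≤ ⁅Nm(LowD p S A B), Nm(LowD p S A B)⁆ ⊔ B := by
  classical
  set W := LowD p S A B with hW
  set N := Nm(W) with hN
  have := Fintype.ofFinite (G ⧸ N)
  have hSN : S ≤ N := fun s hs => LowD_weak ((cj_mono s LowD_le).trans (cj_eq_of_mem hs).le)
  have hS' : SylIn p S N := hS.mono hSN le_top
  obtain ⟨V, _, ℓ, hℓ, hk⟩ := exists_addOn_ker (D := N) (B := ⁅N, N⁆ ⊔ B) le_sup_left
  have hc := hℓ.cocyc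
  have hfA : ∀ y ∈ A, ∀ x : G ⧸ N, y • x = x := fun y hy x => by
    rw [← x.out_eq', MulAction.Quotient.smul_mk, QuotientGroup.eq]
    simpa [mul_assoc] using hSN (hAS (hA.conj_mem' _ (A.inv_mem hy) x.out))
  set x₀ : G ⧸ N := QuotientGroup.mk 1 with hx₀
  have hout : ∀ x : G ⧸ N, x = x₀ ↔ x.out ∈ N := fun x => by
    rw [← inv_mem_iff, ← mul_one x.out⁻¹, ← QuotientGroup.eq, QuotientGroup.out_eq']
  have hfix : ∀ g ∈ N, g • x₀ = x₀ := fun g hg => by
    rw [hx₀, MulAction.Quotient.smul_mk, QuotientGroup.eq]; simpa using hg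
  have hWfix : ∀ x : G ⧸ N, (∀ w ∈ W, w • x = x) → x = x₀ := by
    intro x hx
    have h1 : cj x.out⁻¹ W ≤ N := cj_le_iff_forall.2 fun w hw => by
      rw [inv_inv]; exact mem_of_fixed (hx w hw)
    obtain ⟨n, hn, h2⟩ := hS'.exists_cj_le (isPGroup_cj (hS.2.to_le LowD_le) _) h1
    rw [← cj_mul] at h2
    have h3 : n * x.out⁻¹ ∈ N := LowD_weak h2
    rwa [N.mul_mem_cancel_left hn, inv_mem_iff, ← hout] at h3
  intro y hy
  have hTS : W ⊔ A ≤ S := sup_le LowD_le hAS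
  have hT := hS.2.to_le hTS
  have h1 : ∑ x, trc N ℓ y x = 0 := addOn_eq_zero_of_mem_commutator
    (hc.addOn fun _ _ _ _ => mem_univ _) (hA' hy)
  rw [← add_sum_erase _ _ (mem_univ x₀), sum_eq_zero_of_orb (H := W ⊔ A) (fun g hg x hx =>
    mem_erase.2 ⟨fun e => (mem_erase.1 hx).1 (MulAction.injective g (e.trans
      (hfix g (hSN (hTS hg))).symm)), mem_univ _⟩) fun x hx => ?_, add_zero,
    trc_of_fixed ℓ (hfA y hy _)] at h1
  · have h2 := hℓ.conj (N.inv_mem ((hout x₀).1 rfl)) (hSN (hAS hy))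
    rw [inv_inv, h1] at h2
    exact (hk y (hSN (hAS hy))).1 h2.symm
  obtain ⟨U, -, h3, h4, h5⟩ := exists_stab_le (x := x) hT bot_le fun e => (mem_erase.1 hx).1
    (hWfix x fun w hw => by
      rw [bot_sup_eq] at e
      exact (mi2 (e ▸ (mem_sup_left hw : w ∈ W ⊔ A)) :))
  have hAU : A ≤ U := fun a ha => h5 a (mem_sup_right ha) (hfA a ha x)
  obtain ⟨z, hz, hzU⟩ : ∃ z, (z ∈ S ∧ ∀ y ∈ A, (dl z)^[p - 1] y ∈ B) ∧ z ∉ U := by
    by_contra hn
    push Not at hn
    exact not_le_of_relIndex_prime h4 (sup_le ((closure_le _).2 fun z hz => hn z hz) hAU)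
  rw [hc.sum_orb_of_mem hT h3 h4 (mem_sup_left (subset_closure hz)) hzU h5 (hAU hy)]
  have h6 := (hc.addOn fun g (hg : g ∈ U) => invBy_orb hg x).mono hAU
  have h7 : ∀ b ∈ B, ∑ a ∈ orb U x, trc N ℓ b a = 0 := fun b hb => sum_eq_zero fun a _ => by
    rw [trc_of_fixed ℓ (hfA b (hBA hb) a)]
    have := hB.conj_mem' b hb a.out
    exact (hk _ (hSN (hAS (hBA this)))).2 (mem_sup_right this)
  refine h6.sum_conj (le_normalizer_of_normal (mem_top z)) hy (fun i => ?_) (h7 _ (hz.2 y hy))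
  have := hA.conj_mem' y hy (z ^ i)
  rw [← h6.pow this]
  exact h7 _ (hpw _ this)

end

/-- control of transfer from elements of low degree on the chief factors -/
theorem Fnc.focal {p : ℕ} [hp : Fact p.Prime]
    {W : ∀ {G : Type u} [Group G], Subgroup G → Subgroup G} (h : Fnc p W)
    (hl : ∀ (G : Type u) [Group G] [Finite G] (S A B : Subgroup G), SylIn p S ⊤ →
      Nm(W S) ≠ ⊤ → A.Normal → B.Normal → A ≤ pCore p G → (∀ K, K.Normal → K < A → K ≤ B) →
      ∃ g ∈ S, g ∉ pCore p G ∧ ∀ y ∈ A, (dl g)^[p - 1] y ∈ B)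
    (G : Type u) [Group G] [Finite G] :
    ∀ S : Subgroup G, SylIn p S ⊤ → S ⊓ ⁅(⊤ : Subgroup G), ⊤⁆ ≤ ⁅Nm(W S), Nm(W S)⁆ := by
  refine group_induction (P := fun G _ _ => ∀ S : Subgroup G, SylIn p S ⊤ →
    S ⊓ ⁅(⊤ : Subgroup G), ⊤⁆ ≤ ⁅Nm(W S), Nm(W S)⁆) (fun G _ _ ih S hS => ?_) G
  have hsub : ∀ H S : Subgroup G, H ≠ ⊤ → SylIn p S H → S ⊓ ⁅H, H⁆ ≤ ⁅Nm(W S), Nm(W S)⁆ := by
    intro H S hH hS
    have := map_mono (f := H.subtype) (ih H (card_lt_of_ne_top hH) _ hS.subgroupOf_top)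
    rw [map_inf_comm hS.subgroupOf_top, map_subgroupOf_eq_of_le hS.le, map_subtype_top,
      map_commutator] at this
    have e := le_normalizer_map (H := W (S.subgroupOf H)) H.subtype
    rw [h.map H.subtype_injective, map_subgroupOf_eq_of_le hS.le] at e
    exact this.trans (commutator_mono e e)
  have hSN : S ≤ Nm(W S) := le_normalizer.trans (h.nm S)
  set D := S ⊓ ⁅Nm(W S), Nm(W S)⁆ with hD
  have hsub' : ∀ H : Subgroup G, H ≠ ⊤ → S ≤ H → S ⊓ ⁅H, H⁆ ≤ D := fun H h1 h2 =>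
    le_inf inf_le_left (hsub H S h1 (hS.mono h2 le_top))
  by_cases hN : Nm(W S) = ⊤
  · rw [hN]; exact inf_le_right
  refine le_trans ?_ (inf_le_right : D ≤ _)
  by_cases hQ : pCore p G = ⊥
  · refine focal_of_local hS (le_inf (commutator_le_self _) (commutator_mono hSN hSN))
      fun U hU h0 hf IH => ?_
    have hne : Nm(U) ≠ ⊤ := fun e => h0 (eq_bot_of_normal_of_pCore_eq_bot hQ
      (normal_iff_top_le_Nm.2 e.ge) (hS.pgrp.to_le hU))
    by_cases hT : S ≤ Nm(U)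
    · rw [inf_eq_left.2 hT]; exact hsub' _ hne hT
    have h2 := (lt_inf_Nm hS.pgrp (lt_of_le_of_ne inf_le_left fun e =>
      hT (inf_eq_left.1 e))).trans_le (inf_le_inf_left S (h.nm _))
    exact (le_inf (inf_le_left.trans h2.le) (hsub _ _ hne hf)).trans (IH _ ((h.le _).trans
      inf_le_left) (h.ne hf.pgrp (ne_bot_of_le (le_inf hU le_normalizer) h0)) h2)
  set Q := pCore p G with hQd
  have hQS : Q ≤ S := hS.le_of_le_Nm (isPGroup_pCore _ _) le_top le_normalizer_of_normal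
  have h1 : Q ⊓ ⁅(⊤ : Subgroup G), ⊤⁆ ≤ D := by
    by_contra hn
    obtain ⟨A, ⟨a1, a2, a3⟩, hm⟩ := exists_min_card (fun A : Subgroup G => A.Normal ∧
      A ≤ Q ⊓ ⁅(⊤ : Subgroup G), ⊤⁆ ∧ ¬ A ≤ D) ⟨_, inferInstance, le_rfl, hn⟩
    have b1 : ∀ K : Subgroup G, K.Normal → K < A → K ≤ (A ⊓ D).normalCore := fun K k1 k2 =>
      normal_le_normalCore.2 (le_inf k2.le (by
        by_contra k3
        exact (card_lt_of_lt k2).not_ge (hm K ⟨k1, k2.le.trans a2, k3⟩)))
    have b2 := normalCore_le (A ⊓ D)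
    obtain ⟨g, g1, g2, g3⟩ := hl G S A _ hS hN a1 inferInstance (a2.trans inf_le_left) b1
    have hAS := a2.trans (inf_le_left.trans hQS)
    have b3 := hw_local hS hAS (a2.trans inf_le_right) (b2.trans inf_le_left) fun y hy => b1 _
      (normal_iff_top_le_Nm.2 (le_normalizer_of_normal.trans (Nm_le_Nm_Phi A)))
      (Phi_lt fun e => a3 (e ▸ bot_le)) (pow_mem_Phi (hS.pgrp.to_le hAS) hy)
    have b4 := hsub' Nm(LowD p S A (A ⊓ D).normalCore) (fun e => g2 (CfH7.le_pCore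
      (normal_iff_top_le_Nm.2 e.ge) (hS.pgrp.to_le LowD_le) (subset_closure ⟨g1, g3⟩)))
      fun s hs => LowD_weak ((cj_mono s LowD_le).trans (cj_eq_of_mem hs).le)
    refine a3 fun y hy => ?_
    obtain ⟨m, hm, b, hb, rfl⟩ := (mem_sup_of_normal_right.1 (b3 hy) :)
    exact mul_mem (b4 (mi ((S.mul_mem_cancel_right (hAS (b2 hb).1)).1 (hAS hy)) hm)) (b2 hb).2
  have hf := QuotientGroup.mk'_surjective Q
  set f := QuotientGroup.mk' Q
  have hS' := hS.map_surj hf
  have h0 : S.map f ≠ ⊥ := fun e => hN (top_unique (by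
    rw [Subgroup.map_eq_bot_iff, QuotientGroup.ker_mk'] at e
    rw [le_antisymm e hQS]; exact (top_le_Nm Q).trans (h.nm _)))
  have hQ' : pCore p (G ⧸ Q) = ⊥ := by
    rw [← map_pCore_of_ker_isPGroup hf (by rw [QuotientGroup.ker_mk']; exact isPGroup_pCore _ _),
      Subgroup.map_eq_bot_iff, QuotientGroup.ker_mk']
  have x4 := map_le_iff_le_comap.1 (le_normalizer.trans (h.nm (S.map f)))
  have h3 := le_inf inf_le_left (ih _ (card_quot_lt hQ) _ hS')
  rw [← map_top_of_surjective _ hf, ← map_inf_comm hS, ← map_comap_eq_self_of_surjective hf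
    Nm(W (S.map f)), ← map_inf_comm (hS.mono x4 le_top)] at h3
  refine (le_sup_inf_ker_of_map_le le_rfl (inf_le_inf_left _ (commutator_mono le_top le_top))
    h3).trans (sup_le (hsub' _ (fun e => h.ne hS'.pgrp h0 (eq_bot_of_normal_of_pCore_eq_bot hQ'
      (normal_iff_top_le_Nm.2 ?_) (hS'.pgrp.to_le (h.le _)))) x4) ?_)
  · rw [← map_comap_eq_self_of_surjective hf Nm(W (S.map f)), e, map_top_of_surjective _ hf]
  · rw [QuotientGroup.ker_mk']
    exact (le_inf inf_le_right (inf_le_left.trans inf_le_right)).trans h1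

/-- a group whose Sylow normalizer induces a `p`-group of automorphisms has a `p`-quotient -/
theorem Fnc.not_le_comm {p : ℕ} [hp : Fact p.Prime]
    {W : ∀ {G : Type u} [Group G], Subgroup G → Subgroup G} (h : Fnc p W)
    (hl : ∀ (G : Type u) [Group G] [Finite G] (S : Subgroup G), SylIn p S ⊤ →
      S ⊓ ⁅(⊤ : Subgroup G), ⊤⁆ ≤ ⁅Nm(W S), Nm(W S)⁆) (G : Type u) [Group G] [Finite G] :
    ∀ S : Subgroup G, SylIn p S ⊤ → S ≠ ⊥ → Nm(S) ≤ S ⊔ Cz(S) → ¬ S ≤ ⁅(⊤ : Subgroup G), ⊤⁆ := by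
  refine group_induction (P := fun G _ _ => ∀ S : Subgroup G, SylIn p S ⊤ → S ≠ ⊥ →
    Nm(S) ≤ S ⊔ Cz(S) → ¬ S ≤ ⁅(⊤ : Subgroup G), ⊤⁆) (fun G _ _ ih S hS h0 hN hc => ?_) G
  have hSN : S ≤ Nm(W S) := le_normalizer.trans (h.nm S)
  by_cases hW : Nm(W S) = ⊤
  swap
  · set H := Nm(W S)
    have e := map_subgroupOf_eq_of_le hSN
    refine ih H (card_lt_of_ne_top hW) _ (hS.mono hSN le_top).subgroupOf_top
      (fun e' => h0 (by rw [← e, e', Subgroup.map_bot])) (fun g hg => ?_) ?_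
    · rw [← subgroupOf_normalizer_eq hSN] at hg
      obtain ⟨s, hs, c, hc, e'⟩ := (mem_sup_of_le_Nm' (Cz_le_Nm S)).1 (hN hg)
      have hcH : c ∈ H := (H.mul_mem_cancel_left (hSN hs)).1 (e' ▸ g.2)
      rw [show g = ⟨s, hSN hs⟩ * ⟨c, hcH⟩ from Subtype.ext e'.symm]
      exact mul_mem (mem_sup_left hs) (mem_sup_right fun y hy => Subtype.ext (hc _ hy))
    · rw [← map_subtype_le_map_subtype, e, map_commutator, map_subtype_top]
      exact (le_inf le_rfl hc).trans (hl G S hS)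
  haveI := normal_iff_top_le_Nm.2 hW.ge
  have hf := QuotientGroup.mk'_surjective (W S)
  by_cases h1 : S ≤ W S
  · haveI : S.Normal := le_antisymm (h.le S) h1 ▸ this
    refine (commutator_lt_of_isPGroup hS.pgrp hS.pgrp le_normalizer h0).not_ge
      ((le_inf le_rfl hc).trans ((inf_comm_le hS le_rfl).trans (sup_le le_rfl
        (Subgroup.commutator_le.2 fun s hs g _ => ?_))))
    obtain ⟨t, ht, c, hc, rfl⟩ := (mem_sup_of_le_Nm' (Cz_le_Nm S)).1
      (hN (le_normalizer_of_normal (mem_top g)))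
    have := commutator_mem_commutator hs ht
    rwa [show ⁅s, t * c⁆ = ⁅s, t⁆ by
      simp only [commutatorElement_def, mul_inv_rev, mul_assoc]
      rw [← mul_assoc c, ← hc _ (S.inv_mem hs), mul_assoc, mul_inv_cancel_left]]
  refine ih _ (card_quot_lt (h.ne hS.pgrp h0)) _ (hS.map_surj hf) (by
    rwa [Ne, Subgroup.map_eq_bot_iff, QuotientGroup.ker_mk']) (fun g hg => ?_) (by
      rw [← map_top_of_surjective _ hf, ← map_commutator]; exact map_mono hc)
  obtain ⟨g, rfl⟩ := hf g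
  have := mem_map_of_mem (QuotientGroup.mk' (W S)) (hN (show g ∈ Nm(S) by
    have := comap_normalizer_eq_of_surjective (S.map (QuotientGroup.mk' (W S))) hf
    rw [comap_map_eq, QuotientGroup.ker_mk', sup_eq_left.2 (h.le S)] at this
    exact this.le hg))
  rw [Subgroup.map_sup] at this
  exact sup_le_sup_left (map_Cz_le S _) _ this

section

variable {G G' : Type*} [Group G] [Group G'] {p : ℕ} {A B E Q S X Y : Subgroup G}

/-- generated by the subgroups of `S` of class at most two that `X` normalizes -/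
def Lam (S X : Subgroup G) : Subgroup G := sSup {E | E ≤ S ∧ ⁅E, E⁆ ≤ Cz(E) ∧ X ≤ Nm(E)}

theorem Lam_le : Lam S X ≤ S := sSup_le fun _ h => h.1

theorem le_Lam (h1 : E ≤ S) (h2 : ⁅E, E⁆ ≤ Cz(E)) (h3 : X ≤ Nm(E)) : E ≤ Lam S X :=
  le_sSup ⟨h1, h2, h3⟩

theorem Lam_mono (h1 : Q ≤ S) (h2 : X ≤ Y) : Lam Q Y ≤ Lam S X :=
  sSup_le fun _ h => le_Lam (h.1.trans h1) h.2.1 (h2.trans h.2.2)

theorem Lam_eq (h1 : Lam S X ≤ Q) (h2 : Q ≤ S) : Lam Q X = Lam S X :=
  le_antisymm (Lam_mono h2 le_rfl) (sSup_le fun _ h =>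
    le_Lam ((le_Lam h.1 h.2.1 h.2.2).trans h1) h.2.1 h.2.2)

theorem map_Lam {f : G →* G'} (hf : Function.Injective f) :
    (Lam S X).map f = Lam (S.map f) (X.map f) := by
  refine le_antisymm (map_le_iff_le_comap.2 (sSup_le fun E h => map_le_iff_le_comap.1 (le_Lam
    (map_mono h.1) (map_commutator E E f ▸ (map_mono h.2.1).trans (map_Cz_le E f))
    ((map_mono h.2.2).trans (le_normalizer_map f))))) (sSup_le fun E h => ?_)
  have e : (E.comap f).map f = E := map_comap_eq_self (h.1.trans (map_le_range f S))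
  rw [← e]
  refine map_mono (le_Lam ((comap_mono h.1).trans (comap_map_eq_self_of_injective hf S).le)
    (fun x hx y hy => hf ?_) ((map_le_iff_le_comap.1 h.2.2).trans (le_normalizer_comap f)))
  rw [map_mul, map_mul]
  exact h.2.1 (by rw [← e, ← map_commutator]; exact mem_map_of_mem f hx) _ hy

/-- the lower Puig subgroup -/
def Lst (S : Subgroup G) : Subgroup G := sInf {X | Lam S (Lam S X) ≤ X}

/-- the upper Puig subgroup -/
def PL (S : Subgroup G) : Subgroup G := Lam S (Lst S)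

theorem Lst_le (h : Lam S (Lam S X) ≤ X) : Lst S ≤ X := sInf_le h

theorem Lam_PL : Lam S (PL S) = Lst S := by
  have h : Lam S (PL S) ≤ Lst S := le_sInf fun X hX =>
    (Lam_mono le_rfl (Lam_mono le_rfl (Lst_le hX))).trans hX
  exact le_antisymm h (Lst_le (Lam_mono le_rfl (Lam_mono le_rfl h)))

theorem PL_eq (h1 : PL S ≤ Q) (h2 : Q ≤ S) : PL Q = PL S := by
  have h3 : Lst S ≤ PL S := Lst_le (by rw [Lam_PL]; exact le_rfl)
  have h4 : Lam Q (Lst S) = PL S := Lam_eq h1 h2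
  have h5 : Lam Q (PL S) = Lst S := (Lam_eq (Lam_PL.le.trans (h3.trans h1)) h2).trans Lam_PL
  have h6 : Lst S ≤ Lst S ⊓ Lst Q := Lst_le (by
    have e := (Lam_mono (X := PL S) le_rfl (Lam_mono (le_refl S) (inf_le_left (b := Lst Q)))).trans
      Lam_PL.le
    refine le_inf e ?_
    rw [← Lam_eq (e.trans (h3.trans h1)) h2]
    exact (Lam_mono (X := PL Q) le_rfl (Lam_mono h2 inf_le_right)).trans Lam_PL.le)
  rw [PL, le_antisymm (Lst_le (by rw [h4, h5])) (h6.trans inf_le_right), h4]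

theorem map_PL {f : G →* G'} (hf : Function.Injective f) (S : Subgroup G) :
    (PL S).map f = PL (S.map f) := by
  have e : ((Lst (S.map f)).comap f).map f = Lst (S.map f) :=
    map_comap_eq_self (Lam_PL.ge.trans (Lam_le.trans (map_le_range f S)))
  rw [PL, PL, map_Lam hf, le_antisymm (map_le_iff_le_comap.2 (Lst_le (map_le_iff_le_comap.1 (by
    rw [map_Lam hf, map_Lam hf, e]; exact Lam_PL.le)))) (Lst_le (by
      rw [← map_Lam hf, ← map_Lam hf]; exact map_mono Lam_PL.le))]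

variable [hp : Fact p.Prime]

theorem fnc_PL : Fnc.{u} p PL :=
  ⟨fun _ => Lam_le, map_PL, fun {_ _ _ X} hX h0 => ne_bot_of_le (le_Lam inf_le_left
    ((commutator_le_self _).trans (inf_le_right.trans (Cz_anti inf_le_left)))
    (Lam_PL.ge.trans (Lam_le.trans (le_normalizer.trans (CfLp.Nm_le_Nm_Zc X)))))
    (inf_Cz_ne_bot hX hX le_normalizer h0)⟩

variable [Finite G]

/-- degree three on a critical subgroup gives degree five on every chief factor -/
theorem Crit.dl_five {C : Subgroup G} [Q.Normal] [A.Normal] [B.Normal] (hQ : IsPGroup p Q)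
    (h : Crit p Q C) (hA : A ≤ Q) (hB : ∀ K, K.Normal → K < A → K ≤ B) {g : G}
    (hg : ∀ x ∈ C, (dl g)^[3] x = 1) {y : G} (hy : y ∈ A) : (dl g)^[5] y ∈ B := by
  haveI : C.Normal := normal_iff_top_le_Nm.2 ((top_le_Nm Q).trans h.Nm_le)
  by_cases hC : C ≤ Cz(A)
  · rw [dl_iter_one (hg y (h.Cz_le (mi (hA hy) (le_Cz_comm hC hy)))) (by omega)]
    exact one_mem B
  obtain ⟨K, ⟨k1, k2, k3⟩, hm⟩ := exists_min_card (fun K : Subgroup G => K.Normal ∧ K ≤ C ∧
    ¬ K ≤ Cz(A)) ⟨C, inferInstance, le_rfl, hC⟩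
  have h1 := commutator_lt_of_isPGroup (hQ.to_le (k2.trans h.le)) hQ le_normalizer_of_normal
    fun e => k3 (e ▸ bot_le)
  have h2 := (commutator_mono k2 hA).trans h.comm_le
  refine hB (A ⊓ Cz(K)) inferInstance (lt_of_le_of_ne inf_le_left fun e => k3 (le_Cz_comm
    (e.ge.trans inf_le_right))) (mi (dl_iter_mem (top_le_Nm A trivial) hy 5) (CfH9.dl_five
      (top_le_Nm K trivial) (top_le_Nm A trivial) (h2.trans (inf_le_right.trans (Cz_anti k2)))
      ((commutator_mono le_rfl hA).trans ?_) (fun x hx => hg x (k2 hx))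
      (fun x hx => hg x (h2 hx).1) hy))
  by_contra hn
  exact (card_lt_of_lt h1).not_ge (hm _ ⟨inferInstance, h1.le.trans k2, hn⟩)

theorem PL_low (h7 : 7 ≤ p) (hS : SylIn p S ⊤) (hN : Nm(PL S) ≠ ⊤) [A.Normal] [B.Normal]
    (hA : A ≤ pCore p G) (hB : ∀ K, K.Normal → K < A → K ≤ B) :
    ∃ g ∈ S, g ∉ pCore p G ∧ ∀ y ∈ A, (dl g)^[p - 1] y ∈ B := by
  have hQ := isPGroup_pCore p G
  have hQS : pCore p G ≤ S := hS.le_of_le_Nm hQ le_top le_normalizer_of_normal
  obtain ⟨C, hC⟩ := exists_crit hQ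
  have h1 : C ≤ Lst S := (le_Lam (hC.le.trans hQS) ((commutator_mono le_rfl hC.le).trans
    (hC.comm_le.trans inf_le_right)) (le_normalizer_of_normal.trans hC.Nm_le)).trans Lam_PL.le
  obtain ⟨E, hE, h2⟩ : ∃ E, (E ≤ S ∧ ⁅E, E⁆ ≤ Cz(E) ∧ Lst S ≤ Nm(E)) ∧ ¬ E ≤ pCore p G := by
    by_contra hn
    push Not at hn
    refine hN (top_unique ?_)
    rw [← PL_eq (sSup_le fun E h => hn E h) hQS]
    exact (top_le_Nm _).trans ((fnc_PL (p := p)).nm _)
  obtain ⟨g, g1, g2⟩ := SetLike.not_le_iff_exists.1 h2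
  refine ⟨g, hE.1 g1, g2, fun y hy => dl_iter_le (top_le_Nm B trivial) (Crit.dl_five hQ hC hA hB
    (fun x hx => dl_eq_one.2 (hE.2.1 (dl_mem_comm ?_ g1) g g1).symm) hy) (by omega)⟩
  exact mul_mem (conj_mem_of_mem_normalizer' (hE.2.2 (h1 hx)) (inv_mem g1)) g1

theorem pResidual_ne_top_of_Nm (h7 : 7 ≤ p) (hS : SylIn p S ⊤) (h0 : S ≠ ⊥)
    (hN : ∀ g ∈ Nm(S), (orderOf g).Coprime p → g ∈ Cz(S)) : pResidual p G ≠ ⊤ := fun e =>
  fnc_PL.not_le_comm (fnc_PL.focal fun _ _ _ _ _ _ h1 h2 _ _ => PL_low h7 h1 h2) G S hS h0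
    (fun g hg => by
      obtain ⟨s, hs, r, hr, rfl⟩ := (hS.mono le_normalizer le_top).exists_mul_pResidualOf hg
      exact mul_mem (mem_sup_left hs) (mem_sup_right (pResidualOf_le_iff.2 hN hr)))
    (le_trans (le_inf le_rfl (by rw [pResidualOf_top, e]; exact le_top))
      hS.inf_pResidualOf_le_commutator')

end

end CfH9
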