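import Cfsg.Agent.H3.QK0
import Cfsg.Agent.H2.AutU
import Cfsg.Agent.H2.AutSp
import Cfsg.Agent.H9.RankOne

/-! Outer automorphism groups and ranks of classical groups. -/

set_option autoImplicit false
set_option linter.unusedSectionVars false

namespace CfH9.Qk

open Module CfH2 Cfsg Subgroup
open scoped commutatorElement

variable {F V : Type*} [Field F] [AddCommGroup V] [Module F V]
  {σ : F →+* F} {ε κ : F} {τ : F →+ F} {B : V →ₛₗ[σ] V →ₗ[F] F} {Q : V → F}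
  {H G : Type*} [Group H] [Group G] {ρ : H →* (V ≃ₗ[F] V)} {π : H →* G}

theorem out_of_der (n : ℕ) (h : derivedSeries (MulAut G) n ≤ Inn G) : Group.IsSolvable (Out G) :=
  ⟨n, by
    rw [← map_derivedSeries_eq (QuotientGroup.mk'_surjective (Inn G)), Subgroup.map_eq_bot_iff, QuotientGroup.ker_mk']
    exact h⟩

theorem sim_comm {a b : Equiv.Perm V} {s s' : F ≃+* F} {l l' : F} (ha : IsSim B Q s l a) (hb : IsSim B Q s' l' b) :
    IsSim B Q (s'.symm.trans (s.symm.trans (s'.trans s)))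
      (l * s l' * s (s' (s.symm l⁻¹)) * s (s' (s.symm (s'.symm l'⁻¹)))) (⁅a, b⁆ : Equiv.Perm V) :=
  ((ha.comp hb).comp (ha.inv (g' := (a⁻¹ : Equiv.Perm V)) fun v => by simp)).comp
    (hb.inv (g' := (b⁻¹ : Equiv.Perm V)) fun v => by simp)

/-- linear similarities -/
def G1 (B : V →ₛₗ[σ] V →ₗ[F] F) (Q : V → F) : Subgroup (Gam B Q) where
  carrier := {g | ∃ l, IsSim B Q (RingEquiv.refl F) l g.1}
  mul_mem' := fun ⟨_, ha⟩ ⟨_, hb⟩ => ⟨_, ha.comp hb⟩
  one_mem' := ⟨_, isSim_of_isom (one_mem (Isom B Q))⟩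
  inv_mem' := fun {a} ⟨_, ha⟩ => ⟨_, ha.inv fun v => by simp⟩

/-- isometries -/
def G2 (B : V →ₛₗ[σ] V →ₗ[F] F) (Q : V → F) : Subgroup (Gam B Q) where
  carrier := {g | IsSim B Q (RingEquiv.refl F) 1 g.1}
  mul_mem' := fun ha hb => by
    have := ha.comp hb
    rw [map_one, mul_one] at this
    exact this
  one_mem' := isSim_of_isom (one_mem (Isom B Q))
  inv_mem' := fun {a} ha => by
    have := ha.inv (g' := (a⁻¹).1) fun v => by simp
    rw [inv_one, map_one] at this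
    exact this

variable [Finite F] [FiniteDimensional F V] (S : Setup σ ε κ τ B Q ρ π)
include S

theorem der_le (hN : ∀ s l g, IsSim B Q s l g → ∀ a, ∃ a', ∀ v, ρ a' (g v) = g (ρ a v))
    (hC : ∀ a ∈ Isom B Q, ∀ b ∈ Isom B Q, ∃ c, ρ c = ⁅a, b⁆) {n : ℕ} (h : derivedSeries (MulAut G) n ≤ S.Ind) :
    derivedSeries (MulAut G) (n + 3) ≤ Inn G := by
  have hN' : ∀ g : Gam B Q, ∀ a, ∃ a', ∀ v, ρ a' (g.1 v) = g.1 (ρ a v) := fun g => by
    obtain ⟨s, l, hg⟩ := g.2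
    exact hN s l _ hg
  have h1 : ∀ g : Gam B Q, ∃ α : MulAut G, ∀ a a',
      (∀ v, ρ a' (g.1 v) = g.1 (ρ a v)) → α (π a) = π a' := fun g => by
    obtain ⟨s, l, hg⟩ := g.2
    exact S.exists_aut hg (hN s l _ hg)
  choose θ hθ using h1
  let Θ : Gam B Q →* MulAut G := MonoidHom.mk' θ fun g g' => MulEquiv.ext fun b => by
    obtain ⟨a, rfl⟩ := S.surj b
    obtain ⟨a', ha'⟩ := hN' g' a
    obtain ⟨a'', ha''⟩ := hN' g a'
    rw [MulAut.mul_apply, hθ g' a a' ha', hθ g a' a'' ha'']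
    exact hθ _ _ _ fun v => by simp [ha'', ha']
  have hr : S.Ind ≤ map Θ ⊤ := by
    rintro α ⟨s, l, g, hg, h⟩
    let g' : Gam B Q := ⟨Equiv.ofBijective g hg.bij, s, l, hg⟩
    refine ⟨g', mem_top _, MulEquiv.ext fun b => ?_⟩
    obtain ⟨a, rfl⟩ := S.surj b
    obtain ⟨b, hb⟩ := hN' g' a
    obtain ⟨a', ha'⟩ := S.surj (α (π a))
    obtain ⟨c, hc⟩ := h a a' ha'.symm
    rw [← ha']
    refine (hθ g' a b hb).trans (S.pi_eq_of_scalar (c := c) fun v => ?_).symm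
    obtain ⟨v, rfl⟩ := hg.bij.2 v
    rw [hc]; exact congrArg (c • ·) (hb v).symm
  have st : ∀ {n : ℕ} {A C : Subgroup (Gam B Q)}, derivedSeries (MulAut G) n ≤ map Θ A → ⁅A, A⁆ ≤ C →
      derivedSeries (MulAut G) (n + 1) ≤ map Θ C := fun h k => by
    rw [derivedSeries_succ]
    exact (commutator_mono h h).trans ((map_commutator _ _ _).ge.trans (map_mono k))
  refine (st (st (st (h.trans hr) (C := G1 B Q) ?_) (C := G2 B Q) ?_) (C := (Inn G).comap Θ) ?_).trans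
    (map_comap_le _ _) <;> refine commutator_le.2 fun a ha b hb => ?_
  · obtain ⟨s, l, k⟩ := a.2
    obtain ⟨s', l', k'⟩ := b.2
    have := sim_comm k k'
    rw [show s'.symm.trans (s.symm.trans (s'.trans s)) = RingEquiv.refl F from RingEquiv.ext fun x => by
      have := ringHom_comm (s : F →+* F) (s' : F →+* F) (s.symm (s'.symm x))
      simpa using this] at this
    exact ⟨_, this⟩
  · obtain ⟨l, k⟩ := ha
    obtain ⟨l', k'⟩ := hb
    have := sim_comm k k'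
    have h1 := k.ne
    have h2 := k'.ne
    simp only [RingEquiv.symm_refl, RingEquiv.refl_apply] at this
    rw [show l * l' * l⁻¹ * l'⁻¹ = 1 by field_simp] at this
    exact this
  · obtain ⟨k, hk, e⟩ := IsSim.exists_isom ha
    obtain ⟨k', hk', e'⟩ := IsSim.exists_isom hb
    obtain ⟨c, hc⟩ := hC k hk k' hk'
    have i : ∀ {k : V ≃ₗ[F] V} {a : Gam B Q}, (∀ v, k v = a.1 v) → ∀ v, k⁻¹ v = (a.1⁻¹ : Equiv.Perm V) v :=
      fun {k a} e v => k.injective (by rw [e ((a.1⁻¹ : Equiv.Perm V) v)]; simp)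
    have e2 : ∀ v, (⁅a, b⁆ : Gam B Q).1 v = ρ c v := fun v => by
      simp [hc, commutatorElement_def, e, e', i e, i e']
    refine ⟨π c, MulEquiv.ext fun y => ?_⟩
    obtain ⟨y, rfl⟩ := S.surj y
    refine Eq.trans ?_ (hθ _ y (c * y * c⁻¹) fun v => by simp [e2]).symm
    simp

theorem out_solv (hN : ∀ s l g, IsSim B Q s l g → ∀ a, ∃ a', ∀ v, ρ a' (g v) = g (ρ a v))
    (hC : ∀ a ∈ Isom B Q, ∀ b ∈ Isom B Q, ∃ c, ρ c = ⁅a, b⁆) (h : S.Ind = ⊤ ∨ S.Ind.index = 2) :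
    Group.IsSolvable (Out G) := by
  refine out_of_der _ (der_le S hN hC (n := 1) ?_)
  rcases h with h | h
  · exact h ▸ le_top
  · refine commutator_le.2 fun a _ b _ => ?_
    rw [commutatorElement_def, mul_assoc, mul_mem_iff_of_index_two h, mul_mem_iff_of_index_two h,
      mul_mem_iff_of_index_two h, inv_mem_iff, inv_mem_iff]

theorem rank_odd (p : ℕ) [Fact p.Prime] [CharP F p] (hp : p ≠ 2) (hσ : ∃ t, t ≠ ε * σ t) {x : V} (hx : Q x = 0)
    (hx0 : x ≠ 0) : PRankAtLeast p 2 G := by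
  have := S.finite_G
  by_contra c
  have hc := isCyclic_of_pRankLE_one hp (fun A h1 h2 => ?_) (S.isPGroup_RG p (F ∙ x))
  · obtain ⟨a, ha, b, hb, n⟩ := S.wf.exists_Qx_noncomm hσ S.dim hx hx0
    obtain ⟨a, rfl⟩ := S.unip x hx a ha
    obtain ⟨b, rfl⟩ := S.unip x hx b hb
    have := congrArg Subtype.val (hc.isMulCommutative.1.1 ⟨π a, a, ha, rfl⟩ ⟨π b, b, hb, rfl⟩)
    refine n ?_
    rw [← map_mul, ← map_mul, S.eq_of_pi p (a := a * b) (b := b * a)
      (S.pe_of_RW p (by rw [map_mul]; exact mul_mem ha hb)) (S.pe_of_RW p (by rw [map_mul]; exact mul_mem hb ha))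
      (by simpa using this)]
  have hA : IsPGroup p A := fun a => ⟨1, Subtype.ext (by simpa using h2 a a.2)⟩
  obtain ⟨n, hn⟩ := hA.exists_card_eq
  by_contra c'
  refine c ⟨A, h1, h2, ?_⟩
  rw [hn] at c' ⊢
  exact Nat.pow_le_pow_right (Fact.out : p.Prime).pos (by
    by_contra d
    exact c' (Nat.pow_le_pow_right (Fact.out : p.Prime).pos (by omega)))

end CfH9.Qk
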